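import Mathlib
import Cfsg.Agent.Lib.Helper77.PrimIdem
import Cfsg.Agent.Lib.Helper47.Nilp

/-!
# Abstract Brauer pairs in `k[G]` (helper77)

Alperin–Broué theory in the group algebra over a commutative ring `k` of characteristic `p`
for which all `Z(k[H])` have a decomposition of `1` into primitive idempotents.
-/

set_option autoImplicit false
set_option linter.unusedSectionVars false

namespace Cfsg.Agent.Lib.Helper77

open MonoidAlgebra

universe u v

variable {k : Type v} [CommRing k] {G : Type u} [Group G] [Finite G]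

/-- The centralizer of a subgroup. -/
abbrev Cen (Q : Subgroup G) : Subgroup G := Subgroup.centralizer (Q : Set G)

theorem cen_anti {Q P : Subgroup G} (h : Q ≤ P) : Cen P ≤ Cen Q :=
  Subgroup.centralizer_le h

section stable

variable (p : ℕ) [Fact p.Prime] [CharP k p]

/-- The permutation action of `P ≤ N_G(H)` on the set of block idempotents of `H`. -/
noncomputable def permIdem {P H : Subgroup G} (hPH : P ≤ Subgroup.normalizer (H : Set G))
    (S : Finset (MonoidAlgebra k G)) (hS : ∀ e, e ∈ S ↔ IsPrimIdem H e) :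
    P →* Equiv.Perm {e // e ∈ S} where
  toFun u :=
    { toFun := fun e => ⟨cj (u : G) e.1, (hS _).2 (((hS _).1 e.2).cj_of_mem_normalizer (hPH u.2))⟩
      invFun := fun e => ⟨cj (u : G)⁻¹ e.1,
        (hS _).2 (((hS _).1 e.2).cj_of_mem_normalizer (Subgroup.inv_mem _ (hPH u.2)))⟩
      left_inv := fun e => Subtype.ext (by simp)
      right_inv := fun e => Subtype.ext (by simp) }
  map_one' := by
    ext e
    simp
  map_mul' u v := by
    ext e
    simp [cj_mul_apply]

theorem permIdem_apply {P H : Subgroup G} (hPH : P ≤ Subgroup.normalizer (H : Set G))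
    (S : Finset (MonoidAlgebra k G)) (hS : ∀ e, e ∈ S ↔ IsPrimIdem H e) (u : P) (e : {e // e ∈ S}) :
    ((permIdem hPH S hS u e : {e // e ∈ S}) : MonoidAlgebra k G) = cj (u : G) e.1 := rfl

open Classical in
/-- Only the `P`-stable block idempotents of `H` survive the Brauer map at `P`. -/
theorem trunc_sum_eq_sum_stable {P H : Subgroup G} (hP : IsPGroup p P)
    (hPH : P ≤ Subgroup.normalizer (H : Set G))
    (S : Finset (MonoidAlgebra k G)) (hS : ∀ e, e ∈ S ↔ IsPrimIdem H e) :
    trunc (Cen P) (∑ e ∈ S, e) = ∑ e ∈ S.filter (fun e => FixedBy P e), trunc (Cen P) e := by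
  rw [trunc_sum]
  apply ma_ext; intro x
  rw [coeff_sum, coeff_sum, Finsupp.finsetSum_apply, Finsupp.finsetSum_apply]
  by_cases hx : x ∈ Cen P
  · simp only [coeff_trunc_of_mem _ hx]
    rw [← Finset.sum_coe_sort S (fun e => e.coeff x)]
    rw [sum_eq_sum_fixed p hP (permIdem hPH S hS) (fun e : {e // e ∈ S} => e.1.coeff x) ?_
      (Finset.univ.filter fun e : {e // e ∈ S} => FixedBy P e.1) ?_]
    · rw [Finset.sum_filter, Finset.sum_filter,
        Finset.sum_coe_sort S (fun e => if FixedBy P e then e.coeff x else 0)]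
    · intro u e
      rw [permIdem_apply, coeff_cj]
      congr 1
      have := (mem_centralizer_iff_conj.1 hx) u⁻¹
      rw [conjPerm_apply] at this
      simpa using this
    · intro e
      simp only [Finset.mem_filter, Finset.mem_univ, true_and]
      constructor
      · intro h u
        exact Subtype.ext (h u u.2)
      · intro h u hu
        exact congrArg Subtype.val (h ⟨u, hu⟩)
  · simp only [coeff_trunc_of_not_mem _ hx]
    simp

end stable

/-- Abstract Brauer pairs: a subgroup and an element of the group algebra. -/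
abbrev APair (k : Type v) [CommRing k] (G : Type u) [Group G] := Subgroup G × MonoidAlgebra k G

/-- `(Q, f)` is an (abstract) Brauer pair. -/
def IsAPair (p : ℕ) (x : APair k G) : Prop :=
  IsPGroup p x.1 ∧ IsPrimIdem (Cen x.1) x.2

/-- Normal inclusion of abstract Brauer pairs. -/
def ANormal (p : ℕ) (x y : APair k G) : Prop :=
  IsAPair p x ∧ IsAPair p y ∧ x.1 ≤ y.1 ∧ y.1 ≤ Subgroup.normalizer (x.1 : Set G) ∧
    FixedBy y.1 x.2 ∧ trunc (Cen y.1) x.2 * y.2 = y.2

/-- Inclusion of abstract Brauer pairs. -/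
def ALE (p : ℕ) : APair k G → APair k G → Prop := Relation.ReflTransGen (ANormal p)

/-- The pair `y` belongs to the block idempotent `b` of `G`. -/
def IsABlockOf (b : MonoidAlgebra k G) (y : APair k G) : Prop :=
  IsPrimIdem (⊤ : Subgroup G) b ∧ trunc (Cen y.1) b * y.2 = y.2

/-- Conjugation of pairs. -/
noncomputable def cjP (g : G) (x : APair k G) : APair k G :=
  (x.1.map (MulAut.conj g).toMonoidHom, cj g x.2)

section basic

variable {p : ℕ}

theorem ANormal.le {x y : APair k G} (h : ANormal p x y) : x.1 ≤ y.1 := h.2.2.1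

theorem ALE.le {x y : APair k G} (h : ALE p x y) : x.1 ≤ y.1 := by
  induction h with
  | refl => exact le_refl _
  | tail _ h2 ih => exact ih.trans h2.le

theorem ALE.isAPair_left {x y : APair k G} (h : ALE p x y) (hy : IsAPair p y) : IsAPair p x := by
  rcases Relation.ReflTransGen.cases_head h with rfl | ⟨c, hc, _⟩
  · exact hy
  · exact hc.1

theorem ANormal.eq_of_fst_eq {x y : APair k G} (h : ANormal p x y) (hxy : x.1 = y.1) : x = y := by
  obtain ⟨Q, f⟩ := x
  obtain ⟨P, e⟩ := y
  simp only at hxy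
  subst hxy
  obtain ⟨hx, hy, -, -, -, h6⟩ := h
  simp only at h6
  rw [trunc_of_suppIn hx.2.mem.1] at h6
  rcases hx.2.eq_or_mul_eq_zero hy.2 with h | h
  · simp only at h
    rw [h]
  · simp only at h
    rw [h] at h6
    exact absurd h6.symm hy.2.ne_zero

theorem ALE.cases {x y : APair k G} (h : ALE p x y) :
    x = y ∨ ∃ z, ALE p x z ∧ ANormal p z y ∧ z.1 ≠ y.1 := by
  induction h with
  | refl => exact Or.inl rfl
  | @tail b c h1 h2 ih =>
    by_cases hbc : b.1 = c.1
    · have := h2.eq_of_fst_eq hbc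
      subst this
      exact ih
    · exact Or.inr ⟨b, h1, h2, hbc⟩

theorem isPGroup_map_conj {Q : Subgroup G} (hQ : IsPGroup p Q) (g : G) :
    IsPGroup p (Q.map (MulAut.conj g).toMonoidHom) := hQ.map _

theorem IsAPair.cjP {x : APair k G} (hx : IsAPair p x) (g : G) : IsAPair p (cjP g x) := by
  refine ⟨isPGroup_map_conj hx.1 g, ?_⟩
  have := hx.2.cj g
  simp only [Helper77.cjP]
  rw [Cen, centralizer_map_conj]
  exact this

theorem cjP_cjP (g h : G) (x : APair k G) : cjP g (cjP h x) = cjP (g * h) x := by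
  simp only [cjP]
  refine Prod.ext ?_ ?_
  · simp only [Subgroup.map_map]
    congr 1
    ext y
    simp [MulAut.conj_apply, mul_assoc]
  · simp only [cj_mul_apply]

theorem cjP_one (x : APair k G) : cjP (1 : G) x = x := by
  simp only [cjP]
  refine Prod.ext ?_ ?_
  · simp only
    ext y
    simp
  · simp

theorem map_conj_mono {Q P : Subgroup G} (h : Q ≤ P) (g : G) :
    Q.map (MulAut.conj g).toMonoidHom ≤ P.map (MulAut.conj g).toMonoidHom := Subgroup.map_mono h

theorem normalizer_map_conj (Q : Subgroup G) (g : G) :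
    (Subgroup.normalizer (Q : Set G)).map (MulAut.conj g).toMonoidHom ≤
      Subgroup.normalizer ((Q.map (MulAut.conj g).toMonoidHom : Subgroup G) : Set G) := by
  rintro _ ⟨n, hn, rfl⟩
  rw [SetLike.mem_coe] at hn
  rw [Subgroup.mem_normalizer_iff_map_conj_eq] at hn ⊢
  conv_rhs => rw [← hn]
  ext y
  simp only [Subgroup.mem_map, MulEquiv.coe_toMonoidHom, MulAut.conj_apply, exists_exists_and_eq_and]
  constructor
  · rintro ⟨q, hq, rfl⟩
    exact ⟨q, hq, by simp [MulAut.conj_apply, mul_assoc]⟩
  · rintro ⟨q, hq, rfl⟩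
    exact ⟨q, hq, by simp [MulAut.conj_apply, mul_assoc]⟩

theorem FixedBy.cj_map {P : Subgroup G} {a : MonoidAlgebra k G} (ha : FixedBy P a) (g : G) :
    FixedBy (P.map (MulAut.conj g).toMonoidHom) (cj g a) := by
  rintro _ ⟨h, hh, rfl⟩
  have : (MulAut.conj g).toMonoidHom h = g * h * g⁻¹ := rfl
  rw [this, ← cj_mul_apply]
  have h2 : g * h * g⁻¹ * g = g * h := by group
  rw [h2, cj_mul_apply, ha h hh]

theorem ANormal.cjP {x y : APair k G} (h : ANormal p x y) (g : G) :
    ANormal p (cjP g x) (cjP g y) := by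
  obtain ⟨h1, h2, h3, h4, h5, h6⟩ := h
  refine ⟨h1.cjP g, h2.cjP g, map_conj_mono h3 g,
    (map_conj_mono h4 g).trans (normalizer_map_conj _ g), h5.cj_map g, ?_⟩
  simp only [Helper77.cjP]
  rw [Cen, centralizer_map_conj, ← cj_trunc, ← map_mul, h6]

theorem ALE.cjP {x y : APair k G} (h : ALE p x y) (g : G) : ALE p (cjP g x) (cjP g y) :=
  Relation.ReflTransGen.lift (Helper77.cjP g) (fun _ _ hab => ANormal.cjP hab g) _ _ h

end basic

end Cfsg.Agent.Lib.Helper77
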