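import Mathlib
import Cfsg.Agent.Lib.Helper77.APairs

/-!
# Abstract Brauer pairs: existence and uniqueness theorems (helper77)
-/

set_option autoImplicit false
set_option linter.unusedSectionVars false

namespace Cfsg.Agent.Lib.Helper77

open MonoidAlgebra

universe u v

variable {k : Type v} [CommRing k] {G : Type u} [Group G] [Finite G]
variable {p : ℕ} [Fact p.Prime] [CharP k p]

/-- truncation to `C_G(P)` of an element of `Z(k[H])`, `C_G(P) ≤ H`, lies in `Z(k[C_G(P)])`. -/
theorem trunc_mem_zsub {H K : Subgroup G} (hKH : K ≤ H) {a : MonoidAlgebra k G}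
    (ha : a ∈ zsub k H) : trunc K a ∈ zsub k K :=
  ⟨suppIn_trunc _ _, (ha.2.mono hKH).trunc Subgroup.le_normalizer⟩

/-- **Normal subpairs exist and are unique.** -/
theorem existsUnique_normal (hdec : HasBlockDecomp k G) {y : APair k G} (hy : IsAPair p y)
    {Q : Subgroup G} (hQP : Q ≤ y.1) (hPN : y.1 ≤ Subgroup.normalizer (Q : Set G)) :
    ∃! f, ANormal p (Q, f) y := by
  classical
  obtain ⟨P, e⟩ := y
  simp only at hQP hPN
  obtain ⟨hP, he⟩ := hy
  simp only at hP he
  obtain ⟨S, hS, hsum⟩ := hdec (Cen Q)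
  have hPH : P ≤ Subgroup.normalizer ((Cen Q : Subgroup G) : Set G) :=
    hPN.trans (normalizer_le_normalizer_centralizer Q)
  have hstab := trunc_sum_eq_sum_stable p hP hPH S hS
  rw [hsum, trunc_one] at hstab
  obtain ⟨f, hf, hfe, huniq⟩ := he.existsUnique_of_decomp (S.filter fun e => FixedBy P e)
    (fun f => trunc (Cen P) f)
    (fun f hf => trunc_mem_zsub (cen_anti hQP) ((hS f).1 (Finset.mem_filter.1 hf).1).mem)
    (fun f hf => by
      have h2 := (Finset.mem_filter.1 hf).2
      rw [← trunc_centralizer_mul p P hP h2 h2, ((hS f).1 (Finset.mem_filter.1 hf).1).idem])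
    (fun f hf f' hf' hne => by
      have h2 := (Finset.mem_filter.1 hf).2
      have h2' := (Finset.mem_filter.1 hf').2
      rw [← trunc_centralizer_mul p P hP h2 h2',
        ((hS f).1 (Finset.mem_filter.1 hf).1).mul_eq_zero_of_ne
          ((hS f').1 (Finset.mem_filter.1 hf').1) hne, trunc_zero])
    hstab.symm
  refine ⟨f, ⟨⟨hP.to_le hQP, (hS f).1 (Finset.mem_filter.1 hf).1⟩, ⟨hP, he⟩, hQP, hPN,
    (Finset.mem_filter.1 hf).2, hfe⟩, ?_⟩
  rintro f' ⟨h1, -, -, -, h5, h6⟩
  exact huniq f' (Finset.mem_filter.2 ⟨(hS f').2 h1.2, h5⟩) h6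

/-- **Every Brauer pair belongs to a unique block.** -/
theorem existsUnique_block (hdec : HasBlockDecomp k G) {y : APair k G} (hy : IsAPair p y) :
    ∃! b, IsABlockOf b y := by
  classical
  obtain ⟨P, e⟩ := y
  obtain ⟨hP, he⟩ := hy
  simp only at hP he
  obtain ⟨S, hS, hsum⟩ := hdec (⊤ : Subgroup G)
  have hfix : ∀ b ∈ S, FixedBy P b := fun b hb => ((hS b).1 hb).mem.2.mono le_top
  obtain ⟨b, hb, hbe, huniq⟩ := he.existsUnique_of_decomp S (fun b => trunc (Cen P) b)
    (fun b hb => trunc_mem_zsub le_top ((hS b).1 hb).mem)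
    (fun b hb => by
      rw [← trunc_centralizer_mul p P hP (hfix b hb) (hfix b hb), ((hS b).1 hb).idem])
    (fun b hb b' hb' hne => by
      rw [← trunc_centralizer_mul p P hP (hfix b hb) (hfix b' hb'),
        ((hS b).1 hb).mul_eq_zero_of_ne ((hS b').1 hb') hne, trunc_zero])
    (by rw [← trunc_sum, hsum, trunc_one])
  refine ⟨b, ⟨(hS b).1 hb, hbe⟩, ?_⟩
  rintro b' ⟨h1, h2⟩
  exact huniq b' ((hS b').2 h1) h2

/-- Transitivity of the Brauer maps on a product. -/
theorem trunc_mul_of_normal {P R : Subgroup G} (hP : IsPGroup p P) (hRP : R ≤ P)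
    (hPR : P ≤ Subgroup.normalizer (R : Set G)) {a g : MonoidAlgebra k G} (ha : FixedBy P a)
    (hg : FixedBy P g) (h : trunc (Cen R) a * g = g) :
    trunc (Cen P) a * trunc (Cen P) g = trunc (Cen P) g := by
  have h1 : FixedBy P (trunc (Cen R) a) :=
    ha.trunc (hPR.trans (normalizer_le_normalizer_centralizer R))
  have h2 := trunc_centralizer_mul p P hP h1 hg
  rw [h, trunc_trunc_of_le (cen_anti hRP)] at h2
  exact h2.symm

theorem IsABlockOf.of_normal {b : MonoidAlgebra k G} {x y : APair k G} (h : ANormal p x y)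
    (hb : IsABlockOf b x) : IsABlockOf b y := by
  obtain ⟨h1, h2, h3, h4, h5, h6⟩ := h
  refine ⟨hb.1, ?_⟩
  have h7 := trunc_mul_of_normal h2.1 h3 h4 (hb.1.mem.2.mono le_top) h5 hb.2
  calc trunc (Cen y.1) b * y.2 = trunc (Cen y.1) b * (trunc (Cen y.1) x.2 * y.2) := by rw [h6]
    _ = trunc (Cen y.1) x.2 * y.2 := by rw [← mul_assoc, h7]
    _ = y.2 := h6

theorem isABlockOf_iff_of_normal (hdec : HasBlockDecomp k G) {b : MonoidAlgebra k G}
    {x y : APair k G} (h : ANormal p x y) : IsABlockOf b x ↔ IsABlockOf b y := by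
  refine ⟨fun hb => hb.of_normal h, fun hb => ?_⟩
  obtain ⟨b', hb', -⟩ := existsUnique_block hdec h.1
  have := (existsUnique_block hdec h.2.1).unique (hb'.of_normal h) hb
  rwa [this] at hb'

theorem isABlockOf_iff_of_le (hdec : HasBlockDecomp k G) {b : MonoidAlgebra k G}
    {x y : APair k G} (h : ALE p x y) : IsABlockOf b x ↔ IsABlockOf b y := by
  induction h with
  | refl => exact Iff.rfl
  | tail _ h2 ih => exact ih.trans (isABlockOf_iff_of_normal hdec h2)

/-- If `(S, h)` and `(R, g)` are normal subpairs of `(P, e)` and `S ≤ R`, then `(S, h)` is a normal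
subpair of `(R, g)`. -/
theorem ANormal.of_normal_normal (hdec : HasBlockDecomp k G) {x z y : APair k G}
    (hx : ANormal p x y) (hz : ANormal p z y) (hxz : x.1 ≤ z.1) : ANormal p x z := by
  obtain ⟨S, h⟩ := x
  obtain ⟨R, g⟩ := z
  obtain ⟨P, e⟩ := y
  simp only at hxz
  have hRN : R ≤ Subgroup.normalizer (S : Set G) := hz.le.trans hx.2.2.2.1
  obtain ⟨h', hh', huniq⟩ := existsUnique_normal hdec hz.1 (Q := S) hxz hRN
  -- `h'` is `P`-stable
  have hfix : FixedBy P h' := by
    intro u hu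
    have h1 := hh'.cjP u
    have e1 : Helper77.cjP u ((S, h') : APair k G) = (S, cj u h') := by
      simp only [Helper77.cjP]
      rw [show S.map (MulAut.conj u).toMonoidHom = S from
        Subgroup.mem_normalizer_iff_map_conj_eq.1 (hx.2.2.2.1 hu)]
    have e2 : Helper77.cjP u ((R, g) : APair k G) = (R, g) := by
      simp only [Helper77.cjP]
      rw [show R.map (MulAut.conj u).toMonoidHom = R from
        Subgroup.mem_normalizer_iff_map_conj_eq.1 (hz.2.2.2.1 hu), hz.2.2.2.2.1 u hu]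
    rw [e1, e2] at h1
    exact huniq _ h1
  have h7 := trunc_mul_of_normal (a := h') (g := g) hz.2.1.1 hz.le hz.2.2.2.1 hfix hz.2.2.2.2.1
    hh'.2.2.2.2.2
  have h8 : trunc (Cen P) h' * e = e := by
    have h6 := hz.2.2.2.2.2
    simp only at h6
    calc trunc (Cen P) h' * e = trunc (Cen P) h' * (trunc (Cen P) g * e) := by rw [h6]
      _ = trunc (Cen P) g * e := by rw [← mul_assoc, h7]
      _ = e := h6
  have h9 : ANormal p ((S, h') : APair k G) (P, e) :=
    ⟨hh'.1, hx.2.1, hx.le, hx.2.2.2.1, hfix, h8⟩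
  have := (existsUnique_normal hdec hx.2.1 (Q := S) hx.le hx.2.2.2.1).unique h9 hx
  rw [← this]
  exact hh'

/-- **Existence of subpairs.** -/
theorem exists_ALE (hdec : HasBlockDecomp k G) {y : APair k G} (hy : IsAPair p y) :
    ∀ (n : ℕ) (Q : Subgroup G), Q ≤ y.1 → Nat.card y.1 - Nat.card Q = n → ∃ f, ALE p (Q, f) y := by
  intro n
  induction n using Nat.strong_induction_on with
  | _ n ih =>
    intro Q hQ hn
    by_cases hQP : Q = y.1
    · subst hQP
      exact ⟨y.2, Relation.ReflTransGen.refl⟩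
    · have hlt : Q < y.1 := lt_of_le_of_ne hQ hQP
      have h1 := Cfsg.Agent.Lib.Helper47.lt_inf_normalizer hy.1 hlt
      set Q1 := y.1 ⊓ Subgroup.normalizer (Q : Set G) with hQ1
      have hc1 : Nat.card Q < Nat.card Q1 := by
        refine lt_of_le_of_ne (Subgroup.card_le_of_le h1.le) fun hcard => ?_
        exact h1.ne (Subgroup.eq_of_le_of_card_ge h1.le hcard.ge)
      have hc2 : Nat.card Q1 ≤ Nat.card y.1 := Subgroup.card_le_of_le inf_le_left
      obtain ⟨f1, hf1⟩ := ih (Nat.card y.1 - Nat.card Q1) (by omega) Q1 inf_le_left rfl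
      obtain ⟨f, hf, -⟩ := existsUnique_normal hdec (hf1.isAPair_left hy) (Q := Q) h1.le inf_le_right
      exact ⟨f, Relation.ReflTransGen.head hf hf1⟩

theorem exists_ALE' (hdec : HasBlockDecomp k G) {y : APair k G} (hy : IsAPair p y)
    {Q : Subgroup G} (hQ : Q ≤ y.1) : ∃ f, ALE p (Q, f) y :=
  exists_ALE hdec hy _ Q hQ rfl

theorem normalizer_inf_le (R R' : Subgroup G) :
    Subgroup.normalizer (R : Set G) ⊓ Subgroup.normalizer (R' : Set G) ≤
      Subgroup.normalizer ((R ⊓ R' : Subgroup G) : Set G) := by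
  intro g hg
  obtain ⟨h1, h2⟩ := Subgroup.mem_inf.1 hg
  rw [Subgroup.mem_normalizer_iff] at h1 h2 ⊢
  intro x
  rw [Subgroup.mem_inf, Subgroup.mem_inf, h1 x, h2 x]

theorem card_lt_of_le_of_ne {R P : Subgroup G} (h : R ≤ P) (hne : R ≠ P) :
    Nat.card R < Nat.card P := by
  refine lt_of_le_of_ne (Subgroup.card_le_of_le h) fun hcard => ?_
  exact hne (Subgroup.eq_of_le_of_card_ge h hcard.ge)

/-- **Uniqueness of subpairs** (Alperin–Broué). -/
theorem ALE.unique_aux (hdec : HasBlockDecomp k G) :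
    ∀ (n : ℕ) (y : APair k G), Nat.card y.1 = n → IsAPair p y →
      ∀ (Q : Subgroup G) (f f' : MonoidAlgebra k G), ALE p (Q, f) y → ALE p (Q, f') y → f = f' := by
  intro n
  induction n using Nat.strong_induction_on with
  | _ n ih =>
    intro y hn hy Q f f' h1 h2
    rcases h1.cases with e1 | ⟨z, hz1, hz2, hz3⟩
    · rcases h2.cases with e2 | ⟨z', hz1', hz2', hz3'⟩
      · have := e1.trans e2.symm
        exact (Prod.ext_iff.1 this).2
      · exfalso
        apply hz3'
        have h3 : y.1 ≤ z'.1 := by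
          rw [← e1]; exact hz1'.le
        exact le_antisymm hz2'.le h3
    · rcases h2.cases with e2 | ⟨z', hz1', hz2', hz3'⟩
      · exfalso
        apply hz3
        have h3 : y.1 ≤ z.1 := by
          rw [← e2]; exact hz1.le
        exact le_antisymm hz2.le h3
      · have hSP : z.1 ⊓ z'.1 ≤ y.1 := inf_le_left.trans hz2.le
        have hPN : y.1 ≤ Subgroup.normalizer ((z.1 ⊓ z'.1 : Subgroup G) : Set G) :=
          (le_inf hz2.2.2.2.1 hz2'.2.2.2.1).trans (normalizer_inf_le _ _)
        obtain ⟨h, hh, -⟩ := existsUnique_normal hdec hy hSP hPN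
        have hS1 : ANormal p ((z.1 ⊓ z'.1, h) : APair k G) z :=
          hh.of_normal_normal hdec hz2 inf_le_left
        have hS2 : ANormal p ((z.1 ⊓ z'.1, h) : APair k G) z' :=
          hh.of_normal_normal hdec hz2' inf_le_right
        obtain ⟨f'', hf''⟩ := exists_ALE' hdec hh.1 (Q := Q) (le_inf hz1.le hz1'.le)
        have c1 := card_lt_of_le_of_ne hz2.le hz3
        have c2 := card_lt_of_le_of_ne hz2'.le hz3'
        have r1 := ih _ (hn ▸ c1) z rfl hz2.1 Q f f'' hz1 (hf''.tail hS1)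
        have r2 := ih _ (hn ▸ c2) z' rfl hz2'.1 Q f' f'' hz1' (hf''.tail hS2)
        rw [r1, r2]

theorem ALE.unique (hdec : HasBlockDecomp k G) {y : APair k G} (hy : IsAPair p y)
    {Q : Subgroup G} {f f' : MonoidAlgebra k G} (h1 : ALE p (Q, f) y) (h2 : ALE p (Q, f') y) :
    f = f' :=
  ALE.unique_aux hdec _ y rfl hy Q f f' h1 h2

end Cfsg.Agent.Lib.Helper77
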