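import Mathlib
import Cfsg.Prelude.Def_BrauerPairs
import Cfsg.Agent.Lib.Helper77.Dict2

/-!
# Dictionary, part 3 (helper77): subgroups

Embedding `k[H] → k[G]`, the block idempotents `idem M H b` of a subgroup inside `F[G]`,
`HasBlockDecomp (ResF M) G`.
-/

set_option autoImplicit false
set_option linter.unusedSectionVars false

namespace Cfsg.Agent.Lib.Helper77

open Cfsg MonoidAlgebra Cfsg.Agent.Lib.Helper78

universe u v

section emb

variable {k : Type v} [CommRing k] {G : Type u} [Group G] [Finite G]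

/-- The embedding `k[H] → k[G]`. -/
noncomputable def emb (H : Subgroup G) : MonoidAlgebra k H →+* MonoidAlgebra k G :=
  mapDomainRingHom k H.subtype

theorem coeff_emb_coe (H : Subgroup G) (a : MonoidAlgebra k H) (h : H) :
    (emb H a).coeff (h : G) = a.coeff h :=
  Finsupp.mapDomain_apply Subtype.val_injective _ _

theorem coeff_emb_of_mem (H : Subgroup G) (a : MonoidAlgebra k H) {g : G} (hg : g ∈ H) :
    (emb H a).coeff g = a.coeff ⟨g, hg⟩ := coeff_emb_coe H a ⟨g, hg⟩

theorem coeff_emb_of_not_mem (H : Subgroup G) (a : MonoidAlgebra k H) {g : G} (hg : g ∉ H) :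
    (emb H a).coeff g = 0 :=
  Finsupp.mapDomain_of_notMem_range _ _ (by simpa using hg)

theorem suppIn_emb (H : Subgroup G) (a : MonoidAlgebra k H) : SuppIn H (emb H a) :=
  fun _ hx => coeff_emb_of_not_mem H a hx

/-- Restriction of coefficients to a subgroup. -/
noncomputable def res (H : Subgroup G) (a : MonoidAlgebra k G) : MonoidAlgebra k H :=
  ofFun fun h => a.coeff (h : G)

theorem emb_res (H : Subgroup G) (a : MonoidAlgebra k G) : emb H (res H a) = trunc H a := by
  apply ma_ext; intro x
  by_cases hx : x ∈ H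
  · rw [coeff_emb_of_mem H _ hx, coeff_trunc_of_mem _ hx]; rfl
  · rw [coeff_emb_of_not_mem H _ hx, coeff_trunc_of_not_mem _ hx]

theorem res_emb (H : Subgroup G) (a : MonoidAlgebra k H) : res H (emb H a) = a := by
  apply ma_ext; intro x
  exact coeff_emb_coe H a x

theorem emb_injective (H : Subgroup G) :
    Function.Injective (emb H : MonoidAlgebra k H → MonoidAlgebra k G) :=
  Function.LeftInverse.injective (res_emb H)

theorem cj_emb (H : Subgroup G) (h : H) (a : MonoidAlgebra k H) :
    cj (h : G) (emb H a) = emb H (cj h a) := by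
  apply ma_ext; intro x
  rw [coeff_cj]
  by_cases hx : x ∈ H
  · have hx' : (h : G)⁻¹ * x * h ∈ H := H.mul_mem (H.mul_mem (H.inv_mem h.2) hx) h.2
    rw [coeff_emb_of_mem H _ hx, coeff_emb_of_mem H _ hx', coeff_cj]
    rfl
  · have hx' : (h : G)⁻¹ * x * h ∉ H := fun hh => hx (by
      have := H.mul_mem (H.mul_mem h.2 hh) (H.inv_mem h.2)
      simpa [mul_assoc] using this)
    rw [coeff_emb_of_not_mem H _ hx, coeff_emb_of_not_mem H _ hx']

theorem fixedBy_emb_iff (H : Subgroup G) (a : MonoidAlgebra k H) :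
    FixedBy H (emb H a) ↔ FixedBy ⊤ a := by
  constructor
  · intro h u _
    apply emb_injective H
    rw [← cj_emb]
    exact h u u.2
  · intro h u hu
    have := cj_emb H ⟨u, hu⟩ a
    rw [h ⟨u, hu⟩ (Subgroup.mem_top _)] at this
    exact this

theorem emb_mem_zsub_iff (H : Subgroup G) (a : MonoidAlgebra k H) :
    emb H a ∈ zsub k H ↔ a ∈ zsub k (⊤ : Subgroup H) := by
  have := Fintype.ofFinite H
  rw [mem_zsub_top, mem_zsub, fixedBy_emb_iff]
  exact ⟨fun h => h.2, fun h => ⟨suppIn_emb H a, h⟩⟩

theorem exists_emb_eq_of_suppIn {H : Subgroup G} {ε : MonoidAlgebra k G} (hε : SuppIn H ε) :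
    emb H (res H ε) = ε := by
  rw [emb_res, trunc_of_suppIn hε]

theorem isPrimIdem_emb_iff (H : Subgroup G) (a : MonoidAlgebra k H) :
    IsPrimIdem H (emb H a) ↔ IsPrimIdem (⊤ : Subgroup H) a := by
  constructor
  · intro h
    refine ⟨(emb_mem_zsub_iff H a).1 h.mem, ?_, ?_, ?_⟩
    · apply emb_injective H; rw [map_mul, h.idem]
    · rintro rfl; exact h.ne_zero (map_zero _)
    · intro ε hε hidem
      rcases h.prim (emb H ε) ((emb_mem_zsub_iff H ε).2 hε) (by rw [← map_mul, hidem]) with h1 | h1
      · left; apply emb_injective H; rw [map_mul, h1]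
      · right; apply emb_injective H; rw [map_mul, h1, map_zero]
  · intro h
    refine ⟨(emb_mem_zsub_iff H a).2 h.mem, ?_, ?_, ?_⟩
    · rw [← map_mul, h.idem]
    · intro h0; exact h.ne_zero (emb_injective H (by rw [h0, map_zero]))
    · intro ε hε hidem
      have e1 := exists_emb_eq_of_suppIn hε.1
      rw [← e1] at hε hidem ⊢
      rw [← map_mul] at hidem
      rcases h.prim _ ((emb_mem_zsub_iff H _).1 hε) (emb_injective H hidem) with h1 | h1
      · left; rw [← map_mul, h1]
      · right; rw [← map_mul, h1, map_zero]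

end emb

section idem

variable {G : Type u} [Group G] [Finite G] (M : Ideal AlgInt) [hP : M.IsPrime]

/-- The idempotent of `F[G]` attached to a set of irreducible characters of a subgroup. -/
noncomputable def idem (H : Subgroup G) (b : Set (IrrCharacter H)) : MonoidAlgebra (ResF M) G :=
  ofFun fun g => red M (subgroupBlockCoeff H b g)

theorem subgroupBlockCoeff_of_mem (H : Subgroup G) (b : Set (IrrCharacter H)) {g : G}
    (hg : g ∈ H) : subgroupBlockCoeff H b g = blockCoeff b ⟨g, hg⟩ := by
  simp [subgroupBlockCoeff, hg]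

theorem subgroupBlockCoeff_coe (H : Subgroup G) (b : Set (IrrCharacter H)) (h : H) :
    subgroupBlockCoeff H b (h : G) = blockCoeff b h := subgroupBlockCoeff_of_mem H b h.2

theorem subgroupBlockCoeff_of_not_mem (H : Subgroup G) (b : Set (IrrCharacter H)) {g : G}
    (hg : g ∉ H) : subgroupBlockCoeff H b g = 0 := by
  simp [subgroupBlockCoeff, hg]

theorem idem_eq_emb (H : Subgroup G) (b : Set (IrrCharacter H)) :
    idem M H b = emb H (ebar M b) := by
  apply ma_ext; intro x
  by_cases hx : x ∈ H
  · rw [coeff_emb_of_mem H _ hx]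
    simp only [idem, ebar, coeff_ofFun, subgroupBlockCoeff_of_mem H b hx]
  · rw [coeff_emb_of_not_mem H _ hx]
    simp only [idem, coeff_ofFun, subgroupBlockCoeff_of_not_mem H b hx, red_zero]

theorem isPrimIdem_idem {H : Subgroup G} {b : Set (IrrCharacter H)} (hb : IsPBlock M b) :
    IsPrimIdem H (idem M H b) := by
  have := Fintype.ofFinite H
  rw [idem_eq_emb, isPrimIdem_emb_iff]
  exact isPrimIdem_ebar M hb

theorem isPrimIdem_iff {H : Subgroup G} {ε : MonoidAlgebra (ResF M) G} :
    IsPrimIdem H ε ↔ ∃ b : Set (IrrCharacter H), IsPBlock M b ∧ ε = idem M H b := by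
  have := Fintype.ofFinite H
  constructor
  · intro h
    have e1 := exists_emb_eq_of_suppIn h.mem.1
    rw [← e1, isPrimIdem_emb_iff, isPrimIdem_top_iff] at h
    obtain ⟨b, hb, hε⟩ := h
    exact ⟨b, hb, by rw [idem_eq_emb, ← hε, e1]⟩
  · rintro ⟨b, hb, rfl⟩
    exact isPrimIdem_idem M hb

theorem idem_injective {H : Subgroup G} {b b' : Set (IrrCharacter H)} (hb : IsPBlock M b)
    (hb' : IsPBlock M b') (h : idem M H b = idem M H b') : b = b' := by
  have := Fintype.ofFinite H
  rw [idem_eq_emb, idem_eq_emb] at h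
  exact ebar_injective M hb hb' (emb_injective H h)

theorem hasBlockDecomp : HasBlockDecomp (ResF M) G := by
  classical
  intro H
  have := Fintype.ofFinite H
  refine ⟨(blocksFinset H M).image (idem M H), ?_, ?_⟩
  · intro e
    rw [isPrimIdem_iff M, Finset.mem_image]
    constructor
    · rintro ⟨b, hb, rfl⟩; exact ⟨b, (mem_blocksFinset M).1 hb, rfl⟩
    · rintro ⟨b, hb, rfl⟩; exact ⟨b, (mem_blocksFinset M).2 hb, rfl⟩
  · rw [Finset.sum_image]
    · simp only [idem_eq_emb]
      rw [← map_sum, sum_ebar, map_one]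
    · intro b hb b' hb' h
      exact idem_injective M ((mem_blocksFinset M).1 hb) ((mem_blocksFinset M).1 hb') h

end idem

end Cfsg.Agent.Lib.Helper77
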