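import Mathlib
import Cfsg.Prelude.Def_BrauerPairs
import Cfsg.Agent.Lib.Helper80.Inflation
import Cfsg.Agent.Lib.Helper77.Dict3

/-!
# Dictionary, part 4 (helper77): transport of blocks along isomorphisms and conjugation
-/

set_option autoImplicit false
set_option linter.unusedSectionVars false

namespace Cfsg.Agent.Lib.Helper77

open Cfsg MonoidAlgebra Cfsg.Agent.Lib.Helper78
open scoped ComplexConjugate

universe u v

section equiv

variable {K : Type u} {K' : Type v} [Group K] [Group K'] (φ : K ≃* K')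

/-- Push-forward of irreducible characters along an isomorphism. -/
noncomputable def irrPush : IrrCharacter K ≃ IrrCharacter K' := Helper80.irrCongr φ.symm

theorem irrPush_apply (χ : IrrCharacter K) (k' : K') :
    (irrPush φ χ : K' → ℂ) k' = (χ : K → ℂ) (φ.symm k') := rfl

@[simp] theorem irrPush_apply_apply (χ : IrrCharacter K) (k : K) :
    (irrPush φ χ : K' → ℂ) (φ k) = (χ : K → ℂ) k := by
  rw [irrPush_apply, MulEquiv.symm_apply_apply]

@[simp] theorem irrPush_one (χ : IrrCharacter K) :
    (irrPush φ χ : K' → ℂ) 1 = (χ : K → ℂ) 1 := by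
  rw [irrPush_apply, map_one]

theorem centralizer_singleton_map (k : K) :
    Subgroup.centralizer ({φ k} : Set K')
      = (Subgroup.centralizer ({k} : Set K)).map (φ : K →* K') := by
  ext y
  simp only [Subgroup.mem_centralizer_singleton_iff, Subgroup.mem_map, MonoidHom.coe_coe]
  constructor
  · intro h
    refine ⟨φ.symm y, ?_, by simp⟩
    apply φ.injective
    simpa using h
  · rintro ⟨z, hz, rfl⟩
    rw [← map_mul, ← map_mul, hz]

theorem index_centralizer_map (k : K) :
    (Subgroup.centralizer ({φ k} : Set K')).index = (Subgroup.centralizer ({k} : Set K)).index := by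
  rw [centralizer_singleton_map]
  exact Subgroup.index_map_equiv _ φ

theorem centralChar_irrPush (χ : IrrCharacter K) (k : K) :
    centralChar (irrPush φ χ : K' → ℂ) (φ k) = centralChar (χ : K → ℂ) k := by
  unfold centralChar
  rw [index_centralizer_map, irrPush_apply_apply, irrPush_one]

theorem sameBlock_irrPush_iff (M : Ideal AlgInt) (χ ψ : IrrCharacter K) :
    SameBlock M (irrPush φ χ : K' → ℂ) (irrPush φ ψ : K' → ℂ)
      ↔ SameBlock M (χ : K → ℂ) (ψ : K → ℂ) := by
  constructor
  · intro h k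
    have := h (φ k)
    rwa [centralChar_irrPush, centralChar_irrPush] at this
  · intro h k'
    obtain ⟨k, rfl⟩ := φ.surjective k'
    rw [centralChar_irrPush, centralChar_irrPush]
    exact h k

theorem blockOf_irrPush (M : Ideal AlgInt) (χ : IrrCharacter K) :
    blockOf M (irrPush φ χ : K' → ℂ) = irrPush φ '' blockOf M (χ : K → ℂ) := by
  ext ψ'
  obtain ⟨ψ, rfl⟩ := (irrPush φ).surjective ψ'
  rw [(irrPush φ).injective.mem_set_image]
  exact sameBlock_irrPush_iff φ M χ ψ

theorem isPBlock_irrPush {M : Ideal AlgInt} {f : Set (IrrCharacter K)} (hf : IsPBlock M f) :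
    IsPBlock M (irrPush φ '' f) := by
  obtain ⟨χ, rfl⟩ := hf
  exact ⟨irrPush φ χ, (blockOf_irrPush φ M χ).symm⟩

theorem blockCoeff_irrPush (f : Set (IrrCharacter K)) (k : K) :
    blockCoeff (irrPush φ '' f) (φ k) = blockCoeff f k := by
  unfold blockCoeff
  rw [Nat.card_congr φ.toEquiv.symm, finsum_mem_image (irrPush φ).injective.injOn]
  simp only [irrPush_apply_apply, irrPush_one]

end equiv

section conjugation

variable {G : Type u} [Group G]

/-- The isomorphism `K ≃* K'` induced by conjugation by `x` when `K' = x K x⁻¹`. -/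
noncomputable def conjEquiv {K K' : Subgroup G} {x : G}
    (hx : K' = K.map (MulAut.conj x).toMonoidHom) : K ≃* K' :=
  (K.equivMapOfInjective _ (MulAut.conj x).injective).trans (MulEquiv.subgroupCongr hx.symm)

theorem coe_conjEquiv {K K' : Subgroup G} {x : G}
    (hx : K' = K.map (MulAut.conj x).toMonoidHom) (k : K) :
    ((conjEquiv hx k : K') : G) = x * k * x⁻¹ := rfl

/-- The conjugate by `x` of a set of irreducible characters of `K`, as a set of irreducible
characters of `K'` (in use `K' = x K x⁻¹`). -/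
def conjSet (K K' : Subgroup G) (x : G) (f : Set (IrrCharacter K)) : Set (IrrCharacter K') :=
  {ξ' | ∃ ξ ∈ f, ∀ (c : K) (c' : K'), (c' : G) = x * (c : G) * x⁻¹ →
    (ξ' : K' → ℂ) c' = (ξ : K → ℂ) c}

theorem conjBlock_eq_conjSet (Q : Subgroup G) (x : G)
    (f : Set (IrrCharacter (Subgroup.centralizer (Q : Set G)))) :
    conjBlock Q x f = conjSet (Subgroup.centralizer (Q : Set G))
      (Subgroup.centralizer ((Q.map (MulAut.conj x).toMonoidHom : Subgroup G) : Set G)) x f := rfl

theorem isConj_iff_eq_irrPush {K K' : Subgroup G} {x : G}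
    (hx : K' = K.map (MulAut.conj x).toMonoidHom) (ξ : IrrCharacter K) (ξ' : IrrCharacter K') :
    (∀ (c : K) (c' : K'), (c' : G) = x * (c : G) * x⁻¹ → (ξ' : K' → ℂ) c' = (ξ : K → ℂ) c)
      ↔ ξ' = irrPush (conjEquiv hx) ξ := by
  constructor
  · intro h
    apply Subtype.ext
    funext c'
    obtain ⟨c, rfl⟩ := (conjEquiv hx).surjective c'
    rw [irrPush_apply_apply]
    exact h c _ (coe_conjEquiv hx c)
  · rintro rfl c c' hc
    have : c' = conjEquiv hx c := Subtype.ext (by rw [hc, coe_conjEquiv])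
    rw [this, irrPush_apply_apply]

theorem conjSet_eq_image {K K' : Subgroup G} {x : G}
    (hx : K' = K.map (MulAut.conj x).toMonoidHom) (f : Set (IrrCharacter K)) :
    conjSet K K' x f = irrPush (conjEquiv hx) '' f := by
  ext ξ'
  simp only [conjSet, Set.mem_ofPred_eq, Set.mem_image, isConj_iff_eq_irrPush hx]
  constructor
  · rintro ⟨ξ, h1, rfl⟩; exact ⟨ξ, h1, rfl⟩
  · rintro ⟨ξ, h1, rfl⟩; exact ⟨ξ, h1, rfl⟩

theorem isPBlock_conjSet {M : Ideal AlgInt} {K K' : Subgroup G} {x : G}
    (hx : K' = K.map (MulAut.conj x).toMonoidHom) {f : Set (IrrCharacter K)}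
    (hf : IsPBlock M f) : IsPBlock M (conjSet K K' x f) := by
  rw [conjSet_eq_image hx]
  exact isPBlock_irrPush _ hf

theorem mem_map_conj_iff {K : Subgroup G} {x g : G} :
    g ∈ K.map (MulAut.conj x).toMonoidHom ↔ x⁻¹ * g * x ∈ K := by
  constructor
  · rintro ⟨y, hy, rfl⟩
    simpa [mul_assoc] using hy
  · intro h
    exact ⟨_, h, by simp [mul_assoc]⟩

theorem subgroupBlockCoeff_conjSet [Finite G] {K K' : Subgroup G} {x : G}
    (hx : K' = K.map (MulAut.conj x).toMonoidHom) (f : Set (IrrCharacter K)) (g : G) :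
    subgroupBlockCoeff K' (conjSet K K' x f) g = subgroupBlockCoeff K f (x⁻¹ * g * x) := by
  by_cases hg : g ∈ K'
  · have hg' : x⁻¹ * g * x ∈ K := by rw [hx] at hg; exact mem_map_conj_iff.1 hg
    rw [subgroupBlockCoeff_of_mem _ _ hg, subgroupBlockCoeff_of_mem _ _ hg', conjSet_eq_image hx]
    have : (⟨g, hg⟩ : K') = conjEquiv hx ⟨x⁻¹ * g * x, hg'⟩ :=
      Subtype.ext (by rw [coe_conjEquiv]; simp [mul_assoc])
    rw [this, blockCoeff_irrPush]
  · have hg' : x⁻¹ * g * x ∉ K := fun h => hg (by rw [hx]; exact mem_map_conj_iff.2 h)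
    rw [subgroupBlockCoeff_of_not_mem _ _ hg, subgroupBlockCoeff_of_not_mem _ _ hg']

theorem idem_conjSet [Finite G] (M : Ideal AlgInt) [hP : M.IsPrime] {K K' : Subgroup G} {x : G}
    (hx : K' = K.map (MulAut.conj x).toMonoidHom) (f : Set (IrrCharacter K)) :
    idem M K' (conjSet K K' x f) = cj x (idem M K f) := by
  apply ma_ext; intro g
  rw [coeff_cj]
  simp only [idem, coeff_ofFun, subgroupBlockCoeff_conjSet hx]

theorem stabilizesBlock_iff_conjSet {K : Subgroup G} (e : Set (IrrCharacter K)) (g : G) :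
    StabilizesBlock K e g ↔ g ∈ Subgroup.normalizer (K : Set G) ∧ conjSet K K g e ⊆ e := by
  unfold StabilizesBlock
  apply and_congr_right
  intro hg
  have hx : K = K.map (MulAut.conj g).toMonoidHom :=
    (Subgroup.mem_normalizer_iff_map_conj_eq.1 hg).symm
  rw [conjSet_eq_image hx]
  simp only [IsConjCharOf, isConj_iff_eq_irrPush hx]
  constructor
  · rintro h _ ⟨χ, hχ, rfl⟩
    obtain ⟨χ', h1, rfl⟩ := h χ hχ
    exact h1
  · intro h χ hχ
    exact ⟨_, h ⟨χ, hχ, rfl⟩, rfl⟩

theorem stabilizesBlock_iff_conjSet_eq {M : Ideal AlgInt} (hM : M.IsPrime) {K : Subgroup G}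
    {e : Set (IrrCharacter K)} (he : IsPBlock M e) (g : G) :
    StabilizesBlock K e g ↔ g ∈ Subgroup.normalizer (K : Set G) ∧ conjSet K K g e = e := by
  rw [stabilizesBlock_iff_conjSet]
  apply and_congr_right
  intro hg
  have hx : K = K.map (MulAut.conj g).toMonoidHom :=
    (Subgroup.mem_normalizer_iff_map_conj_eq.1 hg).symm
  constructor
  · intro h
    have hb := isPBlock_conjSet hx he
    obtain ⟨χ, hχ⟩ := IsPBlock.nonempty hM hb
    exact IsPBlock.eq_of_mem_mem hM hb he hχ (h hχ)
  · intro h; rw [h]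

theorem stabilizesBlock_iff_cj [Finite G] (M : Ideal AlgInt) [hP : M.IsPrime] {K : Subgroup G}
    {e : Set (IrrCharacter K)} (he : IsPBlock M e) (g : G) :
    StabilizesBlock K e g ↔
      g ∈ Subgroup.normalizer (K : Set G) ∧ cj g (idem M K e) = idem M K e := by
  rw [stabilizesBlock_iff_conjSet_eq hP he]
  apply and_congr_right
  intro hg
  have hx : K = K.map (MulAut.conj g).toMonoidHom :=
    (Subgroup.mem_normalizer_iff_map_conj_eq.1 hg).symm
  rw [← idem_conjSet M hx]
  constructor
  · intro h; rw [h]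
  · intro h; exact idem_injective M (isPBlock_conjSet hx he) he h

end conjugation

end Cfsg.Agent.Lib.Helper77
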