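import Mathlib
import Cfsg.Prelude.Def_BrauerPairs
import Cfsg.Agent.Lib.Helper77.Dict4
import Cfsg.Agent.Lib.Helper77.APairs2

/-!
# Dictionary, part 5 (helper77): Brauer pairs of the Prelude versus abstract Brauer pairs
-/

set_option autoImplicit false
set_option linter.unusedSectionVars false

namespace Cfsg.Agent.Lib.Helper77

open Cfsg MonoidAlgebra Cfsg.Agent.Lib.Helper78

universe u

variable {G : Type u} [Group G] [Finite G] (M : Ideal AlgInt) [hP : M.IsPrime]

/-- The reduction mod `M` of a complex coefficient function. -/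
noncomputable def redFn (β : G → ℂ) : MonoidAlgebra (ResF M) G := ofFun fun g => red M (β g)

theorem ebar_eq_redFn (B : Set (IrrCharacter G)) : ebar M B = redFn M (blockCoeff B) := rfl

theorem idem_eq_redFn (H : Subgroup G) (b : Set (IrrCharacter H)) :
    idem M H b = redFn M (subgroupBlockCoeff H b) := rfl

/-- **Criterion**: the central character of a block `b` of `H` takes the value `1` mod `M` on the
truncation to `H` of `β` iff the reduction of the truncation fixes the idempotent of `b`. -/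
theorem crit {H : Subgroup G} {b : Set (IrrCharacter H)} (hb : IsPBlock M b) (β : G → ℂ)
    (h1 : ∀ x ∈ H, MemLocalRing M (β x))
    (h2 : ∀ c ∈ H, ∀ x ∈ H, β (c * x * c⁻¹) = β x)
    (h3 : trunc H (redFn M β) * trunc H (redFn M β) = trunc H (redFn M β)) :
    trunc H (redFn M β) * idem M H b = idem M H b ↔
      ∀ ξ ∈ b, MemLocalIdeal M
        ((∑ᶠ x : H, β x * (ξ : H → ℂ) x / (ξ : H → ℂ) 1) - 1) := by
  have := Fintype.ofFinite H
  have hz : FixedBy ⊤ (liftR M (fun x : H => β x)) :=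
    fixedBy_liftR M (fun g h => h2 h h.2 g g.2)
  have hcf : cfun M (liftR M (fun x : H => β x)) = fun x : H => β x :=
    cfun_liftR M (fun x => h1 x x.2)
  have hpi : emb H (piF M (liftR M (fun x : H => β x))) = trunc H (redFn M β) := by
    rw [piF_liftR, ← emb_res]
    rfl
  have hidem : piF M (liftR M (fun x : H => β x)) * piF M (liftR M (fun x : H => β x))
      = piF M (liftR M (fun x : H => β x)) := by
    apply emb_injective H
    rw [map_mul, hpi, h3]
  rw [← hpi, idem_eq_emb, ← map_mul, (emb_injective H).eq_iff, mul_ebar_eq_iff M hb hz hidem, hcf]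
  have hom : ∀ ξ : IrrCharacter H, omega (ξ : H → ℂ) (fun x : H => β x)
      = ∑ᶠ x : H, β x * (ξ : H → ℂ) x / (ξ : H → ℂ) 1 := by
    intro ξ
    rw [finsum_eq_sum_of_fintype, omega, Finset.sum_div]
  simp only [hom]

variable {p : ℕ} [Fact p.Prime]

/-- The abstract pair attached to a pair of the Prelude. -/
noncomputable def toA (x : BrauerPairIdx G) : APair (ResF M) G := (x.1, idem M (Cen x.1) x.2)

theorem isAPair_toA {Q : Subgroup G} {e : Set (IrrCharacter (Cen Q))}
    (h : IsBrauerPair p M Q e) : IsAPair p (toA M ⟨Q, e⟩) :=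
  ⟨h.1, isPrimIdem_idem M h.2⟩

theorem exists_of_isAPair {x : APair (ResF M) G} (h : IsAPair p x) :
    ∃ e : Set (IrrCharacter (Cen x.1)), IsBrauerPair p M x.1 e ∧ x = toA M ⟨x.1, e⟩ := by
  obtain ⟨e, he, h2⟩ := (isPrimIdem_iff M).1 h.2
  exact ⟨e, ⟨h.1, he⟩, Prod.ext rfl h2⟩

theorem toA_injective {Q : Subgroup G} {e e' : Set (IrrCharacter (Cen Q))}
    (he : IsPBlock M e) (he' : IsPBlock M e') (h : toA M ⟨Q, e⟩ = toA M ⟨Q, e'⟩) : e = e' :=
  idem_injective M he he' (Prod.ext_iff.1 h).2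

theorem isBrauerPairOf_iff (hM : IsPModular p M) (B : Set (IrrCharacter G)) (Q : Subgroup G)
    (e : Set (IrrCharacter (Cen Q))) :
    IsBrauerPairOf p M B Q e ↔
      IsBrauerPair p M Q e ∧ IsPBlock M B ∧ IsABlockOf (ebar M B) (toA M ⟨Q, e⟩) := by
  have := resF_charP hM
  have := Fintype.ofFinite G
  unfold IsBrauerPairOf
  apply and_congr_right
  intro h1
  apply and_congr_right
  intro hB
  have hfix : FixedBy Q (ebar M B) := (fixedBy_ebar M B).mono le_top
  have h3 : trunc (Cen Q) (redFn M (blockCoeff B)) * trunc (Cen Q) (redFn M (blockCoeff B))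
      = trunc (Cen Q) (redFn M (blockCoeff B)) := by
    rw [← ebar_eq_redFn, ← trunc_centralizer_mul p Q h1.1 hfix hfix, ebar_idem M hB]
  have := crit M h1.2 (blockCoeff B) (fun x _ => memLocalRing_blockCoeff hP hB x)
    (fun c _ x _ => blockCoeff_isClassFunction B x c) h3
  unfold brauerOmega
  rw [← this]
  exact ⟨fun h => ⟨isPrimIdem_ebar M hB, h⟩, fun h => h.2⟩

theorem fixedBy_idem_iff {Q P : Subgroup G} {f : Set (IrrCharacter (Cen Q))} (hf : IsPBlock M f)
    (hPN : P ≤ Subgroup.normalizer (Q : Set G)) :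
    (∀ x ∈ P, StabilizesBlock (Cen Q) f x) ↔ FixedBy P (idem M (Cen Q) f) := by
  constructor
  · intro h x hx
    exact ((stabilizesBlock_iff_cj M hf x).1 (h x hx)).2
  · intro h x hx
    exact (stabilizesBlock_iff_cj M hf x).2
      ⟨normalizer_le_normalizer_centralizer Q (hPN hx), h x hx⟩

theorem isNormalSubpair_iff (hM : IsPModular p M) (Q : Subgroup G)
    (f : Set (IrrCharacter (Cen Q))) (P : Subgroup G) (e : Set (IrrCharacter (Cen P))) :
    IsNormalSubpair p M Q f P e ↔
      IsPBlock M f ∧ IsPBlock M e ∧ ANormal p (toA M ⟨Q, f⟩) (toA M ⟨P, e⟩) := by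
  have := resF_charP hM
  have key : ∀ (hf : IsBrauerPair p M Q f) (he : IsBrauerPair p M P e) (hQP : Q ≤ P)
      (hfix : FixedBy P (idem M (Cen Q) f)),
      (trunc (Cen P) (idem M (Cen Q) f) * idem M (Cen P) e = idem M (Cen P) e ↔
      ∀ ξ ∈ e, MemLocalIdeal M
        (brauerOmega P (subgroupBlockCoeff (Cen Q) f) (ξ : Cen P → ℂ) - 1)) := by
    intro hf he hQP hfix
    have := Fintype.ofFinite (Cen Q)
    have h3 : trunc (Cen P) (redFn M (subgroupBlockCoeff (Cen Q) f))
        * trunc (Cen P) (redFn M (subgroupBlockCoeff (Cen Q) f))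
        = trunc (Cen P) (redFn M (subgroupBlockCoeff (Cen Q) f)) := by
      rw [← idem_eq_redFn, ← trunc_centralizer_mul p P he.1 hfix hfix,
        (isPrimIdem_idem M hf.2).idem]
    exact crit M he.2 (subgroupBlockCoeff (Cen Q) f)
      (fun x hx => by
        rw [subgroupBlockCoeff_of_mem _ _ (cen_anti hQP hx)]
        exact memLocalRing_blockCoeff hP hf.2 _)
      (fun c hc x hx => by
        have hc' := cen_anti hQP hc
        have hx' := cen_anti hQP hx
        rw [subgroupBlockCoeff_of_mem _ _ hx', subgroupBlockCoeff_of_mem _ _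
          ((Cen Q).mul_mem ((Cen Q).mul_mem hc' hx') ((Cen Q).inv_mem hc'))]
        exact blockCoeff_isClassFunction f ⟨x, hx'⟩ ⟨c, hc'⟩) h3
  constructor
  · rintro ⟨h1, h2, h3, h4, h5, h6⟩
    have hfix := (fixedBy_idem_iff M h1.2 h4).1 h5
    exact ⟨h1.2, h2.2, isAPair_toA M h1, isAPair_toA M h2, h3, h4, hfix,
      (key h1 h2 h3 hfix).2 h6⟩
  · rintro ⟨hf, he, h1, h2, h3, h4, h5, h6⟩
    exact ⟨⟨h1.1, hf⟩, ⟨h2.1, he⟩, h3, h4, (fixedBy_idem_iff M hf h4).2 h5,
      (key ⟨h1.1, hf⟩ ⟨h2.1, he⟩ h3 h5).1 h6⟩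

theorem SubpairLE.toALE (hM : IsPModular p M) {Q : Subgroup G}
    {f : Set (IrrCharacter (Cen Q))} {P : Subgroup G} {e : Set (IrrCharacter (Cen P))}
    (h : SubpairLE p M Q f P e) : ALE p (toA M ⟨Q, f⟩) (toA M ⟨P, e⟩) :=
  Relation.ReflTransGen.lift (toA M)
    (fun a b hab => ((isNormalSubpair_iff M hM a.1 a.2 b.1 b.2).1 hab).2.2) _ _ h

theorem subpairLE_of_ALE (hM : IsPModular p M) {P : Subgroup G} {e : Set (IrrCharacter (Cen P))}
    (he : IsPBlock M e) {x : APair (ResF M) G} (h : ALE p x (toA M ⟨P, e⟩)) :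
    ∀ (Q : Subgroup G) (f : Set (IrrCharacter (Cen Q))), IsPBlock M f → x = toA M ⟨Q, f⟩ →
      SubpairLE p M Q f P e := by
  induction h using Relation.ReflTransGen.head_induction_on with
  | refl =>
    intro Q f hf hx
    have hQ : P = Q := (Prod.ext_iff.1 hx).1
    subst hQ
    rw [toA_injective M he hf hx]
    exact Relation.ReflTransGen.refl
  | head hac _ ih =>
    rename_i a c _
    intro Q f hf hx
    obtain ⟨g, hg, hc⟩ := exists_of_isAPair M hac.2.1
    subst hx
    rw [hc] at hac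
    exact Relation.ReflTransGen.head
      (show NormalSubpairRel p M ⟨Q, f⟩ ⟨c.1, g⟩ from
        (isNormalSubpair_iff M hM Q f c.1 g).2 ⟨hf, hg.2, hac⟩) (ih c.1 g hg.2 hc)

theorem subpairLE_iff (hM : IsPModular p M) {Q : Subgroup G}
    {f : Set (IrrCharacter (Cen Q))} {P : Subgroup G} {e : Set (IrrCharacter (Cen P))}
    (hf : IsPBlock M f) (he : IsPBlock M e) :
    SubpairLE p M Q f P e ↔ ALE p (toA M ⟨Q, f⟩) (toA M ⟨P, e⟩) :=
  ⟨fun h => SubpairLE.toALE M hM h, fun h => subpairLE_of_ALE M hM he h Q f hf rfl⟩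

end Cfsg.Agent.Lib.Helper77
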