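import Mathlib
import Cfsg.Agent.Lib.Helper16.Nilpotent
import Cfsg.Agent.Lib.Helper77.Dict5

/-!
# Normal `p`-subgroups and block idempotents (helper77)

* central idempotents of `k[H]` are supported on `C_G(P)` when `P ≤ H ≤ N_G(P)` is a `p`-group;
* idempotents of `Z(R[H])` are determined by their reduction, and every idempotent of `Z(F[H])`
  lifts;
* consequently the same support statement holds in `R[H]` (exact vanishing of `blockCoeff`).
-/

set_option autoImplicit false
set_option linter.unusedSectionVars false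

namespace Cfsg.Agent.Lib.Helper77

open Cfsg MonoidAlgebra Cfsg.Agent.Lib.Helper78

universe u v

section field

variable {k : Type v} [Field k] {G : Type u} [Group G] [Finite G] (p : ℕ) [Fact p.Prime]
  [CharP k p]

/-- An element of `Z(k[H])` vanishing on `C_G(P)`, `P ≤ H ≤ N_G(P)` a `p`-group, is nilpotent. -/
theorem isNilpotent_of_vanish {H P : Subgroup G} (hPH : P ≤ H)
    (hHN : H ≤ Subgroup.normalizer (P : Set G)) (hP : IsPGroup p P) {z : MonoidAlgebra k G}
    (hz : z ∈ zsub k H) (hz0 : ∀ c ∈ Cen P, z.coeff c = 0) : IsNilpotent z := by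
  have e1 : emb H (res H z) = z := exists_emb_eq_of_suppIn hz.1
  rw [← e1]
  apply IsNilpotent.map
  have hn : (P.subgroupOf H).Normal := (Subgroup.normal_subgroupOf_iff_le_normalizer hPH).2 hHN
  apply Helper16.isNilpotent_of_vanish_on_centralizer p (P.subgroupOf H) hP.comap_subtype
  · rw [Helper16.mem_center_iff_coeff]
    intro g h
    exact fixedBy_iff_coeff.1 hz.2 h h.2 g
  · intro c hc
    apply hz0
    rw [Subgroup.mem_centralizer_iff] at hc ⊢
    intro q hq
    have := hc ⟨q, hPH hq⟩ (by simpa [Subgroup.mem_subgroupOf] using hq)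
    exact congrArg Subtype.val this

theorem suppIn_trunc_of_suppIn {H K : Subgroup G} {a : MonoidAlgebra k G} (ha : SuppIn H a) :
    SuppIn H (trunc K a) := by
  classical
  intro x hx
  rw [coeff_trunc, ha x hx, ite_self]

/-- Idempotents of `Z(k[H])` are supported on `C_G(P)` when `P ≤ H ≤ N_G(P)` is a `p`-group. -/
theorem suppIn_cen_of_idem {H P : Subgroup G} (hPH : P ≤ H)
    (hHN : H ≤ Subgroup.normalizer (P : Set G)) (hP : IsPGroup p P) {ε : MonoidAlgebra k G}
    (hε : ε ∈ zsub k H) (hidem : ε * ε = ε) : SuppIn (Cen P) ε := by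
  have hz : trunc (Cen P) ε ∈ zsub k H :=
    ⟨suppIn_trunc_of_suppIn hε.1,
      hε.2.trunc (hHN.trans (normalizer_le_normalizer_centralizer P))⟩
  have hzi : trunc (Cen P) ε * trunc (Cen P) ε = trunc (Cen P) ε := by
    rw [← trunc_centralizer_mul p P hP (hε.2.mono hPH) (hε.2.mono hPH), hidem]
  have hnil : IsNilpotent (ε - trunc (Cen P) ε) := by
    apply isNilpotent_of_vanish p hPH hHN hP (Subring.sub_mem _ hε hz)
    intro c hc
    rw [coeff_sub, Finsupp.sub_apply, coeff_trunc_of_mem _ hc, sub_self]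
  have := eq_of_isNilpotent_sub_of_isIdempotentElem_of_commute (e₁ := ε)
    (e₂ := trunc (Cen P) ε) hidem hzi hnil (zsub_commute hε hz)
  rw [this]
  exact suppIn_trunc _ _

end field

section lift

variable {G : Type u} [Group G] [Fintype G] (M : Ideal AlgInt) [hP : M.IsPrime]

theorem toR_zero : toR M 0 = 0 := by
  apply Subtype.ext
  rw [coe_toR M (memLocalRing_zero hP)]
  rfl

/-- The exact idempotent in `R[G]` of a set of irreducible characters of a subgroup. -/
noncomputable def idemR (H : Subgroup G) (b : Set (IrrCharacter H)) : MonoidAlgebra (Rloc M) G :=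
  liftR M (subgroupBlockCoeff H b)

theorem piF_idemR (H : Subgroup G) (b : Set (IrrCharacter H)) :
    piF M (idemR M H b) = idem M H b := piF_liftR M _

theorem idemR_eq_emb (H : Subgroup G) [Fintype H] (b : Set (IrrCharacter H)) :
    idemR M H b = emb H (eR M b) := by
  apply ma_ext; intro x
  by_cases hx : x ∈ H
  · rw [coeff_emb_of_mem H _ hx]
    simp only [idemR, eR, liftR, coeff_ofFun, subgroupBlockCoeff_of_mem H b hx]
  · rw [coeff_emb_of_not_mem H _ hx]
    simp only [idemR, liftR, coeff_ofFun, subgroupBlockCoeff_of_not_mem H b hx, toR_zero]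

theorem idemR_mem_zsub (H : Subgroup G) (b : Set (IrrCharacter H)) :
    idemR M H b ∈ zsub (Rloc M) H := by
  have := Fintype.ofFinite H
  rw [idemR_eq_emb, emb_mem_zsub_iff, mem_zsub_top]
  exact fixedBy_eR M b

theorem idemR_idem {H : Subgroup G} {b : Set (IrrCharacter H)} (hb : IsPBlock M b) :
    idemR M H b * idemR M H b = idemR M H b := by
  have := Fintype.ofFinite H
  rw [idemR_eq_emb, ← map_mul, eR_idem M hb]

theorem idemR_orth {H : Subgroup G} {b b' : Set (IrrCharacter H)} (hb : IsPBlock M b)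
    (hb' : IsPBlock M b') (hne : b ≠ b') : idemR M H b * idemR M H b' = 0 := by
  have := Fintype.ofFinite H
  rw [idemR_eq_emb, idemR_eq_emb, ← map_mul, eR_orth M hb hb' hne, map_zero]

theorem memLocalRing_subgroupBlockCoeff {H : Subgroup G} {b : Set (IrrCharacter H)}
    (hb : IsPBlock M b) (g : G) : MemLocalRing M (subgroupBlockCoeff H b g) := by
  have := Fintype.ofFinite H
  by_cases hg : g ∈ H
  · rw [subgroupBlockCoeff_of_mem H b hg]; exact memLocalRing_blockCoeff hP hb _
  · rw [subgroupBlockCoeff_of_not_mem H b hg]; exact memLocalRing_zero hP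

theorem cfun_idemR {H : Subgroup G} {b : Set (IrrCharacter H)} (hb : IsPBlock M b) :
    cfun M (idemR M H b) = subgroupBlockCoeff H b :=
  cfun_liftR M (memLocalRing_subgroupBlockCoeff M hb)

theorem sum_idem (H : Subgroup G) : ∑ b ∈ blocksFinset H M, idem M H b = 1 := by
  have := Fintype.ofFinite H
  simp only [idem_eq_emb]
  rw [← map_sum, sum_ebar, map_one]

theorem piF_cj (g : G) (a : MonoidAlgebra (Rloc M) G) : piF M (cj g a) = cj g (piF M a) := by
  apply ma_ext; intro x
  rw [coeff_cj, coeff_mapRingHom, coeff_mapRingHom, coeff_cj]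

theorem piF_emb (H : Subgroup G) (a : MonoidAlgebra (Rloc M) H) :
    piF M (emb H a) = emb H (piF M a) := by
  apply ma_ext; intro x
  rw [coeff_mapRingHom]
  by_cases hx : x ∈ H
  · rw [coeff_emb_of_mem H _ hx, coeff_emb_of_mem H _ hx, coeff_mapRingHom]
  · rw [coeff_emb_of_not_mem H _ hx, coeff_emb_of_not_mem H _ hx, map_zero]

theorem SuppIn.piF {H : Subgroup G} {a : MonoidAlgebra (Rloc M) G} (ha : SuppIn H a) :
    SuppIn H (piF M a) := fun x hx => by
  rw [coeff_mapRingHom, ha x hx, map_zero]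

theorem piF_mem_zsub {H : Subgroup G} {a : MonoidAlgebra (Rloc M) G}
    (ha : a ∈ zsub (Rloc M) H) : piF M a ∈ zsub (ResF M) H :=
  ⟨SuppIn.piF M ha.1, FixedBy.piF M ha.2⟩

/-- Central idempotents of `R[G]` are determined by their reductions. -/
theorem eq_of_piF_eq_top {a a' : MonoidAlgebra (Rloc M) G} (ha : FixedBy ⊤ a)
    (ha' : FixedBy ⊤ a') (hi : a * a = a) (hi' : a' * a' = a') (h : piF M a = piF M a') :
    a = a' := by
  apply eq_of_omega M ha ha'
  intro χ
  have h1 : omega (χ : G → ℂ) (cfun M a) * omega (χ : G → ℂ) (cfun M a)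
      = omega (χ : G → ℂ) (cfun M a) := by rw [← omega_cfun_mul M χ _ ha, hi]
  have h2 : omega (χ : G → ℂ) (cfun M a') * omega (χ : G → ℂ) (cfun M a')
      = omega (χ : G → ℂ) (cfun M a') := by rw [← omega_cfun_mul M χ _ ha', hi']
  have h3 : MemLocalIdeal M (omega (χ : G → ℂ) (cfun M a) - omega (χ : G → ℂ) (cfun M a')) := by
    rw [← omega_sub, ← cfun_sub]
    apply memLocalIdeal_omega hP χ (cfun_isClassFunction M (ha.sub ha'))
    rw [← piF_eq_zero_iff, map_sub, h, sub_self]
  have c1 : omega (χ : G → ℂ) (cfun M a) = 0 ∨ omega (χ : G → ℂ) (cfun M a) = 1 := by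
    have : omega (χ : G → ℂ) (cfun M a) * (omega (χ : G → ℂ) (cfun M a) - 1) = 0 := by
      rw [mul_sub, h1, mul_one, sub_self]
    rcases mul_eq_zero.1 this with h | h
    · exact Or.inl h
    · exact Or.inr (sub_eq_zero.1 h)
  have c2 : omega (χ : G → ℂ) (cfun M a') = 0 ∨ omega (χ : G → ℂ) (cfun M a') = 1 := by
    have : omega (χ : G → ℂ) (cfun M a') * (omega (χ : G → ℂ) (cfun M a') - 1) = 0 := by
      rw [mul_sub, h2, mul_one, sub_self]
    rcases mul_eq_zero.1 this with h | h
    · exact Or.inl h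
    · exact Or.inr (sub_eq_zero.1 h)
  rcases c1 with c1 | c1 <;> rcases c2 with c2 | c2
  · rw [c1, c2]
  · exfalso
    rw [c1, c2, zero_sub] at h3
    have := MemLocalIdeal.neg h3
    rw [neg_neg] at this
    exact not_memLocalIdeal_one hP this
  · exfalso
    rw [c1, c2, sub_zero] at h3
    exact not_memLocalIdeal_one hP h3
  · rw [c1, c2]

/-- Idempotents of `Z(R[H])` are determined by their reductions. -/
theorem eq_of_piF_eq {H : Subgroup G} {a a' : MonoidAlgebra (Rloc M) G}
    (ha : a ∈ zsub (Rloc M) H) (ha' : a' ∈ zsub (Rloc M) H) (hi : a * a = a) (hi' : a' * a' = a')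
    (h : piF M a = piF M a') : a = a' := by
  have := Fintype.ofFinite H
  have e1 := exists_emb_eq_of_suppIn ha.1
  have e2 := exists_emb_eq_of_suppIn ha'.1
  rw [← e1] at h hi ha
  rw [← e2] at h hi' ha'
  rw [← e1, ← e2]
  rw [emb_mem_zsub_iff, mem_zsub_top] at ha ha'
  rw [← map_mul] at hi hi'
  rw [piF_emb, piF_emb] at h
  rw [eq_of_piF_eq_top M ha ha' (emb_injective H hi) (emb_injective H hi') (emb_injective H h)]

/-- Every idempotent of `Z(F[H])` lifts to an idempotent of `Z(R[H])`. -/
theorem exists_lift_idem {H : Subgroup G} {ε : MonoidAlgebra (ResF M) G}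
    (hε : ε ∈ zsub (ResF M) H) (hidem : ε * ε = ε) :
    ∃ a ∈ zsub (Rloc M) H, a * a = a ∧ piF M a = ε := by
  classical
  set T := (blocksFinset H M).filter (fun b => ε * idem M H b = idem M H b) with hT
  have hTb : ∀ b ∈ T, IsPBlock M b := fun b hb =>
    (mem_blocksFinset M).1 (Finset.mem_filter.1 hb).1
  refine ⟨∑ b ∈ T, idemR M H b, Subring.sum_mem _ fun b _ => idemR_mem_zsub M H b, ?_, ?_⟩
  · rw [Finset.sum_mul_sum]
    apply Finset.sum_congr rfl
    intro b hb
    rw [Finset.sum_eq_single b]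
    · exact idemR_idem M (hTb b hb)
    · intro b' hb' hne
      exact idemR_orth M (hTb b hb) (hTb b' hb') hne.symm
    · intro h; exact absurd hb h
  · rw [map_sum]
    simp only [piF_idemR]
    symm
    calc ε = ε * ∑ b ∈ blocksFinset H M, idem M H b := by rw [sum_idem, mul_one]
      _ = ∑ b ∈ blocksFinset H M, ε * idem M H b := Finset.mul_sum _ _ _
      _ = ∑ b ∈ blocksFinset H M, if ε * idem M H b = idem M H b then idem M H b else 0 := by
          apply Finset.sum_congr rfl
          intro b hb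
          split_ifs with h
          · exact h
          · exact ((isPrimIdem_idem M ((mem_blocksFinset M).1 hb)).prim ε hε hidem).resolve_left h
      _ = ∑ b ∈ T, idem M H b := (Finset.sum_filter _ _).symm

variable {p : ℕ} [Fact p.Prime]

/-- Idempotents of `Z(R[H])` are supported on `C_G(P)` when `P ≤ H ≤ N_G(P)` is a `p`-group. -/
theorem suppIn_cen_of_idemR (hM : IsPModular p M) {H P : Subgroup G} (hPH : P ≤ H)
    (hHN : H ≤ Subgroup.normalizer (P : Set G)) (hPp : IsPGroup p P)
    {a : MonoidAlgebra (Rloc M) G} (ha : a ∈ zsub (Rloc M) H) (hi : a * a = a) :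
    SuppIn (Cen P) a := by
  have := resF_charP hM
  have hε := piF_mem_zsub M ha
  have hεi : piF M a * piF M a = piF M a := by rw [← map_mul, hi]
  have hsupp := suppIn_cen_of_idem p hPH hHN hPp hε hεi
  have hK : piF M a ∈ zsub (ResF M) (H ⊓ Cen P) := by
    refine ⟨fun x hx => ?_, hε.2.mono inf_le_left⟩
    by_cases hxH : x ∈ H
    · exact hsupp x fun hxC => hx ⟨hxH, hxC⟩
    · exact hε.1 x hxH
  obtain ⟨a', ha', hi', hpi⟩ := exists_lift_idem M hK hεi
  have hnorm : H ≤ Subgroup.normalizer ((H ⊓ Cen P : Subgroup G) : Set G) := by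
    refine le_trans (le_inf Subgroup.le_normalizer
      (hHN.trans (normalizer_le_normalizer_centralizer P))) (normalizer_inf_le _ _)
  have hfix : FixedBy H a' := by
    intro h hh
    apply eq_of_piF_eq M (cj_mem_zsub_of_mem_normalizer ha' (hnorm hh)) ha'
      (by rw [← map_mul, hi']) hi'
    rw [piF_cj, hpi]
    exact hε.2 h hh
  have : a' = a := eq_of_piF_eq M ⟨ha'.1.mono inf_le_left, hfix⟩ ha hi' hi hpi
  rw [← this]
  exact ha'.1.mono inf_le_right

end lift

end Cfsg.Agent.Lib.Helper77
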