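import Mathlib
import Cfsg.Agent.Lib.Helper77.NormalP

/-!
# Orbit sums of block idempotents, blocks of stabilizers (helper77)
-/

set_option autoImplicit false
set_option linter.unusedSectionVars false

namespace Cfsg.Agent.Lib.Helper77

open Cfsg MonoidAlgebra Cfsg.Agent.Lib.Helper78

universe u v

section orbit

variable {k : Type v} [CommRing k] {G : Type u} [Group G] [Fintype G]

open Classical in
/-- The elements of a subgroup, as a finset. -/
noncomputable def subF (K : Subgroup G) : Finset G := Finset.univ.filter fun x => x ∈ K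

theorem mem_subF {K : Subgroup G} {x : G} : x ∈ subF K ↔ x ∈ K := by
  classical
  simp [subF]

theorem card_subF (K : Subgroup G) : (subF K).card = Nat.card K := by
  classical
  rw [subF, Nat.card_eq_fintype_card, Fintype.card_subtype]

open Classical in
/-- The orbit of `a` under conjugation by `K`. -/
noncomputable def orbF (K : Subgroup G) (a : MonoidAlgebra k G) : Finset (MonoidAlgebra k G) :=
  (subF K).image fun x => cj x a

theorem mem_orbF {K : Subgroup G} {a c : MonoidAlgebra k G} :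
    c ∈ orbF K a ↔ ∃ x ∈ K, cj x a = c := by
  classical
  simp [orbF, mem_subF]

/-- The orbit sum. -/
noncomputable def orbSum (K : Subgroup G) (a : MonoidAlgebra k G) : MonoidAlgebra k G :=
  ∑ c ∈ orbF K a, c

theorem fixedBy_orbSum (K : Subgroup G) (a : MonoidAlgebra k G) : FixedBy K (orbSum K a) := by
  classical
  intro g hg
  unfold orbSum
  rw [map_sum]
  have h1 : ∑ c ∈ orbF K a, cj g c = ∑ c ∈ (orbF K a).image (cj g), c := by
    rw [Finset.sum_image]
    intro x _ y _ h
    exact (cj g).injective h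
  rw [h1]
  congr 1
  ext c
  simp only [Finset.mem_image, mem_orbF]
  constructor
  · rintro ⟨_, ⟨x, hx, rfl⟩, rfl⟩
    exact ⟨g * x, K.mul_mem hg hx, cj_mul_apply g x a⟩
  · rintro ⟨x, hx, rfl⟩
    refine ⟨cj (g⁻¹ * x) a, ⟨g⁻¹ * x, K.mul_mem (K.inv_mem hg) hx, rfl⟩, ?_⟩
    rw [← cj_mul_apply, mul_inv_cancel_left]

variable {K : Subgroup G} {a : MonoidAlgebra k G}

theorem orb_mul_eq_zero (horth : ∀ x ∈ K, cj x a = a ∨ cj x a * a = 0)
    {c c' : MonoidAlgebra k G} (hc : c ∈ orbF K a) (hc' : c' ∈ orbF K a) (hne : c ≠ c') :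
    c * c' = 0 := by
  obtain ⟨x, hx, rfl⟩ := mem_orbF.1 hc
  obtain ⟨y, hy, rfl⟩ := mem_orbF.1 hc'
  have h1 : cj x a = cj y (cj (y⁻¹ * x) a) := by rw [← cj_mul_apply, mul_inv_cancel_left]
  rcases horth (y⁻¹ * x) (K.mul_mem (K.inv_mem hy) hx) with h | h
  · exact absurd (by rw [h1, h]) hne
  · rw [h1, ← map_mul, h, map_zero]

theorem orb_idem (hidem : a * a = a) {c : MonoidAlgebra k G} (hc : c ∈ orbF K a) : c * c = c := by
  obtain ⟨x, _, rfl⟩ := mem_orbF.1 hc
  rw [← map_mul, hidem]

theorem orbSum_mul_of_mem (hidem : a * a = a) (horth : ∀ x ∈ K, cj x a = a ∨ cj x a * a = 0)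
    {c : MonoidAlgebra k G} (hc : c ∈ orbF K a) : orbSum K a * c = c := by
  unfold orbSum
  rw [Finset.sum_mul, Finset.sum_eq_single c]
  · exact orb_idem hidem hc
  · intro c' hc' hne
    exact orb_mul_eq_zero horth hc' hc hne
  · intro h; exact absurd hc h

theorem self_mem_orbF (K : Subgroup G) (a : MonoidAlgebra k G) : a ∈ orbF K a :=
  mem_orbF.2 ⟨1, K.one_mem, cj_one_apply a⟩

theorem orbSum_idem (hidem : a * a = a) (horth : ∀ x ∈ K, cj x a = a ∨ cj x a * a = 0) :
    orbSum K a * orbSum K a = orbSum K a := by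
  conv_lhs => rw [orbSum, Finset.mul_sum]
  exact Finset.sum_congr rfl fun c hc => orbSum_mul_of_mem hidem horth hc

/-- The sum of all conjugates is the order of the stabilizer times the orbit sum. -/
theorem sum_cj_eq (T : Subgroup G) (hT : ∀ x, x ∈ T ↔ x ∈ K ∧ cj x a = a) :
    ∑ x ∈ subF K, cj x a = Nat.card T • orbSum K a := by
  classical
  have h1 := Finset.sum_comp (s := subF K) (fun c : MonoidAlgebra k G => c) (fun x => cj x a)
  rw [h1, orbSum, Finset.smul_sum]
  apply Finset.sum_congr rfl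
  intro c hc
  obtain ⟨x₀, hx₀, rfl⟩ := mem_orbF.1 hc
  congr 1
  rw [← card_subF T]
  apply Finset.card_nbij' (fun x => x₀⁻¹ * x) (fun t => x₀ * t)
  · intro x hx
    simp only [Finset.coe_filter, Set.mem_ofPred_eq, mem_subF] at hx
    simp only [Finset.mem_coe, mem_subF]
    rw [hT]
    refine ⟨K.mul_mem (K.inv_mem hx₀) hx.1, ?_⟩
    rw [cj_mul_apply, hx.2, cj_inv_cj]
  · intro t ht
    simp only [Finset.mem_coe, mem_subF] at ht
    simp only [Finset.coe_filter, Set.mem_ofPred_eq, mem_subF]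
    obtain ⟨h1, h2⟩ := (hT t).1 ht
    exact ⟨K.mul_mem hx₀ h1, by rw [cj_mul_apply, h2]⟩
  · intro x _; simp
  · intro t _; simp

theorem suppIn_orbSum {C : Subgroup G} (hKC : K ≤ Subgroup.normalizer (C : Set G))
    (ha : SuppIn C a) : SuppIn C (orbSum K a) := by
  apply SuppIn.sum
  intro c hc
  obtain ⟨x, hx, rfl⟩ := mem_orbF.1 hc
  have := ha.cj x
  rwa [show C.map (MulAut.conj x).toMonoidHom = C from
    Subgroup.mem_normalizer_iff_map_conj_eq.1 (hKC hx)] at this

/-- Elements supported on `C_G(Q)` are fixed by `Q`. -/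
theorem fixedBy_of_suppIn_cen {Q : Subgroup G} (ha : SuppIn (Cen Q) a) : FixedBy Q a := by
  rw [fixedBy_iff_coeff]
  intro u hu x
  by_cases hx : x ∈ Cen Q
  · have : u * x * u⁻¹ = x := by
      rw [(Subgroup.mem_centralizer_iff.1 hx) u hu, mul_inv_cancel_right]
    rw [this]
  · rw [ha x hx, ha]
    intro h
    apply hx
    have hn : u ∈ Subgroup.normalizer ((Cen Q : Subgroup G) : Set G) :=
      normalizer_le_normalizer_centralizer Q (Subgroup.le_normalizer hu)
    exact (Subgroup.mem_normalizer_iff.1 hn x).2 h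

end orbit

section blocks

variable {G : Type u} [Group G] [Fintype G] (M : Ideal AlgInt) [hP : M.IsPrime]
variable {p : ℕ} [Fact p.Prime]

/-- Conjugates of a primitive idempotent of `Z(k[C])` under `N_G(C)` are equal or orthogonal. -/
theorem IsPrimIdem.cj_eq_or_orth {k : Type v} [CommRing k] {C : Subgroup G}
    {a : MonoidAlgebra k G} (ha : IsPrimIdem C a) {x : G}
    (hx : x ∈ Subgroup.normalizer (C : Set G)) :
    Helper77.cj x a = a ∨ Helper77.cj x a * a = 0 :=
  (ha.cj_of_mem_normalizer hx).eq_or_mul_eq_zero ha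

/-- Conjugates of an exact block idempotent of `C` under `N_G(C)` are equal or orthogonal. -/
theorem idemR_cj_eq_or_orth {C : Subgroup G} {e : Set (IrrCharacter C)} (he : IsPBlock M e) {x : G}
    (hx : x ∈ Subgroup.normalizer (C : Set G)) :
    cj x (idemR M C e) = idemR M C e ∨ cj x (idemR M C e) * idemR M C e = 0 := by
  have h1 := cj_mem_zsub_of_mem_normalizer (idemR_mem_zsub M C e) hx
  have h2 : cj x (idemR M C e) * cj x (idemR M C e) = cj x (idemR M C e) := by
    rw [← map_mul, idemR_idem M he]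
  rcases (isPrimIdem_idem M he).cj_eq_or_orth hx with h | h
  · left
    apply eq_of_piF_eq M h1 (idemR_mem_zsub M C e) h2 (idemR_idem M he)
    rw [piF_cj, piF_idemR, h]
  · right
    have hcomm := zsub_commute h1 (idemR_mem_zsub M C e)
    apply eq_of_piF_eq M (Subring.mul_mem _ h1 (idemR_mem_zsub M C e)) (Subring.zero_mem _) _
      (zero_mul 0)
    · rw [map_mul, piF_cj, piF_idemR, h, map_zero]
    · calc cj x (idemR M C e) * idemR M C e * (cj x (idemR M C e) * idemR M C e)
          = cj x (idemR M C e) * (idemR M C e * cj x (idemR M C e)) * idemR M C e := by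
            simp only [mul_assoc]
        _ = cj x (idemR M C e) * (cj x (idemR M C e) * idemR M C e) * idemR M C e := by
            rw [hcomm]
        _ = (cj x (idemR M C e) * cj x (idemR M C e)) * (idemR M C e * idemR M C e) := by
            simp only [mul_assoc]
        _ = cj x (idemR M C e) * idemR M C e := by rw [h2, idemR_idem M he]

theorem cj_idemR_eq_iff {C : Subgroup G} {e : Set (IrrCharacter C)} (he : IsPBlock M e) {x : G}
    (hx : x ∈ Subgroup.normalizer (C : Set G)) :
    cj x (idemR M C e) = idemR M C e ↔ cj x (idem M C e) = idem M C e := by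
  constructor
  · intro h
    rw [← piF_idemR, ← piF_cj, h]
  · intro h
    apply eq_of_piF_eq M (cj_mem_zsub_of_mem_normalizer (idemR_mem_zsub M C e) hx)
      (idemR_mem_zsub M C e) (by rw [← map_mul, idemR_idem M he]) (idemR_idem M he)
    rw [piF_cj, piF_idemR, h]

theorem piF_orbSum {C K : Subgroup G} (hKC : K ≤ Subgroup.normalizer (C : Set G))
    {e : Set (IrrCharacter C)} (he : IsPBlock M e) :
    piF M (orbSum K (idemR M C e)) = orbSum K (idem M C e) := by
  classical
  unfold orbSum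
  rw [map_sum]
  have h1 : orbF K (idem M C e) = (orbF K (idemR M C e)).image (piF M) := by
    ext c
    simp only [Finset.mem_image, mem_orbF]
    constructor
    · rintro ⟨x, hx, rfl⟩
      exact ⟨_, ⟨x, hx, rfl⟩, by rw [piF_cj, piF_idemR]⟩
    · rintro ⟨_, ⟨x, hx, rfl⟩, rfl⟩
      exact ⟨x, hx, by rw [piF_cj, piF_idemR]⟩
  rw [h1, Finset.sum_image]
  intro c hc c' hc' h
  obtain ⟨x, hx, rfl⟩ := mem_orbF.1 hc
  obtain ⟨y, hy, rfl⟩ := mem_orbF.1 hc'
  exact eq_of_piF_eq M (cj_mem_zsub_of_mem_normalizer (idemR_mem_zsub M C e) (hKC hx))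
    (cj_mem_zsub_of_mem_normalizer (idemR_mem_zsub M C e) (hKC hy))
    (by rw [← map_mul, idemR_idem M he]) (by rw [← map_mul, idemR_idem M he]) h

/-- **Blocks of `H` with `P C_G(P) ≤ H ≤ N_G(P)` are the `H`-orbit sums of blocks of `C_G(P)`.** -/
theorem isPrimIdem_orbSum (hM : IsPModular p M) {P H : Subgroup G} (hPp : IsPGroup p P)
    (hPH : P ≤ H) (hCH : Cen P ≤ H) (hHN : H ≤ Subgroup.normalizer (P : Set G))
    {ē : MonoidAlgebra (ResF M) G} (he : IsPrimIdem (Cen P) ē) :
    IsPrimIdem H (orbSum H ē) := by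
  have := resF_charP hM
  have hHC : H ≤ Subgroup.normalizer ((Cen P : Subgroup G) : Set G) :=
    hHN.trans (normalizer_le_normalizer_centralizer P)
  have horth : ∀ x ∈ H, cj x ē = ē ∨ cj x ē * ē = 0 := fun x hx => he.cj_eq_or_orth (hHC hx)
  refine ⟨⟨(suppIn_orbSum hHC he.mem.1).mono hCH, fixedBy_orbSum H ē⟩,
    orbSum_idem he.idem horth, ?_, ?_⟩
  · intro h0
    apply he.ne_zero
    rw [← orbSum_mul_of_mem he.idem horth (self_mem_orbF H ē), h0, zero_mul]
  · intro ε hε hidem
    have hsupp := suppIn_cen_of_idem p hPH hHN hPp hε hidem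
    have hεC : ε ∈ zsub (ResF M) (Cen P) := ⟨hsupp, hε.2.mono hCH⟩
    rcases he.prim ε hεC hidem with h | h
    · left
      unfold orbSum
      rw [Finset.mul_sum]
      apply Finset.sum_congr rfl
      intro c hc
      obtain ⟨x, hx, rfl⟩ := mem_orbF.1 hc
      calc ε * cj x ē = cj x ε * cj x ē := by rw [hε.2 x hx]
        _ = cj x ē := by rw [← map_mul, h]
    · right
      unfold orbSum
      rw [Finset.mul_sum]
      apply Finset.sum_eq_zero
      intro c hc
      obtain ⟨x, hx, rfl⟩ := mem_orbF.1 hc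
      calc ε * cj x ē = cj x ε * cj x ē := by rw [hε.2 x hx]
        _ = 0 := by rw [← map_mul, h, map_zero]

/-- If `T` stabilizes the block `f` of `C_G(Q)` and `Q C_G(Q) ≤ T ≤ N_G(Q)`, then the idempotent of
`f` is a block idempotent of `T`. -/
theorem exists_block_of_stab (hM : IsPModular p M) {Q T : Subgroup G} (hQ : IsPGroup p Q)
    {f : Set (IrrCharacter (Cen Q))} (hf : IsPBlock M f) (hQT : Q ≤ T) (hCT : Cen Q ≤ T)
    (hTN : T ≤ Subgroup.normalizer (Q : Set G)) (hfix : FixedBy T (idem M (Cen Q) f)) :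
    ∃ F : Set (IrrCharacter T), IsPBlock M F ∧ idem M T F = idem M (Cen Q) f ∧
      idemR M T F = idemR M (Cen Q) f ∧
      ∀ t : T, blockCoeff F t = subgroupBlockCoeff (Cen Q) f (t : G) := by
  have hTC : T ≤ Subgroup.normalizer ((Cen Q : Subgroup G) : Set G) :=
    hTN.trans (normalizer_le_normalizer_centralizer Q)
  have h1 := isPrimIdem_orbSum M hM hQ hQT hCT hTN (isPrimIdem_idem M hf)
  have h2 : orbSum T (idem M (Cen Q) f) = idem M (Cen Q) f := by
    classical
    have : orbF T (idem M (Cen Q) f) = {idem M (Cen Q) f} := by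
      ext c
      rw [mem_orbF, Finset.mem_singleton]
      constructor
      · rintro ⟨x, hx, rfl⟩; exact hfix x hx
      · rintro rfl; exact ⟨1, T.one_mem, cj_one_apply _⟩
    rw [orbSum, this, Finset.sum_singleton]
  rw [h2] at h1
  obtain ⟨F, hF, hFe⟩ := (isPrimIdem_iff M).1 h1
  have hR : idemR M T F = idemR M (Cen Q) f := by
    apply eq_of_piF_eq M (idemR_mem_zsub M T F) _ (idemR_idem M hF) (idemR_idem M hf)
    · rw [piF_idemR, piF_idemR, hFe]
    · exact ⟨(idemR_mem_zsub M _ f).1.mono hCT, fun t ht =>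
        (cj_idemR_eq_iff M hf (hTC ht)).2 (hfix t ht)⟩
  refine ⟨F, hF, hFe.symm, hR, fun t => ?_⟩
  have h3 := congrFun (cfun_idemR M hF) (t : G)
  have h4 := congrFun (cfun_idemR M hf) (t : G)
  rw [subgroupBlockCoeff_coe] at h3
  rw [← h3, ← h4, hR]

end blocks

end Cfsg.Agent.Lib.Helper77
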