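import Mathlib
import Cfsg.Agent.Lib.Helper16.DefectAPI
import Cfsg.Agent.Lib.Helper77.Stab

/-!
# Defect groups through the Brauer map (helper77)

`IsDef p H a R` : `R` is a maximal `p`-subgroup of `H` with `Br_R(a) ≠ 0`.
For a block `b` of `H`: `IsDefectGroup p M b (R.subgroupOf H) ↔ IsDef p H (idem M H b) R`.
-/

set_option autoImplicit false
set_option linter.unusedSectionVars false

namespace Cfsg.Agent.Lib.Helper77

open Cfsg MonoidAlgebra Cfsg.Agent.Lib.Helper78

universe u v

/-- `R` is a maximal `p`-subgroup of `H` at which the Brauer map does not kill `a`. -/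
def IsDef {k : Type v} [CommRing k] {G : Type u} [Group G] [Finite G] (p : ℕ) (H : Subgroup G)
    (a : MonoidAlgebra k G) (R : Subgroup G) : Prop :=
  R ≤ H ∧ IsPGroup p R ∧ trunc (Cen R) a ≠ 0 ∧
    ∀ S : Subgroup G, IsPGroup p S → R ≤ S → S ≤ H → trunc (Cen S) a ≠ 0 → S = R

section transfer

variable {k : Type v} [CommRing k] {G : Type u} [Group G] [Finite G]

theorem trunc_emb (H K : Subgroup G) (a : MonoidAlgebra k H) :
    trunc K (emb H a) = emb H (trunc (K.subgroupOf H) a) := by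
  classical
  apply ma_ext; intro x
  by_cases hx : x ∈ H
  · rw [coeff_emb_of_mem H _ hx, coeff_trunc, coeff_trunc, coeff_emb_of_mem H _ hx]
    rfl
  · rw [coeff_emb_of_not_mem H _ hx, coeff_trunc, coeff_emb_of_not_mem H _ hx, ite_self]

theorem cen_subgroupOf {H Q : Subgroup G} (hQH : Q ≤ H) :
    (Cen Q).subgroupOf H = Cen (Q.subgroupOf H) := by
  ext h
  rw [Subgroup.mem_subgroupOf, Subgroup.mem_centralizer_iff, Subgroup.mem_centralizer_iff]
  constructor
  · intro hh q hq
    exact Subtype.ext (hh q hq)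
  · intro hh q hq
    exact congrArg Subtype.val (hh ⟨q, hQH hq⟩ hq)

theorem subgroupOf_le_map_conj_iff {H Q : Subgroup G} (hQH : Q ≤ H) (D : Subgroup H) (h : H) :
    Q.subgroupOf H ≤ D.map (MulAut.conj h).toMonoidHom ↔
      Q ≤ (D.map H.subtype).map (MulAut.conj (h : G)).toMonoidHom := by
  constructor
  · intro hle q hq
    have h1 := hle (show (⟨q, hQH hq⟩ : H) ∈ Q.subgroupOf H from hq)
    rw [mem_map_conj_iff] at h1 ⊢
    exact ⟨_, h1, rfl⟩
  · intro hle q hq
    have h1 := hle (show (q : G) ∈ Q from hq)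
    rw [mem_map_conj_iff] at h1 ⊢
    obtain ⟨d, hd, hdq⟩ := h1
    have : d = h⁻¹ * q * h := Subtype.ext hdq
    rwa [← this]

end transfer

section main

variable {G : Type u} [Group G] [Finite G] (M : Ideal AlgInt) [hP : M.IsPrime]
variable {p : ℕ} [Fact p.Prime]

theorem coeff_ebar_ne_zero_iff {B : Set (IrrCharacter G)} (hB : IsPBlock M B) (c : G) :
    (ebar M B).coeff c ≠ 0 ↔ ¬ MemLocalIdeal M (blockCoeff B c) := by
  have := Fintype.ofFinite G
  rw [ebar, coeff_ofFun, Ne, red_eq_zero_iff (memLocalRing_blockCoeff hP hB c)]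

theorem exists_coeff_ne_zero {k : Type v} [CommRing k] {a : MonoidAlgebra k G} (ha : a ≠ 0) :
    ∃ c, a.coeff c ≠ 0 := by
  by_contra hcon
  push Not at hcon
  exact ha (ma_ext hcon)

theorem trunc_ebar_ne_zero_iff (hM : IsPModular p M) {B : Set (IrrCharacter G)}
    (hB : IsPBlock M B) {D : Subgroup G} (hD : IsDefectGroup p M B D) {Q : Subgroup G}
    (hQ : IsPGroup p Q) :
    trunc (Cen Q) (ebar M B) ≠ 0 ↔ ∃ x : G, Q ≤ D.map (MulAut.conj x).toMonoidHom := by
  have := Fintype.ofFinite G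
  constructor
  · intro h
    obtain ⟨c, hc⟩ := exists_coeff_ne_zero h
    have hcQ : c ∈ Cen Q := by
      by_contra hcon
      exact hc (coeff_trunc_of_not_mem _ hcon)
    rw [coeff_trunc_of_mem _ hcQ, coeff_ebar_ne_zero_iff M hB] at hc
    apply Helper16.minmax_a hM hB hD hc Q hQ
    intro q hq
    rw [Subgroup.mem_centralizer_singleton_iff]
    exact (Subgroup.mem_centralizer_iff.1 hcQ q hq)
  · rintro ⟨x, hx⟩ h0
    obtain ⟨g, ⟨-, hg, -⟩, hle, -⟩ := Helper16.isDefectGroup_iff.1 hD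
    have hc : x * g * x⁻¹ ∈ Cen Q := by
      rw [Subgroup.mem_centralizer_iff]
      intro q hq
      have h1 := mem_map_conj_iff.1 (hx hq)
      have h2 := Subgroup.mem_centralizer_singleton_iff.1 (hle h1)
      calc q * (x * g * x⁻¹) = x * ((x⁻¹ * q * x) * g) * x⁻¹ := by group
        _ = x * (g * (x⁻¹ * q * x)) * x⁻¹ := by rw [h2]
        _ = x * g * x⁻¹ * q := by group
    have h1 := congrArg (fun a => a.coeff (x * g * x⁻¹)) h0
    simp only [coeff_trunc_of_mem _ hc] at h1
    apply (coeff_ebar_ne_zero_iff M hB _).2 _ h1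
    rwa [blockCoeff_isClassFunction B g x]

theorem trunc_idem_ne_zero_iff (hM : IsPModular p M) {H : Subgroup G}
    {b : Set (IrrCharacter H)} (hb : IsPBlock M b) {D : Subgroup H}
    (hD : IsDefectGroup p M b D) {Q : Subgroup G} (hQH : Q ≤ H) (hQ : IsPGroup p Q) :
    trunc (Cen Q) (idem M H b) ≠ 0 ↔
      ∃ h ∈ H, Q ≤ (D.map H.subtype).map (MulAut.conj h).toMonoidHom := by
  rw [idem_eq_emb, trunc_emb, cen_subgroupOf hQH]
  have h1 : emb H (trunc (Cen (Q.subgroupOf H)) (ebar M b)) ≠ 0 ↔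
      trunc (Cen (Q.subgroupOf H)) (ebar M b) ≠ 0 := by
    rw [Ne, Ne, ← map_zero (emb (k := ResF M) H), (emb_injective H).eq_iff]
  have hQ' : IsPGroup p (Q.subgroupOf H) := hQ.comap_subtype
  rw [h1, trunc_ebar_ne_zero_iff M hM hb hD hQ']
  constructor
  · rintro ⟨h, hh⟩
    exact ⟨h, h.2, (subgroupOf_le_map_conj_iff hQH D h).1 hh⟩
  · rintro ⟨h, hhH, hh⟩
    exact ⟨⟨h, hhH⟩, (subgroupOf_le_map_conj_iff hQH D ⟨h, hhH⟩).2 hh⟩

theorem card_map_conj (x : G) (D : Subgroup G) :
    Nat.card (D.map (MulAut.conj x).toMonoidHom) = Nat.card D :=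
  Subgroup.card_map_of_injective (MulAut.conj x).injective

/-- **Defect groups of a block of a subgroup through the Brauer map.** -/
theorem isDefectGroup_subgroupOf_iff (hM : IsPModular p M) {H : Subgroup G}
    {b : Set (IrrCharacter H)} (hb : IsPBlock M b) {R : Subgroup G} (hRH : R ≤ H) :
    IsDefectGroup p M b (R.subgroupOf H) ↔ IsDef p H (idem M H b) R := by
  constructor
  · intro hD
    have hmap : (R.subgroupOf H).map H.subtype = R := Subgroup.map_subgroupOf_eq_of_le hRH
    have hRp : IsPGroup p R := by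
      have := (Helper16.IsDefectGroup.isPGroup hD).map H.subtype
      rwa [hmap] at this
    refine ⟨hRH, hRp, ?_, ?_⟩
    · rw [trunc_idem_ne_zero_iff M hM hb hD hRH hRp, hmap]
      exact ⟨1, H.one_mem, by
        intro q hq
        exact mem_map_conj_iff.2 (by simpa using hq)⟩
    · intro S hS hRS hSH hne
      rw [trunc_idem_ne_zero_iff M hM hb hD hSH hS, hmap] at hne
      obtain ⟨h, -, hh⟩ := hne
      symm
      apply Subgroup.eq_of_le_of_card_ge hRS
      calc Nat.card S ≤ Nat.card (R.map (MulAut.conj h).toMonoidHom) := Subgroup.card_le_of_le hh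
        _ = Nat.card R := card_map_conj h R
  · rintro ⟨-, hRp, hne, hmax⟩
    obtain ⟨D, hD⟩ := Helper16.exists_isDefectGroup hM hb
    obtain ⟨h, hhH, hh⟩ := (trunc_idem_ne_zero_iff M hM hb hD hRH hRp).1 hne
    set S : Subgroup G := (D.map H.subtype).map (MulAut.conj h).toMonoidHom with hS
    have hSH : S ≤ H := by
      rintro _ ⟨_, ⟨d, _, rfl⟩, rfl⟩
      exact H.mul_mem (H.mul_mem hhH d.2) (H.inv_mem hhH)
    have hSp : IsPGroup p S := ((Helper16.IsDefectGroup.isPGroup hD).map _).map _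
    have hSR : S = R := hmax S hSp hh hSH
      ((trunc_idem_ne_zero_iff M hM hb hD hSH hSp).2 ⟨h, hhH, le_rfl⟩)
    have h2 := Helper16.IsDefectGroup.conj hD ⟨h, hhH⟩
    have h3 : R.subgroupOf H = D.map (MulAut.conj (⟨h, hhH⟩ : H)).toMonoidHom := by
      rw [← hSR]
      ext y
      rw [Subgroup.mem_subgroupOf, hS, mem_map_conj_iff, mem_map_conj_iff]
      constructor
      · rintro ⟨d, hd, hdy⟩
        have : d = (⟨h, hhH⟩ : H)⁻¹ * y * ⟨h, hhH⟩ := Subtype.ext hdy
        rwa [← this]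
      · intro hy
        exact ⟨_, hy, rfl⟩
    rw [h3]
    exact h2

/-- If the Brauer map at `R` does not kill the block `b` of `H`, some defect group contains `R`. -/
theorem exists_isDefectGroup_ge (hM : IsPModular p M) {H : Subgroup G}
    {b : Set (IrrCharacter H)} (hb : IsPBlock M b) {R : Subgroup G} (hRH : R ≤ H)
    (hRp : IsPGroup p R) (hne : trunc (Cen R) (idem M H b) ≠ 0) :
    ∃ D : Subgroup H, IsDefectGroup p M b D ∧ R.subgroupOf H ≤ D := by
  obtain ⟨D, hD⟩ := Helper16.exists_isDefectGroup hM hb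
  obtain ⟨h, hhH, hh⟩ := (trunc_idem_ne_zero_iff M hM hb hD hRH hRp).1 hne
  exact ⟨_, Helper16.IsDefectGroup.conj hD ⟨h, hhH⟩,
    (subgroupOf_le_map_conj_iff hRH D ⟨h, hhH⟩).2 hh⟩

/-- **Defect groups of a block of `G` through the Brauer map.** -/
theorem isDefectGroup_iff_isDef (hM : IsPModular p M) {B : Set (IrrCharacter G)}
    (hB : IsPBlock M B) {R : Subgroup G} :
    IsDefectGroup p M B R ↔ IsDef p ⊤ (ebar M B) R := by
  constructor
  · intro hD
    have hRp := Helper16.IsDefectGroup.isPGroup hD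
    refine ⟨le_top, hRp, ?_, ?_⟩
    · rw [trunc_ebar_ne_zero_iff M hM hB hD hRp]
      exact ⟨1, by
        intro q hq
        exact mem_map_conj_iff.2 (by simpa using hq)⟩
    · intro S hS hRS _ hne
      rw [trunc_ebar_ne_zero_iff M hM hB hD hS] at hne
      obtain ⟨h, hh⟩ := hne
      symm
      apply Subgroup.eq_of_le_of_card_ge hRS
      calc Nat.card S ≤ Nat.card (R.map (MulAut.conj h).toMonoidHom) := Subgroup.card_le_of_le hh
        _ = Nat.card R := card_map_conj h R
  · rintro ⟨-, hRp, hne, hmax⟩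
    obtain ⟨D, hD⟩ := Helper16.exists_isDefectGroup hM hB
    obtain ⟨h, hh⟩ := (trunc_ebar_ne_zero_iff M hM hB hD hRp).1 hne
    have hSp : IsPGroup p (D.map (MulAut.conj h).toMonoidHom) :=
      (Helper16.IsDefectGroup.isPGroup hD).map _
    have hSR := hmax _ hSp hh le_top ((trunc_ebar_ne_zero_iff M hM hB hD hSp).2 ⟨h, le_rfl⟩)
    rw [← hSR]
    exact Helper16.IsDefectGroup.conj hD h

end main

end Cfsg.Agent.Lib.Helper77
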