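import Mathlib
import Cfsg.Agent.S0918
import Cfsg.Agent.S0919
import Cfsg.Agent.Lib.Helper77.Defect

/-!
# Induced blocks and the Brauer map on idempotents (helper77)

For `P C_G(P) ≤ H ≤ N_G(P)`: `b^G = B` iff `Br_P(e_B) e_b = e_b`.
-/

set_option autoImplicit false
set_option linter.unusedSectionVars false

namespace Cfsg.Agent.Lib.Helper77

open Cfsg MonoidAlgebra Cfsg.Agent.Lib.Helper78

universe u

variable {G : Type u} [Group G] [Fintype G] (M : Ideal AlgInt) [hP : M.IsPrime]
variable {p : ℕ} [Fact p.Prime]

open Classical in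
/-- A class function is the combination of the class indicators. -/
theorem eq_sum_classInd {z : G → ℂ} (hz : IsClassFunction G z) (x : G) :
    z x = ∑ C : ConjClasses G, z (Quotient.out C) * classInd (Quotient.out C) x := by
  rw [Finset.sum_eq_single (ConjClasses.mk x)]
  · have h1 : IsConj (Quotient.out (ConjClasses.mk x)) x := by
      rw [← ConjClasses.mk_eq_mk_iff_isConj]
      exact Quotient.out_eq _
    rw [classInd, if_pos h1, mul_one]
    exact ((isClassFunction_iff_isConj.1 hz) _ _ h1).symm
  · intro C _ hne
    rw [classInd, if_neg, mul_zero]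
    intro h
    apply hne
    rw [← ConjClasses.mk_eq_mk_iff_isConj] at h
    rw [← h]
    exact (Quotient.out_eq C).symm
  · intro h; exact absurd (Finset.mem_univ _) h

open Classical in
/-- The truncation of a coefficient function to `C_G(P)`. -/
noncomputable def truncFn (P : Subgroup G) (z : G → ℂ) : G → ℂ :=
  fun x => if x ∈ Cen P then z x else 0

theorem redFn_truncFn (P : Subgroup G) (z : G → ℂ) :
    redFn M (truncFn P z) = trunc (Cen P) (redFn M z) := by
  classical
  apply ma_ext; intro x
  rw [coeff_trunc]
  simp only [redFn, coeff_ofFun, truncFn]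
  split_ifs
  · rfl
  · exact red_zero M

open Classical in
theorem omega_truncFn (P H : Subgroup G) [Fintype H] (ξ : H → ℂ) {z : G → ℂ}
    (hz : IsClassFunction G z) :
    omega ξ (fun h : H => truncFn P z (h : G))
      = ∑ C : ConjClasses G, z (Quotient.out C) * brauerCentralChar P H ξ (Quotient.out C) := by
  have h1 : (fun h : H => truncFn P z (h : G)) = ∑ C : ConjClasses G, z (Quotient.out C) •
      (fun h : H => if (h : G) ∈ Subgroup.centralizer (P : Set G)
        then classInd (Quotient.out C) (h : G) else 0) := by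
    funext h
    rw [Finset.sum_apply]
    simp only [Pi.smul_apply, smul_eq_mul, truncFn]
    split_ifs with hh
    · exact eq_sum_classInd hz _
    · simp
  rw [h1, omega_sum]
  apply Finset.sum_congr rfl
  intro C _
  rw [omega_smul, Helper16.brauerCentralChar_eq_omega]

/-- If `b^G = B` then `Br_P(e_B) e_b = e_b`. -/
theorem trunc_mul_idem_of_induced (hM : IsPModular p M) {P H : Subgroup G} (hPp : IsPGroup p P)
    (hPH : P ≤ H) (hCH : Cen P ≤ H) (hHN : H ≤ Subgroup.normalizer (P : Set G))
    {b : Set (IrrCharacter H)} {B : Set (IrrCharacter G)} (hind : IsInducedBlock M H b B) :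
    trunc (Cen P) (ebar M B) * idem M H b = idem M H b := by
  classical
  have := resF_charP hM
  have := Fintype.ofFinite H
  have hb := hind.1
  have hB := hind.2.1
  have h918 := (Cfsg.Agent.S0918.result p M hM P H hPp hPH hCH hHN b hb B hB).1 hind
  have hfix : FixedBy P (ebar M B) := (fixedBy_ebar M B).mono le_top
  have htr : trunc H (redFn M (truncFn P (blockCoeff B))) = trunc (Cen P) (ebar M B) := by
    rw [redFn_truncFn, ← ebar_eq_redFn]
    exact trunc_of_suppIn ((suppIn_trunc _ _).mono hCH)
  have hcrit := crit M hb (truncFn P (blockCoeff B))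
    (fun x _ => by
      unfold truncFn
      split_ifs
      · exact memLocalRing_blockCoeff hP hB x
      · exact memLocalRing_zero hP)
    (fun c hc x _ => by
      unfold truncFn
      have hn : c ∈ Subgroup.normalizer ((Cen P : Subgroup G) : Set G) :=
        normalizer_le_normalizer_centralizer P (hHN hc)
      have hiff := Subgroup.mem_normalizer_iff.1 hn x
      by_cases hx : x ∈ Cen P
      · rw [if_pos hx, if_pos (hiff.1 hx)]
        exact blockCoeff_isClassFunction B x c
      · rw [if_neg hx, if_neg (fun h => hx (hiff.2 h))])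
    (by rw [htr, ← trunc_centralizer_mul p P hPp hfix hfix, ebar_idem M hB])
  rw [htr] at hcrit
  rw [hcrit]
  intro ξ hξ
  obtain ⟨χ, hχ⟩ := IsPBlock.nonempty hP hB
  have hom : (∑ᶠ x : H, truncFn P (blockCoeff B) x * (ξ : H → ℂ) x / (ξ : H → ℂ) 1)
      = omega (ξ : H → ℂ) (fun h : H => truncFn P (blockCoeff B) (h : G)) := by
    rw [finsum_eq_sum_of_fintype, omega, Finset.sum_div]
  have h1 : (1 : ℂ) = omega (χ : G → ℂ) (blockCoeff B) := by
    rw [omega_blockCoeff, if_pos hχ]
  rw [hom, omega_truncFn P H _ (blockCoeff_isClassFunction B), h1,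
    omega_eq_sum_conjClasses (irr_isClassFunction χ) (blockCoeff_isClassFunction B),
    ← Finset.sum_sub_distrib]
  apply MemLocalIdeal.sum hP
  intro C _
  rw [← mul_sub]
  exact MemLocalIdeal.mul_left hP (memLocalRing_blockCoeff hP hB _) (h918 ξ hξ χ hχ _)

/-- `b^G = B` iff `Br_P(e_B) e_b = e_b`. -/
theorem isInducedBlock_iff_trunc (hM : IsPModular p M) {P H : Subgroup G} (hPp : IsPGroup p P)
    (hPH : P ≤ H) (hCH : Cen P ≤ H) (hHN : H ≤ Subgroup.normalizer (P : Set G))
    {b : Set (IrrCharacter H)} (hb : IsPBlock M b) {B : Set (IrrCharacter G)}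
    (hB : IsPBlock M B) :
    IsInducedBlock M H b B ↔ trunc (Cen P) (ebar M B) * idem M H b = idem M H b := by
  have := resF_charP hM
  constructor
  · exact trunc_mul_idem_of_induced M hM hPp hPH hCH hHN
  · intro h
    obtain ⟨B', hB'⟩ := Cfsg.Agent.S0919.result p M hM P H hPp hPH hCH hHN b hb
    have h' := trunc_mul_idem_of_induced M hM hPp hPH hCH hHN hB'
    by_cases hBB : B = B'
    · rw [hBB]; exact hB'
    · exfalso
      apply (isPrimIdem_idem M hb).ne_zero
      have hfix : FixedBy P (ebar M B) := (fixedBy_ebar M B).mono le_top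
      have hfix' : FixedBy P (ebar M B') := (fixedBy_ebar M B').mono le_top
      calc idem M H b = trunc (Cen P) (ebar M B) * (trunc (Cen P) (ebar M B') * idem M H b) := by
            rw [h', h]
        _ = trunc (Cen P) (ebar M B * ebar M B') * idem M H b := by
            rw [trunc_centralizer_mul p P hPp hfix hfix', mul_assoc]
        _ = 0 := by rw [ebar_orth M hB hB'.2.1 hBB, trunc_zero, zero_mul]

end Cfsg.Agent.Lib.Helper77
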