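import Mathlib
import Cfsg.Agent.S0920
import Cfsg.Agent.Lib.Helper77.Induced

/-!
# Maximal Brauer pairs (helper77)

Maximal Brauer pairs of a block `B`: their subgroups are the defect groups of `B`, and every
`B`-Brauer pair is conjugate to a pair below a given maximal one (Alperin–Broué).
-/

set_option autoImplicit false
set_option linter.unusedSectionVars false

namespace Cfsg.Agent.Lib.Helper77

open Cfsg MonoidAlgebra Cfsg.Agent.Lib.Helper78

universe u v

section abstract

variable {k : Type v} [CommRing k] {G : Type u} [Group G] [Finite G] {p : ℕ}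

/-- A maximal abstract Brauer pair. -/
def IsAMax (p : ℕ) (y : APair k G) : Prop := IsAPair p y ∧ ∀ z, ALE p y z → z.1 = y.1

theorem ALE.isAPair_right {x y : APair k G} (h : ALE p x y) (hx : IsAPair p x) : IsAPair p y := by
  rcases Relation.ReflTransGen.cases_tail h with rfl | ⟨c, _, hc⟩
  · exact hx
  · exact hc.2.1

theorem exists_isAMax_aux : ∀ (n : ℕ) (x : APair k G), Nat.card G - Nat.card x.1 = n →
    IsAPair p x → ∃ y, ALE p x y ∧ IsAMax p y := by
  intro n
  induction n using Nat.strong_induction_on with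
  | _ n ih =>
    intro x hn hx
    by_cases hmax : ∀ z, ALE p x z → z.1 = x.1
    · exact ⟨x, Relation.ReflTransGen.refl, hx, hmax⟩
    · push Not at hmax
      obtain ⟨z, hz, hne⟩ := hmax
      have hlt : Nat.card x.1 < Nat.card z.1 := card_lt_of_le_of_ne hz.le (Ne.symm hne)
      have hle : Nat.card z.1 ≤ Nat.card G := Subgroup.card_le_card_group _
      obtain ⟨y, hy, hymax⟩ := ih (Nat.card G - Nat.card z.1) (by omega) z rfl
        (hz.isAPair_right hx)
      exact ⟨y, hz.trans hy, hymax⟩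

/-- Every Brauer pair lies below a maximal one. -/
theorem exists_isAMax {x : APair k G} (hx : IsAPair p x) : ∃ y, ALE p x y ∧ IsAMax p y :=
  exists_isAMax_aux _ x rfl hx

theorem IsAMax.cjP {y : APair k G} (hy : IsAMax p y) (g : G) : IsAMax p (cjP g y) := by
  refine ⟨hy.1.cjP g, fun z hz => ?_⟩
  have h1 := ALE.cjP hz g⁻¹
  rw [cjP_cjP, inv_mul_cancel, cjP_one] at h1
  have h2 := hy.2 _ h1
  have h3 : z = Helper77.cjP g (Helper77.cjP g⁻¹ z) := by
    rw [cjP_cjP, mul_inv_cancel, cjP_one]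
  rw [h3]
  show (Helper77.cjP g⁻¹ z).1.map _ = y.1.map _
  rw [h2]

theorem IsABlockOf.cjP {b : MonoidAlgebra k G} {y : APair k G} (h : IsABlockOf b y) (g : G) :
    IsABlockOf b (cjP g y) := by
  refine ⟨h.1, ?_⟩
  have hb : cj g b = b := h.1.mem.2 g (Subgroup.mem_top g)
  show trunc (Cen (y.1.map _)) b * cj g y.2 = cj g y.2
  rw [Cen, centralizer_map_conj]
  conv_lhs => rw [← hb]
  rw [← cj_trunc, ← map_mul, h.2]

theorem exists_prim_of_idem_ne_zero (hdec : HasBlockDecomp k G) {H : Subgroup G}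
    {ε : MonoidAlgebra k G} (hε : ε ∈ zsub k H) (hidem : ε * ε = ε) (hne : ε ≠ 0) :
    ∃ e', IsPrimIdem H e' ∧ ε * e' = e' := by
  classical
  obtain ⟨S, hS, hsum⟩ := hdec H
  by_contra hcon
  push Not at hcon
  apply hne
  rw [idem_eq_sum_prim S hS hsum hε hidem]
  apply Finset.sum_eq_zero
  intro e he
  obtain ⟨h1, h2⟩ := Finset.mem_filter.1 he
  exact absurd h2 (hcon e ((hS e).1 h1))

end abstract

section orbit

variable {k : Type v} [CommRing k] {G : Type u} [Group G] [Fintype G]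

/-- A primitive idempotent of `Z(k[C])` not killed by an orbit sum belongs to the orbit. -/
theorem mem_orbF_of_mul_ne_zero {C K : Subgroup G} (hKC : K ≤ Subgroup.normalizer (C : Set G))
    {a f : MonoidAlgebra k G} (ha : IsPrimIdem C a) (hf : IsPrimIdem C f)
    (hne : orbSum K a * f ≠ 0) : f ∈ orbF K a := by
  by_contra hcon
  apply hne
  unfold orbSum
  rw [Finset.sum_mul]
  apply Finset.sum_eq_zero
  intro c hc
  obtain ⟨x, hx, rfl⟩ := mem_orbF.1 hc
  apply (ha.cj_of_mem_normalizer (hKC hx)).mul_eq_zero_of_ne hf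
  rintro rfl
  exact hcon hc

end orbit

section main

variable {G : Type u} [Group G] [Fintype G] (M : Ideal AlgInt) [hP : M.IsPrime]
variable {p : ℕ} [Fact p.Prime]

/-- The block of `N_G(P)` covering a maximal pair `(P, ē)` has defect group `P`. -/
theorem exists_block_normalizer (hM : IsPModular p M) {y : APair (ResF M) G} (hy : IsAMax p y) :
    ∃ b' : Set (IrrCharacter (Subgroup.normalizer (y.1 : Set G))), IsPBlock M b' ∧
      idem M (Subgroup.normalizer (y.1 : Set G)) b' = orbSum (Subgroup.normalizer (y.1 : Set G)) y.2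
      ∧ IsDefectGroup p M b' (y.1.subgroupOf (Subgroup.normalizer (y.1 : Set G))) := by
  have := resF_charP hM
  have hdec := hasBlockDecomp (G := G) M
  obtain ⟨P, ē⟩ := y
  obtain ⟨⟨hPp, he⟩, hmax⟩ := hy
  simp only at hPp he hmax ⊢
  set H := Subgroup.normalizer (P : Set G) with hH
  have hPH : P ≤ H := Subgroup.le_normalizer
  have hCH : Cen P ≤ H := Subgroup.centralizer_le_normalizer _
  have hHC : H ≤ Subgroup.normalizer ((Cen P : Subgroup G) : Set G) :=
    normalizer_le_normalizer_centralizer P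
  have hprim := isPrimIdem_orbSum M hM hPp hPH hCH le_rfl he
  obtain ⟨b', hb', hbe⟩ := (isPrimIdem_iff M).1 hprim
  refine ⟨b', hb', hbe.symm, ?_⟩
  rw [isDefectGroup_subgroupOf_iff M hM hb' hPH, ← hbe]
  have hsupp : SuppIn (Cen P) (orbSum H ē) := suppIn_orbSum hHC he.mem.1
  refine ⟨hPH, hPp, ?_, ?_⟩
  · rw [trunc_of_suppIn hsupp]; exact hprim.ne_zero
  · intro S hS hPS hSH hne
    have hfixS : FixedBy S (orbSum H ē) := (fixedBy_orbSum H ē).mono hSH
    have hεmem : trunc (Cen S) (orbSum H ē) ∈ zsub (ResF M) (Cen S) :=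
      trunc_mem_zsub ((cen_anti hPS).trans hCH) hprim.mem
    have hεidem : trunc (Cen S) (orbSum H ē) * trunc (Cen S) (orbSum H ē)
        = trunc (Cen S) (orbSum H ē) := by
      rw [← trunc_centralizer_mul p S hS hfixS hfixS, hprim.idem]
    obtain ⟨e', he', hεe'⟩ := exists_prim_of_idem_ne_zero hdec hεmem hεidem hne
    have hyS : IsAPair p ((S, e') : APair (ResF M) G) := ⟨hS, he'⟩
    obtain ⟨f, hf, -⟩ := existsUnique_normal hdec hyS (Q := P) hPS hSH
    have hfprim : IsPrimIdem (Cen P) f := hf.1.2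
    have hffix : FixedBy S f := hf.2.2.2.2.1
    have hfe' : trunc (Cen S) f * e' = e' := hf.2.2.2.2.2
    have hne2 : orbSum H ē * f ≠ 0 := by
      intro h0
      apply he'.ne_zero
      calc e' = trunc (Cen S) (orbSum H ē) * (trunc (Cen S) f * e') := by rw [hfe', hεe']
        _ = trunc (Cen S) (orbSum H ē * f) * e' := by
            rw [trunc_centralizer_mul p S hS hfixS hffix, mul_assoc]
        _ = 0 := by rw [h0, trunc_zero, zero_mul]
    obtain ⟨x, hx, hxf⟩ := mem_orbF.1 (mem_orbF_of_mul_ne_zero hHC he hfprim hne2)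
    have h1 := ANormal.cjP hf x⁻¹
    have h2 : cjP x⁻¹ ((P, f) : APair (ResF M) G) = (P, ē) := by
      refine Prod.ext ?_ ?_
      · exact Subgroup.mem_normalizer_iff_map_conj_eq.1 (H.inv_mem hx)
      · show cj x⁻¹ f = ē
        rw [← hxf, cj_inv_cj]
    rw [h2] at h1
    have h3 : S.map (MulAut.conj x⁻¹).toMonoidHom = P := hmax _ (Relation.ReflTransGen.single h1)
    symm
    apply Subgroup.eq_of_le_of_card_ge hPS
    rw [← h3, card_map_conj]

theorem induced_unique (hM : IsPModular p M) {P : Subgroup G} (hPp : IsPGroup p P)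
    {ε : MonoidAlgebra (ResF M) G} (hε : ε ≠ 0) {B B' : Set (IrrCharacter G)}
    (hB : IsPBlock M B) (hB' : IsPBlock M B') (h : trunc (Cen P) (ebar M B) * ε = ε)
    (h' : trunc (Cen P) (ebar M B') * ε = ε) : B = B' := by
  have := resF_charP hM
  by_contra hBB
  apply hε
  have hfix : FixedBy P (ebar M B) := (fixedBy_ebar M B).mono le_top
  have hfix' : FixedBy P (ebar M B') := (fixedBy_ebar M B').mono le_top
  calc ε = trunc (Cen P) (ebar M B) * (trunc (Cen P) (ebar M B') * ε) := by rw [h', h]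
    _ = trunc (Cen P) (ebar M B * ebar M B') * ε := by
        rw [trunc_centralizer_mul p P hPp hfix hfix', mul_assoc]
    _ = 0 := by rw [ebar_orth M hB hB' hBB, trunc_zero, zero_mul]

/-- `Br_P(e_B)` fixes the `N_G(P)`-orbit sum of `ē` when `(P, ē)` is a `B`-pair. -/
theorem trunc_mul_orbSum {B : Set (IrrCharacter G)} {P : Subgroup G}
    {e : MonoidAlgebra (ResF M) G} (hblk : trunc (Cen P) (ebar M B) * e = e) :
    trunc (Cen P) (ebar M B) * orbSum (Subgroup.normalizer (P : Set G)) e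
      = orbSum (Subgroup.normalizer (P : Set G)) e := by
  unfold orbSum
  rw [Finset.mul_sum]
  apply Finset.sum_congr rfl
  intro c hc
  obtain ⟨x, hx, rfl⟩ := mem_orbF.1 hc
  have h1 : cj x (trunc (Cen P) (ebar M B)) = trunc (Cen P) (ebar M B) := by
    rw [cj_trunc_of_mem_normalizer (normalizer_le_normalizer_centralizer P hx),
      fixedBy_ebar M B x (Subgroup.mem_top x)]
  calc trunc (Cen P) (ebar M B) * cj x e
      = cj x (trunc (Cen P) (ebar M B) * e) := by rw [map_mul, h1]
    _ = cj x e := by rw [hblk]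

/-- **The subgroup of a maximal `B`-Brauer pair is a defect group of `B`.** -/
theorem isDefectGroup_of_isAMax (hM : IsPModular p M) {B : Set (IrrCharacter G)}
    (hB : IsPBlock M B) {y : APair (ResF M) G} (hy : IsAMax p y)
    (hblk : IsABlockOf (ebar M B) y) : IsDefectGroup p M B y.1 := by
  obtain ⟨b', hb', hbe, hdef⟩ := exists_block_normalizer M hM hy
  obtain ⟨B', hB', hdef', hind⟩ := (Cfsg.Agent.S0920.result p M hM y.1 hy.1.1).1 b' hb' hdef
  have h1 := trunc_mul_idem_of_induced M hM hy.1.1 Subgroup.le_normalizer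
    (Subgroup.centralizer_le_normalizer _) le_rfl hind
  have h2 := trunc_mul_orbSum M hblk.2
  rw [← hbe] at h2
  have := induced_unique M hM hy.1.1 (isPrimIdem_idem M hb').ne_zero hB hB' h2 h1
  rw [this]
  exact hdef'

/-- Two maximal `B`-pairs on the same subgroup are conjugate under its normalizer. -/
theorem exists_cj_eq_of_isAMax (hM : IsPModular p M) {B : Set (IrrCharacter G)}
    (hB : IsPBlock M B) {P : Subgroup G} {e₁ e₂ : MonoidAlgebra (ResF M) G}
    (h₁ : IsAMax p ((P, e₁) : APair (ResF M) G)) (h₂ : IsAMax p ((P, e₂) : APair (ResF M) G))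
    (hb₁ : IsABlockOf (ebar M B) ((P, e₁) : APair (ResF M) G))
    (hb₂ : IsABlockOf (ebar M B) ((P, e₂) : APair (ResF M) G)) :
    ∃ x ∈ Subgroup.normalizer (P : Set G), cj x e₁ = e₂ := by
  have hHC := normalizer_le_normalizer_centralizer P
  have hPp : IsPGroup p P := h₁.1.1
  obtain ⟨b₁, hbl₁, hbe₁, hdef₁⟩ := exists_block_normalizer M hM h₁
  obtain ⟨b₂, hbl₂, hbe₂, hdef₂⟩ := exists_block_normalizer M hM h₂
  simp only at hbe₁ hbe₂ hdef₁ hdef₂
  have hD := isDefectGroup_of_isAMax M hM hB h₁ hb₁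
  have hind : ∀ (b : Set (IrrCharacter (Subgroup.normalizer (P : Set G))))
      (e : MonoidAlgebra (ResF M) G),
      IsPBlock M b → idem M (Subgroup.normalizer (P : Set G)) b
        = orbSum (Subgroup.normalizer (P : Set G)) e →
      trunc (Cen P) (ebar M B) * e = e →
      IsInducedBlock M (Subgroup.normalizer (P : Set G)) b B := by
    intro b e hbl hbe hblk
    apply (isInducedBlock_iff_trunc M hM hPp Subgroup.le_normalizer
      (Subgroup.centralizer_le_normalizer _) le_rfl hbl hB).2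
    rw [hbe]
    exact trunc_mul_orbSum M hblk
  have huniq := ((Cfsg.Agent.S0920.result p M hM P hPp).2 B hB hD).unique
    ⟨hbl₁, hdef₁, hind b₁ e₁ hbl₁ hbe₁ hb₁.2⟩ ⟨hbl₂, hdef₂, hind b₂ e₂ hbl₂ hbe₂ hb₂.2⟩
  rw [huniq, hbe₂] at hbe₁
  have horth : ∀ x ∈ Subgroup.normalizer (P : Set G), cj x e₂ = e₂ ∨ cj x e₂ * e₂ = 0 :=
    fun x hx => h₂.1.2.cj_eq_or_orth (hHC hx)
  have h3 : orbSum (Subgroup.normalizer (P : Set G)) e₁ * e₂ ≠ 0 := by
    rw [← hbe₁, orbSum_mul_of_mem h₂.1.2.idem horth (self_mem_orbF _ _)]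
    exact h₂.1.2.ne_zero
  exact mem_orbF.1 (mem_orbF_of_mul_ne_zero hHC h₁.1.2 h₂.1.2 h3)

/-- **Every `B`-Brauer pair is conjugate to a pair below a given maximal `B`-Brauer pair.** -/
theorem exists_cjP_ALE (hM : IsPModular p M) {B : Set (IrrCharacter G)} (hB : IsPBlock M B)
    {x y : APair (ResF M) G} (hy : IsAMax p y) (hyb : IsABlockOf (ebar M B) y)
    (hx : IsAPair p x) (hxb : IsABlockOf (ebar M B) x) : ∃ g : G, ALE p (cjP g x) y := by
  have := resF_charP hM
  have hdec := hasBlockDecomp (G := G) M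
  obtain ⟨z, hxz, hz⟩ := exists_isAMax hx
  have hzb : IsABlockOf (ebar M B) z := (isABlockOf_iff_of_le hdec hxz).1 hxb
  have hDz := isDefectGroup_of_isAMax M hM hB hz hzb
  have hDy := isDefectGroup_of_isAMax M hM hB hy hyb
  obtain ⟨g, hg⟩ := Helper16.IsDefectGroup.exists_conj_eq hM hB hDz hDy
  have hz' := hz.cjP g
  have hzb' := hzb.cjP g
  obtain ⟨P, e⟩ := y
  simp only at hg
  have hcj : cjP g z = (P, cj g z.2) := Prod.ext hg.symm rfl
  rw [hcj] at hz' hzb'
  obtain ⟨n, hn, hne⟩ := exists_cj_eq_of_isAMax M hM hB hz' hy hzb' hyb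
  refine ⟨n * g, ?_⟩
  have h1 := ALE.cjP hxz (n * g)
  have h2 : cjP (n * g) z = (P, e) := by
    rw [← cjP_cjP, hcj]
    exact Prod.ext (Subgroup.mem_normalizer_iff_map_conj_eq.1 hn) hne
  rwa [h2] at h1

end main

end Cfsg.Agent.Lib.Helper77
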