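import Mathlib
import Cfsg.Agent.Lib.Helper77.MaxPairs

/-!
# Dictionary, part 6 (helper77): maximal Brauer pairs, conjugate pairs
-/

set_option autoImplicit false
set_option linter.unusedSectionVars false

namespace Cfsg.Agent.Lib.Helper77

open Cfsg MonoidAlgebra Cfsg.Agent.Lib.Helper78

universe u

variable {G : Type u} [Group G] [Fintype G] (M : Ideal AlgInt) [hP : M.IsPrime]
variable {p : ℕ} [Fact p.Prime]

theorem isMaximalBrauerPair_iff (hM : IsPModular p M) (B : Set (IrrCharacter G)) (P : Subgroup G)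
    (e : Set (IrrCharacter (Cen P))) :
    IsMaximalBrauerPair p M B P e ↔ IsBrauerPairOf p M B P e ∧ IsAMax p (toA M ⟨P, e⟩) := by
  have := resF_charP hM
  have hdec := hasBlockDecomp (G := G) M
  unfold IsMaximalBrauerPair
  apply and_congr_right
  intro hBe
  obtain ⟨hPe, hB, hblk⟩ := (isBrauerPairOf_iff M hM B P e).1 hBe
  constructor
  · intro h
    refine ⟨isAPair_toA M hPe, fun z hz => ?_⟩
    obtain ⟨g, hg, hzg⟩ := exists_of_isAPair M (hz.isAPair_right (isAPair_toA M hPe))
    rw [hzg] at hz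
    exact h z.1 g ((isBrauerPairOf_iff M hM B z.1 g).2
      ⟨hg, hB, (isABlockOf_iff_of_le hdec hz).1 hblk⟩) ((subpairLE_iff M hM hPe.2 hg.2).2 hz)
  · intro h R g _ hle
    exact h.2 _ (SubpairLE.toALE M hM hle)

theorem toA_conjBlock (Q : Subgroup G) (x : G) (f : Set (IrrCharacter (Cen Q))) :
    toA M ⟨Q.map (MulAut.conj x).toMonoidHom, conjBlock Q x f⟩ = cjP x (toA M ⟨Q, f⟩) :=
  Prod.ext rfl (idem_conjSet M (centralizer_map_conj Q x) f)

theorem isPBlock_conjBlock {Q : Subgroup G} (x : G) {f : Set (IrrCharacter (Cen Q))}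
    (hf : IsPBlock M f) : IsPBlock M (conjBlock Q x f) :=
  isPBlock_conjSet (centralizer_map_conj Q x) hf

end Cfsg.Agent.Lib.Helper77
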