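import Mathlib
import Cfsg.Agent.Lib.Helper77.Dict6

/-!
# Fully centralized / fully normalized Brauer pairs (helper77)
-/

set_option autoImplicit false
set_option linter.unusedSectionVars false

namespace Cfsg.Agent.Lib.Helper77

open Cfsg MonoidAlgebra Cfsg.Agent.Lib.Helper78

universe u v

section abstract

variable {k : Type v} [CommRing k] {G : Type u} [Group G] [Finite G]

/-- The stabilizer of an element of the group algebra under conjugation. -/
def stabSub (a : MonoidAlgebra k G) : Subgroup G where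
  carrier := {u | cj u a = a}
  mul_mem' := fun {x y} hx hy => by
    show cj (x * y) a = a
    rw [cj_mul_apply, show cj y a = a from hy, show cj x a = a from hx]
  one_mem' := cj_one_apply a
  inv_mem' := fun {x} hx => by
    show cj x⁻¹ a = a
    conv_lhs => rw [← show cj x a = a from hx]
    exact cj_inv_cj x a

theorem mem_stabSub {a : MonoidAlgebra k G} {u : G} : u ∈ stabSub a ↔ cj u a = a := Iff.rfl

theorem fixedBy_iff_le_stabSub {P : Subgroup G} {a : MonoidAlgebra k G} :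
    FixedBy P a ↔ P ≤ stabSub a := Iff.rfl

theorem FixedBy.sup {A B : Subgroup G} {a : MonoidAlgebra k G} (hA : FixedBy A a)
    (hB : FixedBy B a) : FixedBy (A ⊔ B) a :=
  fixedBy_iff_le_stabSub.2 (sup_le (fixedBy_iff_le_stabSub.1 hA) (fixedBy_iff_le_stabSub.1 hB))

theorem mem_cen_sup {Q S : Subgroup G} {x : G} : x ∈ Cen (Q ⊔ S) ↔ x ∈ Cen Q ∧ x ∈ Cen S := by
  constructor
  · intro h
    exact ⟨cen_anti le_sup_left h, cen_anti le_sup_right h⟩
  · rintro ⟨h1, h2⟩
    have h1' : Q ≤ Subgroup.centralizer ((Subgroup.zpowers x : Subgroup G) : Set G) :=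
      Subgroup.le_centralizer_iff.1 (by rw [Subgroup.zpowers_le]; exact h1)
    have h2' : S ≤ Subgroup.centralizer ((Subgroup.zpowers x : Subgroup G) : Set G) :=
      Subgroup.le_centralizer_iff.1 (by rw [Subgroup.zpowers_le]; exact h2)
    exact Subgroup.le_centralizer_iff.1 (sup_le h1' h2') (Subgroup.mem_zpowers x)

theorem trunc_cen_sup {Q S : Subgroup G} {a : MonoidAlgebra k G} (ha : SuppIn (Cen Q) a) :
    trunc (Cen (Q ⊔ S)) a = trunc (Cen S) a := by
  classical
  apply ma_ext; intro x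
  rw [coeff_trunc, coeff_trunc]
  by_cases hx : x ∈ Cen Q
  · by_cases hs : x ∈ Cen S
    · rw [if_pos (mem_cen_sup.2 ⟨hx, hs⟩), if_pos hs]
    · rw [if_neg (fun h => hs (mem_cen_sup.1 h).2), if_neg hs]
  · rw [ha x hx, ite_self, ite_self]

variable {p : ℕ} [Fact p.Prime] [CharP k p]

/-- Below a pair `(P, e)`, the pair on `Q` is a normal subpair of the pair on `R` whenever
`Q ≤ R ≤ N_P(Q)`. -/
theorem ALE.exists_normal (hdec : HasBlockDecomp k G) {x y : APair k G} (hy : IsAPair p y)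
    (h : ALE p x y) {R : Subgroup G} (hQR : x.1 ≤ R) (hRP : R ≤ y.1)
    (hRN : R ≤ Subgroup.normalizer (x.1 : Set G)) :
    ∃ g, ANormal p x (R, g) ∧ ALE p (R, g) y := by
  obtain ⟨g, hg⟩ := exists_ALE' hdec hy hRP
  obtain ⟨f', hf', -⟩ := existsUnique_normal hdec (hg.isAPair_left hy) (Q := x.1) hQR hRN
  have h1 : ALE p (x.1, f') y := Relation.ReflTransGen.head hf' hg
  have h2 : f' = x.2 := ALE.unique hdec hy h1 (show ALE p (x.1, x.2) y from h)
  rw [h2] at hf'
  exact ⟨g, hf', hg⟩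

theorem ANormal.trunc_ne_zero {x y : APair k G} (h : ANormal p x y) :
    trunc (Cen y.1) x.2 ≠ 0 := by
  intro h0
  apply h.2.1.2.ne_zero
  rw [← h.2.2.2.2.2, h0, zero_mul]

/-- A `p`-subgroup `S` with `Q ≤ S ≤ N_G(Q, f)` and `Br_S(f) ≠ 0` carries a pair above `(Q, f)`. -/
theorem exists_normal_above (hdec : HasBlockDecomp k G) {x : APair k G} (hx : IsAPair p x)
    {S : Subgroup G} (hS : IsPGroup p S) (hQS : x.1 ≤ S)
    (hSN : S ≤ Subgroup.normalizer (x.1 : Set G)) (hfix : FixedBy S x.2)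
    (hne : trunc (Cen S) x.2 ≠ 0) : ∃ g, ANormal p x (S, g) := by
  have hmem : trunc (Cen S) x.2 ∈ zsub k (Cen S) := trunc_mem_zsub (cen_anti hQS) hx.2.mem
  have hidem : trunc (Cen S) x.2 * trunc (Cen S) x.2 = trunc (Cen S) x.2 := by
    rw [← trunc_centralizer_mul p S hS hfix hfix, hx.2.idem]
  obtain ⟨g, hg, hεg⟩ := exists_prim_of_idem_ne_zero hdec hmem hidem hne
  exact ⟨g, hx, ⟨hS, hg⟩, hQS, hSN, hfix, hεg⟩

end abstract

section main

variable {G : Type u} [Group G] [Fintype G] (M : Ideal AlgInt) [hP : M.IsPrime]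
variable {p : ℕ} [Fact p.Prime]

theorem map_conj_le_cen {Q S : Subgroup G} (h : S ≤ Cen Q) (t : G) :
    S.map (MulAut.conj t).toMonoidHom ≤ Cen (Q.map (MulAut.conj t).toMonoidHom) := by
  rw [Cen, centralizer_map_conj]
  exact Subgroup.map_mono h

/-- `Br_{C_P(Q)}(f) ≠ 0` for `(Q, f) ≤ (P, e)`. -/
theorem trunc_cen_inf_ne_zero {k : Type v} [CommRing k] [CharP k p] (hdec : HasBlockDecomp k G)
    {x y : APair k G} (hy : IsAPair p y) (h : ALE p x y) :
    trunc (Cen (y.1 ⊓ Cen x.1)) x.2 ≠ 0 := by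
  obtain ⟨g, hg, -⟩ := h.exists_normal hdec hy (R := x.1 ⊔ (y.1 ⊓ Cen x.1)) le_sup_left
    (sup_le h.le inf_le_left)
    (sup_le Subgroup.le_normalizer (inf_le_right.trans (Subgroup.centralizer_le_normalizer _)))
  have := hg.trunc_ne_zero
  rwa [trunc_cen_sup hg.1.2.mem.1] at this

/-- **Fully centralized pairs**: `C_P(Q)` is a defect group of `f`. -/
theorem isDef_cen_of_fully (hM : IsPModular p M) {B : Set (IrrCharacter G)} (hB : IsPBlock M B)
    {x y : APair (ResF M) G} (hy : IsAMax p y) (hyb : IsABlockOf (ebar M B) y) (h : ALE p x y)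
    (hfull : ∀ t : G, ALE p (cjP t x) y →
      Nat.card ↥(y.1 ⊓ Cen (cjP t x).1) ≤ Nat.card ↥(y.1 ⊓ Cen x.1)) :
    IsDef p (Cen x.1) x.2 (y.1 ⊓ Cen x.1) := by
  have := resF_charP hM
  have hdec := hasBlockDecomp (G := G) M
  have hx : IsAPair p x := h.isAPair_left hy.1
  refine ⟨inf_le_right, hy.1.1.to_le inf_le_left, trunc_cen_inf_ne_zero hdec hy.1 h, ?_⟩
  intro S hS hCS hSC hne
  have hSN : S ≤ Subgroup.normalizer (x.1 : Set G) :=
    hSC.trans (Subgroup.centralizer_le_normalizer _)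
  have hRp : IsPGroup p ↥(x.1 ⊔ S) := hx.1.to_sup_of_normal_left' hS hSN
  obtain ⟨g, hg⟩ := exists_normal_above hdec hx hRp le_sup_left
    (sup_le Subgroup.le_normalizer hSN)
    ((fixedBy_of_suppIn_cen hx.2.mem.1).sup (hx.2.mem.2.mono hSC))
    (by rwa [trunc_cen_sup hx.2.mem.1])
  have hxb : IsABlockOf (ebar M B) x := (isABlockOf_iff_of_le hdec h).2 hyb
  have hgb := (isABlockOf_iff_of_normal hdec hg).1 hxb
  obtain ⟨t, ht⟩ := exists_cjP_ALE M hM hB hy hyb hg.2.1 hgb
  have h1 : ALE p (cjP t x) y := Relation.ReflTransGen.head (hg.cjP t) ht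
  have h2 := hfull t h1
  have h3 : S.map (MulAut.conj t).toMonoidHom ≤ y.1 ⊓ Cen (cjP t x).1 :=
    le_inf ((Subgroup.map_mono le_sup_right).trans ht.le) (map_conj_le_cen hSC t)
  symm
  apply Subgroup.eq_of_le_of_card_ge hCS
  calc Nat.card S = Nat.card (S.map (MulAut.conj t).toMonoidHom) := (card_map_conj t S).symm
    _ ≤ Nat.card ↥(y.1 ⊓ Cen (cjP t x).1) := Subgroup.card_le_of_le h3
    _ ≤ _ := h2

/-- **Fully normalized pairs**: `N_P(Q)` is a defect group of `f` as a block of `N_G(Q, f)`. -/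
theorem isDef_nor_of_fully (hM : IsPModular p M) {B : Set (IrrCharacter G)} (hB : IsPBlock M B)
    {x y : APair (ResF M) G} (hy : IsAMax p y) (hyb : IsABlockOf (ebar M B) y) (h : ALE p x y)
    (hfull : ∀ t : G, ALE p (cjP t x) y →
      Nat.card ↥(y.1 ⊓ Subgroup.normalizer ((cjP t x).1 : Set G))
        ≤ Nat.card ↥(y.1 ⊓ Subgroup.normalizer (x.1 : Set G)))
    {T : Subgroup G} (hTN : T ≤ Subgroup.normalizer (x.1 : Set G)) (hTfix : FixedBy T x.2)
    (hT : ∀ u ∈ Subgroup.normalizer (x.1 : Set G), cj u x.2 = x.2 → u ∈ T) :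
    IsDef p T x.2 (y.1 ⊓ Subgroup.normalizer (x.1 : Set G)) := by
  have := resF_charP hM
  have hdec := hasBlockDecomp (G := G) M
  have hx : IsAPair p x := h.isAPair_left hy.1
  obtain ⟨g₀, hg₀, -⟩ := h.exists_normal hdec hy.1
    (R := y.1 ⊓ Subgroup.normalizer (x.1 : Set G)) (le_inf h.le Subgroup.le_normalizer)
    inf_le_left inf_le_right
  refine ⟨fun u hu => hT u hu.2 (hg₀.2.2.2.2.1 u hu), hy.1.1.to_le inf_le_left,
    hg₀.trunc_ne_zero, ?_⟩
  intro S hS hNS hST hne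
  have hQS : x.1 ≤ S := (le_inf h.le Subgroup.le_normalizer).trans hNS
  obtain ⟨g, hg⟩ := exists_normal_above hdec hx hS hQS (hST.trans hTN) (hTfix.mono hST) hne
  have hxb : IsABlockOf (ebar M B) x := (isABlockOf_iff_of_le hdec h).2 hyb
  have hgb := (isABlockOf_iff_of_normal hdec hg).1 hxb
  obtain ⟨t, ht⟩ := exists_cjP_ALE M hM hB hy hyb hg.2.1 hgb
  have h1 : ALE p (cjP t x) y := Relation.ReflTransGen.head (hg.cjP t) ht
  have h2 := hfull t h1
  have h3 : S.map (MulAut.conj t).toMonoidHom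
      ≤ y.1 ⊓ Subgroup.normalizer ((cjP t x).1 : Set G) :=
    le_inf ht.le ((Subgroup.map_mono (hST.trans hTN)).trans (normalizer_map_conj _ t))
  symm
  apply Subgroup.eq_of_le_of_card_ge hNS
  calc Nat.card S = Nat.card (S.map (MulAut.conj t).toMonoidHom) := (card_map_conj t S).symm
    _ ≤ Nat.card ↥(y.1 ⊓ Subgroup.normalizer ((cjP t x).1 : Set G)) := Subgroup.card_le_of_le h3
    _ ≤ _ := h2

/-- Among the conjugates of `x` below `y` there is one maximizing a given numerical invariant. -/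
theorem exists_max_conj {k : Type v} [CommRing k] {x y : APair k G} (h : ALE p x y)
    (ν : APair k G → ℕ) :
    ∃ t : G, ALE p (cjP t x) y ∧ ∀ s : G, ALE p (cjP s x) y → ν (cjP s x) ≤ ν (cjP t x) := by
  classical
  have hne : (Finset.univ.filter fun t : G => ALE p (cjP t x) y).Nonempty :=
    ⟨1, by simpa [cjP_one] using h⟩
  obtain ⟨t, ht, hmax⟩ := Finset.exists_max_image _ (fun t => ν (cjP t x)) hne
  refine ⟨t, (Finset.mem_filter.1 ht).2, fun s hs => hmax s ?_⟩
  exact Finset.mem_filter.2 ⟨Finset.mem_univ _, hs⟩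

end main

end Cfsg.Agent.Lib.Helper77

namespace Cfsg.Agent.Lib.Helper77

open Cfsg MonoidAlgebra Cfsg.Agent.Lib.Helper78

universe u

variable {G : Type u} [Group G] [Fintype G] (M : Ideal AlgInt) [hP : M.IsPrime]
variable {p : ℕ} [Fact p.Prime]

/-- Basic facts on the stabilizer `N_G(Q, f)`. -/
theorem stab_facts {Q : Subgroup G} {f : Set (IrrCharacter (Cen Q))} (hf : IsPBlock M f)
    {T : Subgroup G} (hT : ∀ y : G, y ∈ T ↔ y ∈ Subgroup.normalizer (Q : Set G) ∧
      StabilizesBlock (Cen Q) f y) :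
    Q ≤ T ∧ Cen Q ≤ T ∧ T ≤ Subgroup.normalizer (Q : Set G) ∧ FixedBy T (idem M (Cen Q) f) ∧
      ∀ u ∈ Subgroup.normalizer (Q : Set G), cj u (idem M (Cen Q) f) = idem M (Cen Q) f → u ∈ T := by
  have hprim := isPrimIdem_idem M hf
  have key : ∀ u ∈ Subgroup.normalizer (Q : Set G),
      cj u (idem M (Cen Q) f) = idem M (Cen Q) f → u ∈ T := fun u hu h =>
    (hT u).2 ⟨hu, (stabilizesBlock_iff_cj M hf u).2
      ⟨normalizer_le_normalizer_centralizer Q hu, h⟩⟩
  refine ⟨fun u hu => key u (Subgroup.le_normalizer hu)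
      (fixedBy_of_suppIn_cen hprim.mem.1 u hu),
    fun u hu => key u (Subgroup.centralizer_le_normalizer _ hu) (hprim.mem.2 u hu),
    fun u hu => ((hT u).1 hu).1,
    fun u hu => ((stabilizesBlock_iff_cj M hf u).1 ((hT u).1 hu).2).2, key⟩

end Cfsg.Agent.Lib.Helper77
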