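import Mathlib
import Cfsg.Agent.Lib.Helper77.FullyCN

/-!
# Principal blocks and Brauer pairs: Brauer's third main theorem (helper77)
-/

set_option autoImplicit false
set_option linter.unusedSectionVars false

namespace Cfsg.Agent.Lib.Helper77

open Cfsg MonoidAlgebra Cfsg.Agent.Lib.Helper78

universe u v

section aug

variable {k : Type v} [CommRing k] {G : Type u} [Group G] [Fintype G]

/-- The augmentation. -/
noncomputable def aug (a : MonoidAlgebra k G) : k := ∑ x, a.coeff x

theorem aug_mul (a b : MonoidAlgebra k G) : aug (a * b) = aug a * aug b := by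
  unfold aug
  simp only [coeff_mul_left]
  rw [Finset.sum_comm, Finset.sum_mul]
  apply Finset.sum_congr rfl
  intro y _
  rw [← Finset.mul_sum]
  congr 1
  exact Equiv.sum_comp (Equiv.mulLeft y⁻¹) (fun x => b.coeff x)

theorem aug_cj (g : G) (a : MonoidAlgebra k G) : aug (cj g a) = aug a := by
  unfold aug
  simp only [coeff_cj]
  have := Equiv.sum_comp (MulAut.conj g⁻¹).toEquiv (fun x => a.coeff x)
  simpa [MulAut.conj_apply] using this

theorem aug_trunc (p : ℕ) [Fact p.Prime] [CharP k p] {R : Subgroup G} (hR : IsPGroup p R)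
    {a : MonoidAlgebra k G} (ha : FixedBy R a) : aug (trunc (Cen R) a) = aug a := by
  classical
  unfold aug
  rw [sum_eq_sum_fixed p hR (conjPerm R) (fun y => a.coeff y)
    (fun u y => fixedBy_iff_coeff.1 ha u u.2 y) (Finset.univ.filter fun y => y ∈ Cen R)
    (fun y => by
      simp only [Finset.mem_filter, Finset.mem_univ, true_and]
      exact mem_centralizer_iff_conj)]
  rw [Finset.sum_filter]
  apply Finset.sum_congr rfl
  intro y _
  rw [coeff_trunc]

theorem aug_emb (H : Subgroup G) [Fintype H] (a : MonoidAlgebra k H) : aug (emb H a) = aug a := by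
  classical
  unfold aug
  have h1 : ∑ x : G, (emb H a).coeff x = ∑ x ∈ Finset.univ.filter (fun x : G => x ∈ H),
      (emb H a).coeff x := by
    rw [Finset.sum_filter]
    apply Finset.sum_congr rfl
    intro x _
    split_ifs with hx
    · rfl
    · exact coeff_emb_of_not_mem H a hx
  rw [h1, Finset.sum_subtype (p := fun x => x ∈ H) _ (fun x => by simp)]
  apply Finset.sum_congr rfl
  intro x _
  exact coeff_emb_coe H a x

variable {p : ℕ} [Fact p.Prime] [CharP k p]

theorem ANormal.aug_eq_one {x y : APair k G} (h : ANormal p x y) (hy : aug y.2 = 1) :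
    aug x.2 = 1 := by
  have h1 := congrArg aug h.2.2.2.2.2
  rwa [aug_mul, aug_trunc p h.2.1.1 h.2.2.2.2.1, hy, mul_one] at h1

theorem ALE.aug_eq_one {x y : APair k G} (h : ALE p x y) (hy : aug y.2 = 1) : aug x.2 = 1 := by
  induction h using Relation.ReflTransGen.head_induction_on with
  | refl => exact hy
  | head hac _ ih => exact hac.aug_eq_one ih

theorem IsABlockOf.aug_eq_one {b : MonoidAlgebra k G} {y : APair k G} (hyp : IsAPair p y)
    (h : IsABlockOf b y) (hy : aug y.2 = 1) : aug b = 1 := by
  have h1 := congrArg aug h.2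
  rwa [aug_mul, aug_trunc p hyp.1 (h.1.mem.2.mono le_top), hy, mul_one] at h1

end aug

section main

variable {G : Type u} [Group G] [Fintype G] (M : Ideal AlgInt) [hP : M.IsPrime]
variable {p : ℕ} [Fact p.Prime]

theorem eq_principalBlock_iff {B : Set (IrrCharacter G)} (hB : IsPBlock M B) :
    B = principalBlock M G ↔ trivIrr G ∈ B := by
  constructor
  · rintro rfl; exact trivIrr_mem_principalBlock hP
  · intro h
    exact IsPBlock.eq_of_mem_mem hP hB isPBlock_principalBlock h (trivIrr_mem_principalBlock hP)

open Classical in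
theorem aug_ebar {B : Set (IrrCharacter G)} (hB : IsPBlock M B) :
    aug (ebar M B) = if B = principalBlock M G then 1 else 0 := by
  have h1 : aug (ebar M B) = red M (omega ((trivIrr G : IrrCharacter G) : G → ℂ) (blockCoeff B)) := by
    unfold aug omega
    simp only [ebar, coeff_ofFun]
    rw [← red_sum _ _ (fun g _ => memLocalRing_blockCoeff hP hB g)]
    congr 1
    simp [trivIrr]
  rw [h1, omega_blockCoeff]
  by_cases h : B = principalBlock M G
  · rw [if_pos h, if_pos ((eq_principalBlock_iff M hB).1 h), red_one]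
  · rw [if_neg h, if_neg (fun h' => h ((eq_principalBlock_iff M hB).2 h')), red_zero]

open Classical in
theorem aug_idem {H : Subgroup G} {b : Set (IrrCharacter H)} (hb : IsPBlock M b) :
    aug (idem M H b) = if b = principalBlock M H then 1 else 0 := by
  have := Fintype.ofFinite H
  rw [idem_eq_emb, aug_emb, aug_ebar M hb]

theorem aug_idem_eq_one_iff {H : Subgroup G} {b : Set (IrrCharacter H)} (hb : IsPBlock M b) :
    aug (idem M H b) = 1 ↔ b = principalBlock M H := by
  classical
  rw [aug_idem M hb]
  constructor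
  · intro h
    by_contra hcon
    rw [if_neg hcon] at h
    exact zero_ne_one h
  · intro h; rw [if_pos h]

theorem aug_ebar_eq_one_iff {B : Set (IrrCharacter G)} (hB : IsPBlock M B) :
    aug (ebar M B) = 1 ↔ B = principalBlock M G := by
  classical
  rw [aug_ebar M hB]
  constructor
  · intro h
    by_contra hcon
    rw [if_neg hcon] at h
    exact zero_ne_one h
  · intro h; rw [if_pos h]

/-- The principal pair on `Q`. -/
noncomputable def prinA (Q : Subgroup G) : APair (ResF M) G :=
  toA M ⟨Q, principalBlock M (Cen Q)⟩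

theorem isAPair_prinA {Q : Subgroup G} (hQ : IsPGroup p Q) : IsAPair p (prinA M Q) :=
  isAPair_toA M ⟨hQ, isPBlock_principalBlock⟩

theorem aug_prinA (Q : Subgroup G) : aug (prinA M Q).2 = 1 :=
  (aug_idem_eq_one_iff M isPBlock_principalBlock).2 rfl

/-- The principal pair on `Q` belongs to the principal block. -/
theorem isABlockOf_prinA (hM : IsPModular p M) {Q : Subgroup G} (hQ : IsPGroup p Q) :
    IsABlockOf (ebar M (principalBlock M G)) (prinA M Q) := by
  have := resF_charP hM
  have hdec := hasBlockDecomp (G := G) M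
  obtain ⟨b, hb, -⟩ := existsUnique_block hdec (isAPair_prinA M hQ)
  obtain ⟨B', hB', rfl⟩ := (isPrimIdem_top_iff M).1 hb.1
  have h1 := hb.aug_eq_one (isAPair_prinA M hQ) (aug_prinA M Q)
  rw [aug_ebar_eq_one_iff M hB'] at h1
  rwa [h1] at hb

theorem isAMax_prinA (S : Sylow p G) : IsAMax p (prinA M (S : Subgroup G)) := by
  refine ⟨isAPair_prinA M S.isPGroup', fun z hz => ?_⟩
  exact S.is_maximal' (hz.isAPair_right (isAPair_prinA M S.isPGroup')).1 hz.le

/-- **Brauer's third main theorem for Brauer pairs.** -/
theorem aug_eq_one_of_isABlockOf_principal (hM : IsPModular p M) {x : APair (ResF M) G}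
    (hx : IsAPair p x) (hxb : IsABlockOf (ebar M (principalBlock M G)) x) : aug x.2 = 1 := by
  have := resF_charP hM
  obtain ⟨S⟩ : Nonempty (Sylow p G) := inferInstance
  obtain ⟨t, ht⟩ := exists_cjP_ALE M hM isPBlock_principalBlock (isAMax_prinA M S)
    (isABlockOf_prinA M hM S.isPGroup') hx hxb
  have h1 := ht.aug_eq_one (aug_prinA M _)
  rwa [show (cjP t x).2 = cj t x.2 from rfl, aug_cj] at h1

end main

end Cfsg.Agent.Lib.Helper77
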