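import Mathlib
import Cfsg.Prelude.Def_BlockFusion
import Cfsg.Agent.Lib.Helper77.FullyCN
import Cfsg.Agent.Lib.Helper77.Dict6
import Cfsg.Agent.Lib.Helper77.Principal

/-!
# The fusion system of a block through abstract Brauer pairs (helper77)
-/

set_option autoImplicit false
set_option linter.unusedSectionVars false

namespace Cfsg.Agent.Lib.Helper77

open Cfsg MonoidAlgebra Cfsg.Agent.Lib.Helper78

universe u v

section abstract

variable {k : Type v} [CommRing k] {G : Type u} [Group G] [Finite G] {p : ℕ}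

theorem cjP_inv_cjP (g : G) (x : APair k G) : cjP g⁻¹ (cjP g x) = x := by
  rw [cjP_cjP, inv_mul_cancel, cjP_one]

theorem cjP_cjP_inv (g : G) (x : APair k G) : cjP g (cjP g⁻¹ x) = x := by
  rw [cjP_cjP, mul_inv_cancel, cjP_one]

theorem map_conj_inv_map_conj (g : G) (R : Subgroup G) :
    (R.map (MulAut.conj g).toMonoidHom).map (MulAut.conj g⁻¹).toMonoidHom = R :=
  congrArg Prod.fst (cjP_inv_cjP g ((R, 0) : APair ℤ G))

theorem IsDef.cj {H R : Subgroup G} {a : MonoidAlgebra k G} (h : IsDef p H a R) (g : G) :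
    IsDef p (H.map (MulAut.conj g).toMonoidHom) (Helper77.cj g a)
      (R.map (MulAut.conj g).toMonoidHom) := by
  obtain ⟨h1, h2, h3, h4⟩ := h
  have key : ∀ (S : Subgroup G) (c : MonoidAlgebra k G) (t : G),
      trunc (Cen (S.map (MulAut.conj t).toMonoidHom)) (Helper77.cj t c)
        = Helper77.cj t (trunc (Cen S) c) := by
    intro S c t
    rw [Cen, centralizer_map_conj, ← cj_trunc]
  refine ⟨Subgroup.map_mono h1, h2.map _, ?_, ?_⟩
  · rw [key]
    intro h0
    apply h3
    have := congrArg (Helper77.cj g⁻¹) h0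
    simpa using this
  · intro S hS hRS hSH hne
    have h5 := h4 (S.map (MulAut.conj g⁻¹).toMonoidHom) (hS.map _)
      (by
        have := Subgroup.map_mono (f := (MulAut.conj g⁻¹).toMonoidHom) hRS
        rwa [map_conj_inv_map_conj] at this)
      (by
        have := Subgroup.map_mono (f := (MulAut.conj g⁻¹).toMonoidHom) hSH
        rwa [map_conj_inv_map_conj] at this)
      (by
        intro h0
        apply hne
        have h6 := key (S.map (MulAut.conj g⁻¹).toMonoidHom) a g
        have h7 := map_conj_inv_map_conj g⁻¹ S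
        rw [inv_inv] at h7
        rw [h7, h0, map_zero] at h6
        exact h6)
    rw [← h5]
    have h7 := map_conj_inv_map_conj g⁻¹ S
    rw [inv_inv] at h7
    exact h7.symm

theorem isDef_cj_iff {H R : Subgroup G} {a : MonoidAlgebra k G} (g : G) :
    IsDef p (H.map (MulAut.conj g).toMonoidHom) (Helper77.cj g a)
      (R.map (MulAut.conj g).toMonoidHom) ↔ IsDef p H a R := by
  refine ⟨fun h => ?_, fun h => h.cj g⟩
  have := h.cj g⁻¹
  rw [map_conj_inv_map_conj, map_conj_inv_map_conj] at this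
  simpa using this

theorem cen_map_conj (Q : Subgroup G) (t : G) :
    Cen (Q.map (MulAut.conj t).toMonoidHom) = (Cen Q).map (MulAut.conj t).toMonoidHom :=
  centralizer_map_conj Q t

theorem isDef_cjP_iff {x : APair k G} {R : Subgroup G} (t : G) :
    IsDef p (Cen (cjP t x).1) (cjP t x).2 (R.map (MulAut.conj t).toMonoidHom)
      ↔ IsDef p (Cen x.1) x.2 R := by
  conv_rhs => rw [← isDef_cj_iff t]
  simp only [cjP, cen_map_conj]

theorem map_conj_inf (A B : Subgroup G) (t : G) :
    (A ⊓ B).map (MulAut.conj t).toMonoidHom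
      = A.map (MulAut.conj t).toMonoidHom ⊓ B.map (MulAut.conj t).toMonoidHom :=
  Subgroup.map_inf_eq _ _ _ (MulAut.conj t).injective

end abstract

section main

variable {G : Type u} [Group G] [Fintype G] (M : Ideal AlgInt) [hP : M.IsPrime]
variable {p : ℕ} [Fact p.Prime]

/-- A `p`-subgroup at which the Brauer map does not kill a block idempotent is not larger than
a defect group. -/
theorem IsDef.card_le (hM : IsPModular p M) {H : Subgroup G} {b : Set (IrrCharacter H)}
    (hb : IsPBlock M b) {R : Subgroup G} (hR : IsDef p H (idem M H b) R) {S : Subgroup G}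
    (hSH : S ≤ H) (hS : IsPGroup p S) (hne : trunc (Cen S) (idem M H b) ≠ 0) :
    Nat.card S ≤ Nat.card R := by
  have hD := (isDefectGroup_subgroupOf_iff M hM hb hR.1).2 hR
  obtain ⟨h, -, hle⟩ := (trunc_idem_ne_zero_iff M hM hb hD hSH hS).1 hne
  calc Nat.card S ≤ Nat.card ↥(((R.subgroupOf H).map H.subtype).map (MulAut.conj h).toMonoidHom) :=
        Subgroup.card_le_of_le hle
    _ = Nat.card ↥((R.subgroupOf H).map H.subtype) := card_map_conj h _
    _ = Nat.card R := by rw [Subgroup.map_subgroupOf_eq_of_le hR.1]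

/-- A block of `T ≥ C` with the idempotent coefficients of a block of `C` has the same idempotent
in `k[G]`. -/
theorem idem_eq_of_coeff {C T : Subgroup G} (hCT : C ≤ T) {f : Set (IrrCharacter C)}
    {F' : Set (IrrCharacter T)}
    (hFc : ∀ t : T, blockCoeff F' t = subgroupBlockCoeff C f (t : G)) :
    idem M T F' = idem M C f := by
  rw [idem_eq_redFn, idem_eq_redFn]
  congr 1
  funext g
  by_cases hg : g ∈ T
  · rw [subgroupBlockCoeff_of_mem _ _ hg, hFc]
  · rw [subgroupBlockCoeff_of_not_mem _ _ hg,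
      subgroupBlockCoeff_of_not_mem _ _ (fun h => hg (hCT h))]

/-- The maps of the fusion system of a block in terms of abstract pairs. -/
theorem mem_hom_iff (hM : IsPModular p M) {B : Set (IrrCharacter G)} {P : Subgroup G}
    {e : Set (IrrCharacter (Cen P))} {F : FusionSystem P}
    (hF : IsBlockFusionSystemOn p M B P e F) (Q : Subgroup G) (φ : Q →* G) :
    φ ∈ F.Hom Q ↔ ∃ g : G, (∀ u : Q, φ u = g * (u : G) * g⁻¹) ∧
      ∃ f, ALE p ((Q, f) : APair (ResF M) G) (toA M ⟨P, e⟩) ∧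
        ALE p (cjP g ((Q, f) : APair (ResF M) G)) (toA M ⟨P, e⟩) := by
  obtain ⟨hBe, hmx⟩ := (isMaximalBrauerPair_iff M hM B P e).1 hF.1
  obtain ⟨hPe, hB, hblk⟩ := (isBrauerPairOf_iff M hM B P e).1 hBe
  rw [hF.2]
  constructor
  · rintro ⟨-, g, hg, -, f, h1, h2⟩
    refine ⟨g, hg, idem M (Cen Q) f, SubpairLE.toALE M hM h1, ?_⟩
    have := SubpairLE.toALE M hM h2
    rwa [toA_conjBlock] at this
  · rintro ⟨g, hg, f, h1, h2⟩
    obtain ⟨f', hf', hxf⟩ := exists_of_isAPair M (h1.isAPair_left hmx.1)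
    refine ⟨h1.le, g, hg, h2.le, f', ?_, ?_⟩
    · exact subpairLE_of_ALE M hM hPe.2 h1 Q f' hf'.2 hxf
    · apply (subpairLE_iff M hM (isPBlock_conjBlock M g hf'.2) hPe.2).2
      rw [toA_conjBlock]
      have : toA M ⟨Q, f'⟩ = ((Q, f) : APair (ResF M) G) := hxf.symm
      rw [this]
      exact h2

theorem mem_hom_iff' (hM : IsPModular p M) {B : Set (IrrCharacter G)} {P : Subgroup G}
    {e : Set (IrrCharacter (Cen P))} {F : FusionSystem P}
    (hF : IsBlockFusionSystemOn p M B P e F) {x : APair (ResF M) G}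
    (hx : ALE p x (toA M ⟨P, e⟩)) (φ : x.1 →* G) :
    φ ∈ F.Hom x.1 ↔ ∃ g : G, (∀ u : x.1, φ u = g * (u : G) * g⁻¹) ∧
      ALE p (cjP g x) (toA M ⟨P, e⟩) := by
  have := resF_charP hM
  have hdec := hasBlockDecomp (G := G) M
  obtain ⟨hBe, hmx⟩ := (isMaximalBrauerPair_iff M hM B P e).1 hF.1
  rw [mem_hom_iff M hM hF]
  constructor
  · rintro ⟨g, hg, f, h1, h2⟩
    have : f = x.2 := ALE.unique hdec hmx.1 h1 hx
    subst this
    exact ⟨g, hg, h2⟩
  · rintro ⟨g, hg, h2⟩
    exact ⟨g, hg, x.2, hx, h2⟩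

theorem range_eq_map_conj {Q : Subgroup G} {φ : Q →* G} {g : G}
    (hg : ∀ u : Q, φ u = g * (u : G) * g⁻¹) : φ.range = Q.map (MulAut.conj g).toMonoidHom := by
  ext z
  constructor
  · rintro ⟨u, rfl⟩
    exact ⟨u, u.2, (hg u).symm⟩
  · rintro ⟨u, hu, rfl⟩
    exact ⟨⟨u, hu⟩, hg ⟨u, hu⟩⟩

theorem isConj_iff (hM : IsPModular p M) {B : Set (IrrCharacter G)} {P : Subgroup G}
    {e : Set (IrrCharacter (Cen P))} {F : FusionSystem P}
    (hF : IsBlockFusionSystemOn p M B P e F) {x : APair (ResF M) G}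
    (hx : ALE p x (toA M ⟨P, e⟩)) (Q' : Subgroup G) :
    F.IsConj x.1 Q' ↔ ∃ g : G, ALE p (cjP g x) (toA M ⟨P, e⟩) ∧ (cjP g x).1 = Q' := by
  unfold FusionSystem.IsConj
  constructor
  · rintro ⟨φ, hφ, rfl⟩
    obtain ⟨g, hg, h2⟩ := (mem_hom_iff' M hM hF hx φ).1 hφ
    exact ⟨g, h2, (range_eq_map_conj hg).symm⟩
  · rintro ⟨g, h2, rfl⟩
    exact ⟨conjHom x.1 g, (mem_hom_iff' M hM hF hx _).2 ⟨g, fun _ => rfl, h2⟩,
      range_eq_map_conj (fun _ => rfl)⟩

end main

end Cfsg.Agent.Lib.Helper77
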