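import Mathlib
import Cfsg.Agent.Lib.Helper77.BFus
import Cfsg.Agent.Lib.Helper77.BlockBasic

/-!
# Stable classes for blocks stabilized by a `p`-group (helper77)

If a `p`-group `S` acts on a finite group `K` stabilizing the block `c`, there is an `S`-stable
conjugacy class of `K` at which the block idempotent of `c` does not vanish modulo `M`.
-/

set_option autoImplicit false
set_option linter.unusedSectionVars false

namespace Cfsg.Agent.Lib.Helper77

open Cfsg MonoidAlgebra Cfsg.Agent.Lib.Helper78

universe u v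

theorem ccMap_mk {K : Type u} [Group K] (α : K →* K) (a : K) :
    ConjClasses.map α (ConjClasses.mk a) = ConjClasses.mk (α a) := rfl

/-- The action of automorphisms on conjugacy classes. -/
def ccPerm (K : Type u) [Group K] : MulAut K →* Equiv.Perm (ConjClasses K) where
  toFun α :=
    { toFun := ConjClasses.map α.toMonoidHom
      invFun := ConjClasses.map α.symm.toMonoidHom
      left_inv := by
        intro C
        induction C using ConjClasses.forall_isConj.mpr with
        | _ a => rw [ccMap_mk, ccMap_mk]; simp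
      right_inv := by
        intro C
        induction C using ConjClasses.forall_isConj.mpr with
        | _ a => rw [ccMap_mk, ccMap_mk]; simp }
  map_one' := by
    ext C
    induction C using ConjClasses.forall_isConj.mpr with
    | _ a => rfl
  map_mul' α β := by
    ext C
    induction C using ConjClasses.forall_isConj.mpr with
    | _ a => rfl

theorem ccPerm_mk {K : Type u} [Group K] (α : MulAut K) (a : K) :
    ccPerm K α (ConjClasses.mk a) = ConjClasses.mk (α a) := rfl

section main

variable {K : Type u} [Group K] [Fintype K] (M : Ideal AlgInt) [hP : M.IsPrime]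
variable {p : ℕ} [Fact p.Prime]

theorem sameBlock_of_mem {c : Set (IrrCharacter K)} (hc : IsPBlock M c) {ξ ξ' : IrrCharacter K}
    (h : ξ ∈ c) (h' : ξ' ∈ c) : SameBlock M (ξ : K → ℂ) (ξ' : K → ℂ) := by
  obtain ⟨χ, rfl⟩ := hc
  exact sameBlock_trans hP (sameBlock_symm h) h'

theorem IsPBlock.nonempty' {c : Set (IrrCharacter K)} (hc : IsPBlock M c) : ∃ ξ, ξ ∈ c := by
  obtain ⟨χ, rfl⟩ := hc
  exact ⟨χ, sameBlock_refl hP _⟩

theorem mk_out_isConj (x : K) : IsConj (Quotient.out (ConjClasses.mk x)) x := by
  rw [← ConjClasses.mk_eq_mk_iff_isConj]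
  exact Quotient.out_eq _

theorem blockCoeff_isConj (c : Set (IrrCharacter K)) {x y : K} (h : IsConj x y) :
    blockCoeff c x = blockCoeff c y := by
  obtain ⟨g, hg⟩ := _root_.isConj_iff.1 h
  rw [← hg, blockCoeff_conj]

theorem centralChar_isConj (ξ : IrrCharacter K) {x y : K} (h : IsConj x y) :
    centralChar (ξ : K → ℂ) x = centralChar (ξ : K → ℂ) y := by
  obtain ⟨g, hg⟩ := _root_.isConj_iff.1 h
  rw [← hg, centralChar_conj]

/-- **Stable classes.** -/
theorem exists_stable_class_aux (hM : IsPModular p M) {S : Type v} [Group S] [Finite S]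
    (hS : IsPGroup p S) (ρ : S →* MulAut K) {c : Set (IrrCharacter K)} (hc : IsPBlock M c)
    (hst : ∀ s : S, irrPush (ρ s) '' c = c) :
    ∃ x : K, ¬ MemLocalIdeal M (blockCoeff c x) ∧ ∀ s : S, IsConj (ρ s x) x := by
  classical
  have := resF_charP hM
  obtain ⟨ξ, hξ⟩ := IsPBlock.nonempty' M hc
  have hβ : ∀ x, MemLocalRing M (blockCoeff c x) := fun x => memLocalRing_blockCoeff hP hc x
  have hω : ∀ (η : IrrCharacter K) x, MemLocalRing M (centralChar (η : K → ℂ) x) :=
    fun η x => memLocalRing_centralChar hP η x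
  set F : ConjClasses K → ResF M := fun C =>
    red M (blockCoeff c (Quotient.out C)) * red M (centralChar (ξ : K → ℂ) (Quotient.out C))
    with hF
  have hsum : ∑ C : ConjClasses K, F C = 1 := by
    have h1 := omega_blockCoeff c ξ
    rw [if_pos hξ, omega_eq_sum_conjClasses (irr_isClassFunction ξ)
      (fun g h => blockCoeff_conj c h g)] at h1
    have h2 := congrArg (red M) h1
    rw [red_sum Finset.univ (fun C : ConjClasses K => blockCoeff c (Quotient.out C) *
      centralChar (ξ : K → ℂ) (Quotient.out C))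
      (fun C _ => MemLocalRing.mul hP (hβ _) (hω _ _))] at h2
    rw [show red M 1 = 1 from (red_eq_one_iff (memLocalRing_one hP)).2
      (by rw [sub_self]; exact memLocalIdeal_zero hP)] at h2
    rw [← h2]
    exact Finset.sum_congr rfl fun C _ => (red_mul (hβ _) (hω _ _)).symm
  have hinv : ∀ (s : S) (C : ConjClasses K), F (((ccPerm K).comp ρ) s C) = F C := by
    intro s C
    have hC : C = ConjClasses.mk (Quotient.out C) := (Quotient.out_eq C).symm
    set x := Quotient.out C with hx
    have h1 : ((ccPerm K).comp ρ) s C = ConjClasses.mk (ρ s x) := by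
      rw [hC]; rfl
    simp only [hF]
    rw [h1, blockCoeff_isConj c (mk_out_isConj _), centralChar_isConj ξ (mk_out_isConj _)]
    congr 1
    · congr 1
      conv_lhs => rw [← hst s]
      exact blockCoeff_irrPush (ρ s) c x
    · have h2 : ξ ∈ irrPush (ρ s) '' c := by rw [hst s]; exact hξ
      obtain ⟨ξ', hξ', h3⟩ := h2
      have h4 : centralChar (ξ : K → ℂ) (ρ s x) = centralChar (ξ' : K → ℂ) x := by
        rw [← h3, centralChar_irrPush]
      rw [h4, red_eq_iff (hω _ _) (hω _ _)]
      exact sameBlock_of_mem M hc hξ' hξ x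
  have h3 := sum_eq_sum_fixed p hS ((ccPerm K).comp ρ) F hinv
    (Finset.univ.filter fun C => ∀ s, ((ccPerm K).comp ρ) s C = C) (by simp)
  rw [hsum] at h3
  have h4 : ∃ C ∈ Finset.univ.filter fun C => ∀ s, ((ccPerm K).comp ρ) s C = C, F C ≠ 0 := by
    by_contra hcon
    push Not at hcon
    rw [Finset.sum_eq_zero hcon] at h3
    exact one_ne_zero h3
  obtain ⟨C, hC, hne⟩ := h4
  refine ⟨Quotient.out C, ?_, fun s => ?_⟩
  · intro h0
    apply hne
    simp only [hF]
    rw [(red_eq_zero_iff (hβ _)).2 h0, zero_mul]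
  · have h5 := (Finset.mem_filter.1 hC).2 s
    have hC' : C = ConjClasses.mk (Quotient.out C) := (Quotient.out_eq C).symm
    rw [← ConjClasses.mk_eq_mk_iff_isConj, ← hC']
    conv_rhs => rw [← h5, hC']
    rfl

end main

section sub

variable {G : Type u} [Group G] [Fintype G] (M : Ideal AlgInt) [hP : M.IsPrime]
variable {p : ℕ} [Fact p.Prime]

theorem coeff_idem_of_mem {C : Subgroup G} (c : Set (IrrCharacter C)) {x : G} (hx : x ∈ C) :
    (idem M C c).coeff x = red M (blockCoeff c ⟨x, hx⟩) := by
  simp only [idem, coeff_ofFun, subgroupBlockCoeff_of_mem C c hx]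

/-- **Stable classes**, subgroup version: a `p`-subgroup `S` of `N_G(C)` fixing the block idempotent
`f` of `C` stabilizes a `C`-class on which `f` does not vanish. -/
theorem exists_stable_class (hM : IsPModular p M) {C S : Subgroup G}
    (hSN : S ≤ Subgroup.normalizer (C : Set G)) (hS : IsPGroup p S) {c : Set (IrrCharacter C)}
    (hc : IsPBlock M c) (hfix : FixedBy S (idem M C c)) :
    ∃ x ∈ C, (idem M C c).coeff x ≠ 0 ∧ ∀ s ∈ S, ∃ n ∈ C, s * x * s⁻¹ = n * x * n⁻¹ := by
  classical
  set ρ : S →* MulAut C := C.normalizerMonoidHom.comp (Subgroup.inclusion hSN) with hρ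
  have hst : ∀ s : S, irrPush (ρ s) '' c = c := by
    intro s
    have h1 : StabilizesBlock C c (s : G) :=
      (stabilizesBlock_iff_cj M hc _).2 ⟨hSN s.2, hfix s s.2⟩
    have h2 := ((stabilizesBlock_iff_conjSet_eq hP hc _).1 h1).2
    have hx : C = C.map (MulAut.conj (s : G)).toMonoidHom :=
      ((Subgroup.mem_normalizer_iff_map_conj_eq).1 (hSN s.2)).symm
    rw [conjSet_eq_image hx] at h2
    have h3 : conjEquiv hx = ρ s := by
      ext k
      rw [coe_conjEquiv]
      rfl
    rw [← h3]
    exact h2
  obtain ⟨x, hx, hconj⟩ := exists_stable_class_aux M hM hS ρ hc hst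
  refine ⟨x, x.2, ?_, fun s hs => ?_⟩
  · rw [coeff_idem_of_mem M c x.2, Ne, red_eq_zero_iff (memLocalRing_blockCoeff hP hc _)]
    exact hx
  · obtain ⟨n, hn⟩ := _root_.isConj_iff.1 (hconj ⟨s, hs⟩).symm
    refine ⟨n, n.2, ?_⟩
    have := congrArg Subtype.val hn
    exact this.symm

end sub

end Cfsg.Agent.Lib.Helper77
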