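import Mathlib
import Cfsg.Agent.Lib.Helper77.Cover

/-!
# Brauer pairs of a subgroup versus Brauer pairs of the group (helper77)

For `H ≤ N_G(Q)` a pair `(R, g)` of the group `H` with `C_H(R) = C_G(QR)` gives the pair
`(QR, g)` of `G`.  This transports inclusion and conjugation, and gives conjugacy theorems
"inside `H`" for the pairs of `G` containing a given pair `(Q, f)`.
-/

set_option autoImplicit false
set_option linter.unusedSectionVars false

namespace Cfsg.Agent.Lib.Helper77

open Cfsg MonoidAlgebra Cfsg.Agent.Lib.Helper78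

universe u v

section emb

variable {k : Type v} [CommRing k] {G : Type u} [Group G] [Finite G] (H : Subgroup G)

theorem suppIn_emb_map (K : Subgroup H) (a : MonoidAlgebra k H) :
    SuppIn (K.map H.subtype) (emb H a) ↔ SuppIn K a := by
  constructor
  · intro h x hx
    rw [← coeff_emb_coe H a x]
    apply h
    rintro ⟨y, hy, hyx⟩
    have : y = x := Subtype.ext hyx
    exact hx (this ▸ hy)
  · intro h x hx
    by_cases hxH : x ∈ H
    · rw [coeff_emb_of_mem H _ hxH]
      exact h _ (fun hh => hx ⟨_, hh, rfl⟩)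
    · exact coeff_emb_of_not_mem H a hxH

theorem fixedBy_emb_map (K : Subgroup H) (a : MonoidAlgebra k H) :
    FixedBy (K.map H.subtype) (emb H a) ↔ FixedBy K a := by
  constructor
  · intro h u hu
    apply emb_injective H
    rw [← cj_emb]
    exact h u ⟨u, hu, rfl⟩
  · rintro h _ ⟨u, hu, rfl⟩
    have := cj_emb H u a
    rw [h u hu] at this
    exact this

theorem emb_mem_zsub_map (K : Subgroup H) (a : MonoidAlgebra k H) :
    emb H a ∈ zsub k (K.map H.subtype) ↔ a ∈ zsub k K := by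
  rw [mem_zsub, mem_zsub, suppIn_emb_map, fixedBy_emb_map]

theorem isPrimIdem_emb_map (K : Subgroup H) (a : MonoidAlgebra k H) :
    IsPrimIdem (K.map H.subtype) (emb H a) ↔ IsPrimIdem K a := by
  constructor
  · intro h
    refine ⟨(emb_mem_zsub_map H K a).1 h.mem, ?_, ?_, ?_⟩
    · apply emb_injective H; rw [map_mul, h.idem]
    · rintro rfl; exact h.ne_zero (map_zero _)
    · intro ε hε hidem
      rcases h.prim (emb H ε) ((emb_mem_zsub_map H K ε).2 hε) (by rw [← map_mul, hidem])
        with h1 | h1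
      · left; apply emb_injective H; rw [map_mul, h1]
      · right; apply emb_injective H; rw [map_mul, h1, map_zero]
  · intro h
    refine ⟨(emb_mem_zsub_map H K a).2 h.mem, ?_, ?_, ?_⟩
    · rw [← map_mul, h.idem]
    · intro h0; exact h.ne_zero (emb_injective H (by rw [h0, map_zero]))
    · intro ε hε hidem
      have e1 := exists_emb_eq_of_suppIn (hε.1.mono (Subgroup.map_subtype_le K))
      rw [← e1] at hε hidem ⊢
      rw [← map_mul] at hidem
      rcases h.prim _ ((emb_mem_zsub_map H K _).1 hε) (emb_injective H hidem) with h1 | h1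
      · left; rw [← map_mul, h1]
      · right; rw [← map_mul, h1, map_zero]

theorem map_conj_eq_of_mem_normalizer {Q : Subgroup G} {g : G}
    (hg : g ∈ Subgroup.normalizer (Q : Set G)) : Q.map (MulAut.conj g).toMonoidHom = Q :=
  Subgroup.mem_normalizer_iff_map_conj_eq.1 hg

theorem map_cen_eq (R : Subgroup H) :
    (Cen R).map H.subtype = H ⊓ Cen (R.map H.subtype) := by
  ext x
  constructor
  · rintro ⟨h, hh, rfl⟩
    refine ⟨h.2, ?_⟩
    show (h : G) ∈ Subgroup.centralizer _
    rw [Subgroup.mem_centralizer_iff]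
    rintro _ ⟨r, hr, rfl⟩
    exact congrArg Subtype.val ((Subgroup.mem_centralizer_iff.1 hh) r hr)
  · rintro ⟨hxH, hx⟩
    refine ⟨⟨x, hxH⟩, ?_, rfl⟩
    rw [SetLike.mem_coe, Subgroup.mem_centralizer_iff]
    intro r hr
    exact Subtype.ext ((Subgroup.mem_centralizer_iff.1 hx) r ⟨r, hr, rfl⟩)

/-- Compatibility of centralizers: `C_H(R) = C_G(QR)`. -/
def GoodP (Q H : Subgroup G) (R : Subgroup H) : Prop :=
  (Cen R).map H.subtype = Cen (Q ⊔ R.map H.subtype)

variable {H}

theorem goodP_iff {Q : Subgroup G} {R : Subgroup H} :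
    GoodP Q H R ↔ ∀ x ∈ Cen (R.map H.subtype), x ∈ H ↔ x ∈ Cen Q := by
  unfold GoodP
  rw [map_cen_eq]
  constructor
  · intro h x hx
    have := SetLike.ext_iff.1 h x
    rw [mem_cen_sup, Subgroup.mem_inf] at this
    tauto
  · intro h
    ext x
    rw [mem_cen_sup, Subgroup.mem_inf]
    constructor
    · rintro ⟨h1, h2⟩; exact ⟨(h x h2).1 h1, h2⟩
    · rintro ⟨h1, h2⟩; exact ⟨(h x h2).2 h1, h2⟩

theorem GoodP.mono {Q : Subgroup G} {R R' : Subgroup H} (h : GoodP Q H R) (hRR : R ≤ R') :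
    GoodP Q H R' := by
  rw [goodP_iff] at h ⊢
  intro x hx
  exact h x (cen_anti (Subgroup.map_mono hRR) hx)

theorem goodP_of_le {Q : Subgroup G} {R : Subgroup H} (hQR : Q ≤ R.map H.subtype)
    (hC : Cen Q ≤ H) : GoodP Q H R := by
  rw [goodP_iff]
  intro x hx
  have := cen_anti hQR hx
  exact ⟨fun _ => this, fun _ => hC this⟩

theorem goodP_cen (Q : Subgroup G) (R : Subgroup (Cen Q)) : GoodP Q (Cen Q) R := by
  rw [goodP_iff]
  intro x _
  exact Iff.rfl

/-- The pair `(QR, g)` of `G` attached to the pair `(R, g)` of `H`. -/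
noncomputable def embQ (Q H : Subgroup G) (z : APair k H) : APair k G :=
  (Q ⊔ z.1.map H.subtype, emb H z.2)

theorem subgroupOf_map_subtype' (K : Subgroup H) : (K.map H.subtype).subgroupOf H = K :=
  Subgroup.comap_map_eq_self_of_injective H.subtype_injective _

theorem trunc_cen_emb {Q : Subgroup G} {R : Subgroup H} (hg : GoodP Q H R)
    (a : MonoidAlgebra k H) :
    trunc (Cen (Q ⊔ R.map H.subtype)) (emb H a) = emb H (trunc (Cen R) a) := by
  rw [← hg, trunc_emb, subgroupOf_map_subtype']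

variable {p : ℕ}

theorem isPGroup_map_subtype_iff (R : Subgroup H) :
    IsPGroup p (R.map H.subtype) ↔ IsPGroup p R :=
  ⟨fun h => h.of_equiv (R.equivMapOfInjective H.subtype H.subtype_injective).symm,
    fun h => h.map _⟩

theorem isAPair_embQ {Q : Subgroup G} (hQ : IsPGroup p Q)
    (hHN : H ≤ Subgroup.normalizer (Q : Set G)) {z : APair k H} (hg : GoodP Q H z.1) :
    IsAPair p (embQ Q H z) ↔ IsAPair p z := by
  unfold IsAPair embQ
  simp only
  rw [← hg, isPrimIdem_emb_map]
  apply and_congr_left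
  intro _
  constructor
  · intro h
    exact (isPGroup_map_subtype_iff z.1).1 (h.to_le le_sup_right)
  · intro h
    exact hQ.to_sup_of_normal_left' ((isPGroup_map_subtype_iff z.1).2 h)
      ((Subgroup.map_subtype_le _).trans hHN)

theorem map_subtype_le_normalizer {R S : Subgroup H}
    (h : S ≤ Subgroup.normalizer (R : Set H)) :
    S.map H.subtype ≤ Subgroup.normalizer ((R.map H.subtype : Subgroup G) : Set G) := by
  rintro _ ⟨s, hs, rfl⟩
  have h1 := map_conj_eq_of_mem_normalizer (h hs)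
  rw [Subgroup.mem_normalizer_iff_map_conj_eq]
  show (R.map H.subtype).map (MulAut.conj (s : G)).toMonoidHom = R.map H.subtype
  conv_rhs => rw [← h1]
  rw [Subgroup.map_map, Subgroup.map_map]
  rfl

theorem sup_le_normalizer_sup {A B S : Subgroup G}
    (hA : S ≤ Subgroup.normalizer (A : Set G)) (hB : S ≤ Subgroup.normalizer (B : Set G)) :
    S ≤ Subgroup.normalizer ((A ⊔ B : Subgroup G) : Set G) := by
  intro s hs
  rw [Subgroup.mem_normalizer_iff_map_conj_eq]
  show (A ⊔ B).map (MulAut.conj s).toMonoidHom = A ⊔ B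
  rw [Subgroup.map_sup, map_conj_eq_of_mem_normalizer (hA hs),
    map_conj_eq_of_mem_normalizer (hB hs)]

theorem ANormal.embQ {Q : Subgroup G} (hQ : IsPGroup p Q)
    (hHN : H ≤ Subgroup.normalizer (Q : Set G)) {z w : APair k H} (h : ANormal p z w)
    (hg : GoodP Q H z.1) : ANormal p (embQ Q H z) (embQ Q H w) := by
  have := Fintype.ofFinite G
  obtain ⟨h1, h2, h3, h4, h5, h6⟩ := h
  have hgw : GoodP Q H w.1 := hg.mono h3
  refine ⟨(isAPair_embQ hQ hHN hg).2 h1, (isAPair_embQ hQ hHN hgw).2 h2,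
    sup_le_sup_left (Subgroup.map_mono h3) _, ?_, ?_, ?_⟩
  · apply sup_le
    · exact le_sup_left.trans Subgroup.le_normalizer
    · exact sup_le_normalizer_sup ((Subgroup.map_subtype_le _).trans hHN)
        (map_subtype_le_normalizer h4)
  · apply FixedBy.sup
    · apply fixedBy_of_suppIn_cen
      have := ((isAPair_embQ hQ hHN hg).2 h1).2.mem.1
      exact this.mono (cen_anti le_sup_left)
    · exact (fixedBy_emb_map H w.1 z.2).2 h5
  · show trunc (Cen (Q ⊔ w.1.map H.subtype)) (emb H z.2) * emb H w.2 = emb H w.2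
    rw [trunc_cen_emb hgw, ← map_mul, h6]

theorem ALE.embQ {Q : Subgroup G} (hQ : IsPGroup p Q)
    (hHN : H ≤ Subgroup.normalizer (Q : Set G)) {z w : APair k H} (h : ALE p z w)
    (hg : GoodP Q H z.1) : ALE p (Helper77.embQ Q H z) (Helper77.embQ Q H w) := by
  induction h with
  | refl => exact Relation.ReflTransGen.refl
  | @tail b c h1 h2 ih =>
    exact Relation.ReflTransGen.tail ih (h2.embQ hQ hHN (hg.mono (ALE.le h1)))

theorem map_conj_map_subtype (R : Subgroup H) (h : H) :
    (R.map (MulAut.conj h).toMonoidHom).map H.subtype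
      = (R.map H.subtype).map (MulAut.conj (h : G)).toMonoidHom := by
  rw [Subgroup.map_map, Subgroup.map_map]
  rfl

theorem embQ_cjP {Q : Subgroup G} (hHN : H ≤ Subgroup.normalizer (Q : Set G)) (h : H)
    (z : APair k H) : embQ Q H (cjP h z) = cjP (h : G) (embQ Q H z) := by
  refine Prod.ext ?_ ?_
  · show Q ⊔ (z.1.map (MulAut.conj h).toMonoidHom).map H.subtype
      = (Q ⊔ z.1.map H.subtype).map (MulAut.conj (h : G)).toMonoidHom
    rw [Subgroup.map_sup, map_conj_eq_of_mem_normalizer (hHN h.2), map_conj_map_subtype]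
  · exact (cj_emb H h z.2).symm

theorem GoodP.conj {Q : Subgroup G} (hHN : H ≤ Subgroup.normalizer (Q : Set G))
    {R : Subgroup H} (hg : GoodP Q H R) (h : H) :
    GoodP Q H (R.map (MulAut.conj h).toMonoidHom) := by
  unfold GoodP at hg ⊢
  rw [cen_map_conj, map_conj_map_subtype, hg, map_conj_map_subtype, ← cen_map_conj,
    Subgroup.map_sup, map_conj_eq_of_mem_normalizer (hHN h.2)]

theorem embQ_resP {Q : Subgroup G} {z : APair k G} (hQz : Q ≤ z.1) (hzH : z.1 ≤ H)
    (hs : SuppIn H z.2) : embQ Q H ((z.1.subgroupOf H, res H z.2) : APair k H) = z := by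
  refine Prod.ext ?_ ?_
  · show Q ⊔ (z.1.subgroupOf H).map H.subtype = z.1
    rw [Subgroup.map_subgroupOf_eq_of_le hzH, sup_eq_right.2 hQz]
  · exact exists_emb_eq_of_suppIn hs

end emb

section main

variable {G : Type u} [Group G] [Fintype G] (M : Ideal AlgInt) [hP : M.IsPrime]
variable {p : ℕ} [Fact p.Prime]

theorem isABlockOf_embQ_iff {Q H : Subgroup G} {F' : Set (IrrCharacter H)} (hF' : IsPBlock M F')
    {z : APair (ResF M) H} (hg : GoodP Q H z.1) :
    IsABlockOf (ebar M F') z ↔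
      trunc (Cen (embQ Q H z).1) (idem M H F') * (embQ Q H z).2 = (embQ Q H z).2 := by
  have := Fintype.ofFinite H
  unfold IsABlockOf
  rw [idem_eq_emb]
  show _ ↔ trunc (Cen (Q ⊔ z.1.map H.subtype)) (emb H (ebar M F')) * emb H z.2 = emb H z.2
  rw [trunc_cen_emb hg, ← map_mul]
  constructor
  · rintro ⟨-, h⟩; rw [h]
  · intro h; exact ⟨isPrimIdem_ebar M hF', emb_injective H h⟩

/-- Conjugacy inside `H`, for pairs of the group `H`. -/
theorem rel_conj (hM : IsPModular p M) {Q H : Subgroup G} (hQ : IsPGroup p Q)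
    (hHN : H ≤ Subgroup.normalizer (Q : Set G)) {F' : Set (IrrCharacter H)} (hF' : IsPBlock M F')
    {z w : APair (ResF M) H} (hz : IsAPair p z) (hzb : IsABlockOf (ebar M F') z)
    (hw : IsAMax p w) (hwb : IsABlockOf (ebar M F') w) (hg : GoodP Q H z.1) :
    ∃ h ∈ H, ALE p (cjP h (embQ Q H z)) (embQ Q H w) := by
  have := Fintype.ofFinite H
  obtain ⟨h, hh⟩ := exists_cjP_ALE M hM hF' hw hwb hz hzb
  refine ⟨h, h.2, ?_⟩
  rw [← embQ_cjP hHN]
  exact hh.embQ hQ hHN (hg.conj hHN h)

/-- **Conjugacy inside `H`**, `Q C_G(Q) ≤ H ≤ N_G(Q, f)`, for the pairs of `G` containing `(Q, f)`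
normally: they are all `H`-conjugate to a pair below one on a defect group of `f` in `H`. -/
theorem rel_conj' (hM : IsPModular p M) {x : APair (ResF M) G} (hx : IsAPair p x)
    {H : Subgroup G} (hQH : x.1 ≤ H) (hCH : Cen x.1 ≤ H)
    (hHN : H ≤ Subgroup.normalizer (x.1 : Set G)) (hfix : FixedBy H x.2)
    {z w : APair (ResF M) G} (hz : ANormal p x z) (hw : ANormal p x w) (hzH : z.1 ≤ H)
    (hwmax : IsDef p H x.2 w.1) : ∃ h ∈ H, ALE p (cjP h z) w := by
  have := Fintype.ofFinite H
  have := resF_charP hM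
  have hdecH := hasBlockDecomp (G := H) M
  obtain ⟨f, hf, hxf⟩ := exists_of_isAPair M hx
  have hx2 : x.2 = idem M (Cen x.1) f := congrArg Prod.snd hxf
  obtain ⟨F', hF', hFe, -, -⟩ := exists_block_of_stab M hM hx.1 hf.2 hQH hCH hHN (hx2 ▸ hfix)
  rw [← hx2] at hFe
  have hwH : w.1 ≤ H := hwmax.1
  have key : ∀ v : APair (ResF M) G, ANormal p x v → v.1 ≤ H →
      embQ x.1 H ((v.1.subgroupOf H, res H v.2) : APair (ResF M) H) = v ∧
      GoodP x.1 H (v.1.subgroupOf H) := by
    intro v hv hvH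
    refine ⟨embQ_resP hv.le hvH (hv.2.1.2.mem.1.mono ((cen_anti hv.le).trans hCH)), ?_⟩
    exact goodP_of_le (by rw [Subgroup.map_subgroupOf_eq_of_le hvH]; exact hv.le) hCH
  have key2 : ∀ v : APair (ResF M) G, ANormal p x v → v.1 ≤ H →
      IsAPair p ((v.1.subgroupOf H, res H v.2) : APair (ResF M) H) ∧
      IsABlockOf (ebar M F') ((v.1.subgroupOf H, res H v.2) : APair (ResF M) H) := by
    intro v hv hvH
    obtain ⟨h1, h2⟩ := key v hv hvH
    refine ⟨(isAPair_embQ (z := ((v.1.subgroupOf H, res H v.2) : APair (ResF M) H))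
      hx.1 hHN h2).1 (by rw [h1]; exact hv.2.1), ?_⟩
    apply (isABlockOf_embQ_iff M hF' (Q := x.1)
      (z := ((v.1.subgroupOf H, res H v.2) : APair (ResF M) H)) h2).2
    rw [h1, hFe]
    exact hv.2.2.2.2.2
  obtain ⟨hz1, hz2⟩ := key z hz hzH
  obtain ⟨hz3, hz4⟩ := key2 z hz hzH
  obtain ⟨hw1, hw2⟩ := key w hw hwH
  obtain ⟨hw3, hw4⟩ := key2 w hw hwH
  have hwmx : IsAMax p ((w.1.subgroupOf H, res H w.2) : APair (ResF M) H) := by
    refine ⟨hw3, fun v hv => ?_⟩
    have hvb : IsABlockOf (ebar M F') v := (isABlockOf_iff_of_le hdecH hv).1 hw4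
    have hgv : GoodP x.1 H v.1 := hw2.mono hv.le
    have h1 := (isABlockOf_embQ_iff M hF' hgv).1 hvb
    have hvP : IsAPair p (embQ x.1 H v) := (isAPair_embQ hx.1 hHN hgv).2 (hv.isAPair_right hw3)
    have hne : trunc (Cen (embQ x.1 H v).1) x.2 ≠ 0 := by
      intro h0
      rw [hFe, h0, zero_mul] at h1
      exact hvP.2.ne_zero h1.symm
    have hle : w.1 ≤ (embQ x.1 H v).1 := by
      have h3 : (w.1.subgroupOf H).map H.subtype ≤ v.1.map H.subtype := Subgroup.map_mono hv.le
      rw [Subgroup.map_subgroupOf_eq_of_le hwH] at h3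
      exact h3.trans le_sup_right
    have h2 := hwmax.2.2.2 (embQ x.1 H v).1 hvP.1 hle
      (sup_le hQH (Subgroup.map_subtype_le _)) hne
    apply le_antisymm _ hv.le
    intro u hu
    show (u : G) ∈ w.1
    rw [← h2]
    exact (le_sup_right : v.1.map H.subtype ≤ x.1 ⊔ v.1.map H.subtype) ⟨u, hu, rfl⟩
  obtain ⟨h, hh, hle⟩ := rel_conj M hM hx.1 hHN hF'
    (z := ((z.1.subgroupOf H, res H z.2) : APair (ResF M) H)) hz3 hz4 hwmx hw4 hz2
  rw [hz1, hw1] at hle
  exact ⟨h, hh, hle⟩

end main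

end Cfsg.Agent.Lib.Helper77
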