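import Mathlib
import Cfsg.Agent.Lib.Helper77.Rel
import Cfsg.Agent.Lib.Helper89.RelSat

/-!
# The fusion system of a block exists and is saturated (helper77)
-/

set_option autoImplicit false
set_option linter.unusedSectionVars false

namespace Cfsg.Agent.Lib.Helper77

open Cfsg MonoidAlgebra Cfsg.Agent.Lib.Helper78 Cfsg.FusionSystem

universe u v

section abstract

variable {k : Type v} [CommRing k] {G : Type u} [Group G] [Finite G] {p : ℕ}

/-- The stabilizer `N_G(Q, f)` of a pair. -/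
def stabP (x : APair k G) : Subgroup G := Subgroup.normalizer (x.1 : Set G) ⊓ stabSub x.2

theorem mem_stabP {x : APair k G} {g : G} : g ∈ stabP x ↔ cjP g x = x := by
  unfold stabP
  rw [Subgroup.mem_inf, mem_stabSub, Subgroup.mem_normalizer_iff_map_conj_eq]
  constructor
  · rintro ⟨h1, h2⟩
    exact Prod.ext h1 h2
  · intro h
    exact ⟨congrArg Prod.fst h, congrArg Prod.snd h⟩

theorem stabP_le_normalizer (x : APair k G) : stabP x ≤ Subgroup.normalizer (x.1 : Set G) :=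
  inf_le_left

theorem fixedBy_stabP (x : APair k G) : FixedBy (stabP x) x.2 :=
  fun _ hu => mem_stabSub.1 hu.2

theorem cjP_eq_self_of_mem {y : APair k G} (hy : IsAPair p y) {g : G} (hg : g ∈ y.1) :
    cjP g y = y := by
  have := Fintype.ofFinite G
  exact Prod.ext (map_conj_eq_of_mem_normalizer (Subgroup.le_normalizer hg))
    (fixedBy_of_suppIn_cen hy.2.mem.1 g hg)

theorem le_stabP {y : APair k G} (hy : IsAPair p y) : y.1 ≤ stabP y :=
  fun _ hg => mem_stabP.2 (cjP_eq_self_of_mem hy hg)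

theorem cen_le_stabP {y : APair k G} (hy : IsAPair p y) : Cen y.1 ≤ stabP y :=
  fun g hg => ⟨Subgroup.centralizer_le_normalizer _ hg, mem_stabSub.2 (hy.2.mem.2 g hg)⟩

variable [Fact p.Prime] [CharP k p]

theorem ALE.of_le_of_le (hdec : HasBlockDecomp k G) {x z y : APair k G} (hy : IsAPair p y)
    (hx : ALE p x y) (hz : ALE p z y) (hxz : x.1 ≤ z.1) : ALE p x z := by
  obtain ⟨f, hf⟩ := exists_ALE' hdec (hz.isAPair_left hy) hxz
  have : f = x.2 := ALE.unique hdec hy (hf.trans hz) hx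
  subst this
  exact hf

theorem ALE.eq_of_fst_eq (hdec : HasBlockDecomp k G) {x z y : APair k G} (hy : IsAPair p y)
    (hx : ALE p x y) (hz : ALE p z y) (hxz : x.1 = z.1) : x = z := by
  obtain ⟨Q, f⟩ := x
  obtain ⟨Q', f'⟩ := z
  simp only at hxz
  subst hxz
  rw [ALE.unique hdec hy hx hz]

/-- The fusion system on `P` defined by a Brauer pair `(P, e)`. -/
noncomputable def bfus (hdec : HasBlockDecomp k G) (P : Subgroup G) (e : MonoidAlgebra k G)
    (hy : IsAPair p ((P, e) : APair k G)) : FusionSystem P where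
  Hom Q := {φ | ∃ g : G, (∀ u : Q, φ u = g * (u : G) * g⁻¹) ∧
    ∃ f, ALE p ((Q, f) : APair k G) (P, e) ∧ ALE p (cjP g ((Q, f) : APair k G)) (P, e)}
  le_of_mem := by
    rintro Q φ ⟨g, hg, f, h1, h2⟩
    refine ⟨h1.le, fun x => ?_⟩
    rw [hg]
    exact h2.le ⟨x, x.2, rfl⟩
  injective_of_mem := by
    rintro Q φ ⟨g, hg, -⟩ a b hab
    have h : g * (a : G) * g⁻¹ = g * (b : G) * g⁻¹ := ((hg a).symm.trans hab).trans (hg b)
    exact Subtype.ext (mul_left_cancel (mul_right_cancel h))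
  conj_mem := by
    intro Q g hQ hg
    obtain ⟨f, hf⟩ := exists_ALE' hdec hy (Q := Q) hQ
    refine ⟨g, fun _ => rfl, f, hf, ?_⟩
    have := hf.cjP g
    rwa [cjP_eq_self_of_mem hy hg] at this
  comp_mem := by
    rintro Q Q₂ φ ψ ⟨g, hg, f, h1, h2⟩ ⟨h, hh, f₂, h3, h4⟩ hφ
    refine ⟨h * g, fun u => ?_, f, h1, ?_⟩
    · show ψ (φ.codRestrict Q₂ hφ u) = _
      rw [hh]
      show h * φ u * h⁻¹ = _
      rw [hg, mul_inv_rev]
      simp only [mul_assoc]
    · have h5 : ALE p (cjP g ((Q, f) : APair k G)) (Q₂, f₂) := by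
        apply ALE.of_le_of_le hdec hy h2 h3
        rintro _ ⟨u, hu, rfl⟩
        have := hφ ⟨u, hu⟩
        rwa [hg] at this
      have h6 := h5.cjP h
      rw [cjP_cjP] at h6
      exact h6.trans h4
  inv_mem := by
    rintro Q φ ⟨g, hg, f, h1, h2⟩
    have hr : φ.range = Q.map (MulAut.conj g).toMonoidHom := by
      ext z
      constructor
      · rintro ⟨u, rfl⟩
        exact ⟨u, u.2, (hg u).symm⟩
      · rintro ⟨u, hu, rfl⟩
        exact ⟨⟨u, hu⟩, hg ⟨u, hu⟩⟩
    refine ⟨conjHom φ.range g⁻¹, ⟨g⁻¹, fun _ => rfl, cj g f, ?_, ?_⟩, ?_⟩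
    · rw [hr]; exact h2
    · rw [hr]
      have : cjP g⁻¹ ((Q.map (MulAut.conj g).toMonoidHom, cj g f) : APair k G) = (Q, f) :=
        cjP_inv_cjP g ((Q, f) : APair k G)
      rw [this]
      exact h1
    · intro x
      show g⁻¹ * φ x * g⁻¹⁻¹ = x
      rw [hg, inv_inv]
      simp only [mul_assoc, inv_mul_cancel, mul_one, inv_mul_cancel_left]

end abstract

section main

variable {G : Type u} [Group G] [Fintype G] (M : Ideal AlgInt) [hP : M.IsPrime]
variable {p : ℕ} [Fact p.Prime]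

open Cfsg.Agent.Lib.Helper85 (SylIn sylIn_iff_card sylIn_of_card_le exists_sylIn_ge
  card_le_of_isPGroup)

/-- The fusion system of a block exists. -/
theorem exists_isBlockFusionSystemOn (hM : IsPModular p M) {B : Set (IrrCharacter G)}
    {P : Subgroup G} {e : Set (IrrCharacter (Cen P))} (hmax : IsMaximalBrauerPair p M B P e) :
    ∃ F : FusionSystem P, IsBlockFusionSystemOn p M B P e F := by
  have := resF_charP hM
  have hdec := hasBlockDecomp (G := G) M
  obtain ⟨hBe, hmx⟩ := (isMaximalBrauerPair_iff M hM B P e).1 hmax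
  obtain ⟨hPe, hB, hblk⟩ := (isBrauerPairOf_iff M hM B P e).1 hBe
  refine ⟨bfus hdec P (idem M (Cen P) e) hmx.1, hmax, fun Q φ => ?_⟩
  show (∃ g : G, (∀ u : Q, φ u = g * (u : G) * g⁻¹) ∧
    ∃ f, ALE p ((Q, f) : APair (ResF M) G) (toA M ⟨P, e⟩) ∧
      ALE p (cjP g ((Q, f) : APair (ResF M) G)) (toA M ⟨P, e⟩)) ↔ _
  constructor
  · rintro ⟨g, hg, f, h1, h2⟩
    obtain ⟨f', hf', hxf⟩ := exists_of_isAPair M (h1.isAPair_left hmx.1)
    refine ⟨h1.le, g, hg, h2.le, f', ?_, ?_⟩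
    · exact subpairLE_of_ALE M hM hPe.2 h1 Q f' hf'.2 hxf
    · apply (subpairLE_iff M hM (isPBlock_conjBlock M g hf'.2) hPe.2).2
      rw [toA_conjBlock]
      have : toA M ⟨Q, f'⟩ = ((Q, f) : APair (ResF M) G) := hxf.symm
      rw [this]
      exact h2
  · rintro ⟨-, g, hg, -, f, h1, h2⟩
    refine ⟨g, hg, idem M (Cen Q) f, SubpairLE.toALE M hM h1, ?_⟩
    have := SubpairLE.toALE M hM h2
    rwa [toA_conjBlock] at this

/-- `Aut_F(Q) = N_G(Q, f) / C_G(Q)`. -/
theorem autGroup_eq (hM : IsPModular p M) {B : Set (IrrCharacter G)} {P : Subgroup G}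
    {e : Set (IrrCharacter (Cen P))} {F : FusionSystem P}
    (hF : IsBlockFusionSystemOn p M B P e F) {x : APair (ResF M) G}
    (hx : ALE p x (toA M ⟨P, e⟩)) : F.autGroup x.1 = autInducedBy (stabP x) x.1 := by
  have := resF_charP hM
  have hdec := hasBlockDecomp (G := G) M
  obtain ⟨hBe, hmx⟩ := (isMaximalBrauerPair_iff M hM B P e).1 hF.1
  ext α
  rw [Helper84.mem_autGroup_iff F hx.le, Helper84.mem_autInducedBy_iff, Helper84.Mor,
    mem_hom_iff' M hM hF hx]
  constructor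
  · rintro ⟨g, hg, h2⟩
    refine ⟨g, ?_, hg⟩
    have hgN : g ∈ Subgroup.normalizer (x.1 : Set G) := Helper84.mem_normalizer_of_induces hg
    exact mem_stabP.2 (ALE.eq_of_fst_eq hdec hmx.1 h2 hx (map_conj_eq_of_mem_normalizer hgN))
  · rintro ⟨g, hgT, hg⟩
    exact ⟨g, hg, by rw [mem_stabP.1 hgT]; exact hx⟩

theorem autInducedBy_mono {A A' : Subgroup G} (h : A ≤ A') (Q : Subgroup G) :
    autInducedBy A Q ≤ autInducedBy A' Q := by
  intro α hα
  rw [Helper84.mem_autInducedBy_iff] at hα ⊢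
  obtain ⟨g, hg, hg'⟩ := hα
  exact ⟨g, h hg, hg'⟩

theorem autInducedBy_map_conj {Q D : Subgroup G} {t : G}
    (ht : t ∈ Subgroup.normalizer (Q : Set G)) :
    autInducedBy (D.map (MulAut.conj t).toMonoidHom) Q
      = (autInducedBy D Q).map (MulAut.conj (Q.normalizerMonoidHom ⟨t, ht⟩)).toMonoidHom := by
  set τ := Q.normalizerMonoidHom ⟨t, ht⟩ with hτ
  have hτa : ∀ x : Q, ((τ x : Q) : G) = t * x * t⁻¹ := fun _ => rfl
  have hτi : ∀ x : Q, ((τ⁻¹ x : Q) : G) = t⁻¹ * x * t := by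
    intro x
    have h1 := hτa (τ⁻¹ x)
    rw [show τ (τ⁻¹ x) = x from MulEquiv.apply_symm_apply τ x] at h1
    rw [h1]; group
  ext α
  rw [Helper85.mem_map_conj, Helper84.mem_autInducedBy_iff, Helper84.mem_autInducedBy_iff]
  constructor
  · rintro ⟨_, ⟨d, hd, rfl⟩, hg⟩
    refine ⟨d, hd, fun x => ?_⟩
    show ((τ⁻¹ (α (τ x)) : Q) : G) = _
    rw [hτi, hg, hτa]
    show t⁻¹ * (t * d * t⁻¹ * (t * x * t⁻¹) * (t * d * t⁻¹)⁻¹) * t = _
    group
  · rintro ⟨d, hd, hg⟩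
    refine ⟨_, ⟨d, hd, rfl⟩, fun x => ?_⟩
    have h1 := hg (τ⁻¹ x)
    have h2 : ((τ⁻¹ * α * τ) (τ⁻¹ x) : Q) = τ⁻¹ (α x) := by
      show τ⁻¹ (α (τ (τ⁻¹ x))) = _
      rw [show τ (τ⁻¹ x) = x from MulEquiv.apply_symm_apply τ x]
    rw [h2, hτi, hτi] at h1
    show _ = t * d * t⁻¹ * x * (t * d * t⁻¹)⁻¹
    have h3 : ((α x : Q) : G) = t * (t⁻¹ * ((α x : Q) : G) * t) * t⁻¹ := by group
    rw [h3, h1]
    group

/-- **The automizer of a defect group is a Sylow subgroup of the automizer of the stabilizer.** -/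
theorem sylIn_aut (hM : IsPModular p M) {T Q D : Subgroup G} (hQ : IsPGroup p Q)
    {f : Set (IrrCharacter (Cen Q))} (hf : IsPBlock M f) (hQT : Q ≤ T) (hCT : Cen Q ≤ T)
    (hTN : T ≤ Subgroup.normalizer (Q : Set G)) (hfix : FixedBy T (idem M (Cen Q) f))
    (hdef : IsDef p T (idem M (Cen Q) f) D) :
    SylIn p (autInducedBy D Q) (autInducedBy T Q) := by
  obtain ⟨F', hF', hFe, -, -⟩ := exists_block_of_stab M hM hQ hf hQT hCT hTN hfix
  obtain ⟨S, -, hST, hS⟩ := exists_sylIn_ge (p := p) (bot_le : (⊥ : Subgroup G) ≤ T) IsPGroup.of_bot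
  have hSp : IsPGroup p S := hS.isPGroup hST
  obtain ⟨x₀, hx₀C, hx₀ne, hstab⟩ := exists_stable_class M hM (C := Cen Q) (S := S)
    (hST.trans (hTN.trans (normalizer_le_normalizer_centralizer Q))) hSp hf (hfix.mono hST)
  set H' : Subgroup G := T ⊓ Subgroup.centralizer ({x₀} : Set G) with hH'
  obtain ⟨D', -, hD'H, hD'⟩ := exists_sylIn_ge (p := p) (bot_le : (⊥ : Subgroup G) ≤ H')
    IsPGroup.of_bot
  have hD'p : IsPGroup p D' := hD'.isPGroup hD'H
  have hD'T : D' ≤ T := hD'H.trans inf_le_left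
  have hne : trunc (Cen D') (idem M T F') ≠ 0 := by
    intro h0
    apply hx₀ne
    have hx₀D : x₀ ∈ Cen D' := by
      rw [Subgroup.mem_centralizer_iff]
      intro d hd
      exact ((Subgroup.mem_centralizer_iff.1 (hD'H hd).2) x₀ rfl).symm
    rw [← hFe, ← coeff_trunc_of_mem _ hx₀D, h0]
    rfl
  have hD : IsDefectGroup p M F' (D.subgroupOf T) :=
    (isDefectGroup_subgroupOf_iff M hM hF' hdef.1).2 (hFe ▸ hdef)
  obtain ⟨t, htT, hle⟩ := (trunc_idem_ne_zero_iff M hM hF' hD hD'T hD'p).1 hne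
  rw [Subgroup.map_subgroupOf_eq_of_le hdef.1] at hle
  have hH'N : H' ≤ Subgroup.normalizer (Q : Set G) := inf_le_left.trans hTN
  have h1 : SylIn p (autInducedBy S Q) (autInducedBy T Q) := by
    apply Helper89.sylIn_autInducedBy hST
    rw [normalizerIn, inf_eq_left.2 (hST.trans hTN), inf_eq_left.2 hTN]
    exact hS
  have h3 : SylIn p (autInducedBy D' Q) (autInducedBy H' Q) := by
    apply Helper89.sylIn_autInducedBy hD'H
    rw [normalizerIn, inf_eq_left.2 (hD'H.trans hH'N), inf_eq_left.2 hH'N]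
    exact hD'
  have h2 : autInducedBy S Q ≤ autInducedBy H' Q := by
    intro α hα
    rw [Helper84.mem_autInducedBy_iff] at hα ⊢
    obtain ⟨s, hs, hs'⟩ := hα
    obtain ⟨n, hn, hsn⟩ := hstab s hs
    refine ⟨n⁻¹ * s, ⟨T.mul_mem (T.inv_mem (hCT hn)) (hST hs), ?_⟩, fun x => ?_⟩
    · show n⁻¹ * s ∈ Subgroup.centralizer ({x₀} : Set G)
      rw [Subgroup.mem_centralizer_iff]
      intro y hy
      rw [Set.mem_singleton_iff] at hy
      rw [hy]
      have : s * x₀ = n * x₀ * n⁻¹ * s := by rw [← hsn]; group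
      calc x₀ * (n⁻¹ * s) = n⁻¹ * (n * x₀ * n⁻¹ * s) := by group
        _ = n⁻¹ * (s * x₀) := by rw [this]
        _ = n⁻¹ * s * x₀ := by group
    · rw [hs']
      have h4 : s * (x : G) * s⁻¹ ∈ Q := Helper84.conj_mem_of_mem_normalizer (hTN (hST hs)) x.2
      have h5 := (Subgroup.mem_centralizer_iff.1 (Subgroup.inv_mem _ hn)) _ h4
      calc s * (x : G) * s⁻¹ = s * (x : G) * s⁻¹ * n⁻¹ * n := by group
        _ = n⁻¹ * (s * (x : G) * s⁻¹) * n := by rw [h5]
        _ = n⁻¹ * s * x * (n⁻¹ * s)⁻¹ := by group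
  have hfin : Finite (MulAut Q) := inferInstance
  have hDle : autInducedBy D Q ≤ autInducedBy T Q := autInducedBy_mono hdef.1 Q
  apply sylIn_of_card_le hDle (Helper84.isPGroup_autInducedBy hdef.2.1 Q)
  calc p ^ (Nat.card (autInducedBy T Q)).factorization p = Nat.card (autInducedBy S Q) :=
        ((sylIn_iff_card (autInducedBy_mono hST Q)).1 h1).symm
    _ ≤ p ^ (Nat.card (autInducedBy H' Q)).factorization p :=
        card_le_of_isPGroup h2 (Helper84.isPGroup_autInducedBy hSp Q)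
    _ = Nat.card (autInducedBy D' Q) := ((sylIn_iff_card (autInducedBy_mono hD'H Q)).1 h3).symm
    _ ≤ Nat.card (autInducedBy (D.map (MulAut.conj t).toMonoidHom) Q) :=
        Subgroup.card_le_of_le (autInducedBy_mono hle Q)
    _ = Nat.card (autInducedBy D Q) := by
        rw [autInducedBy_map_conj (hTN htT), Helper85.card_map_conj]

theorem extender_map_le {P R' Q : Subgroup G} {φ : R' →* G} {g : G}
    (hg : ∀ u : R', φ u = g * (u : G) * g⁻¹) (hmap : R'.map (MulAut.conj g).toMonoidHom = Q) :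
    (extender P R' φ).map (MulAut.conj g).toMonoidHom
      ≤ (P ⊓ Subgroup.normalizer (Q : Set G)) ⊔ Cen Q := by
  rintro _ ⟨x, hx, rfl⟩
  obtain ⟨hxT, hxN, s, hs, hs'⟩ := (Helper84.mem_extender_iff _ _ _ _).1 hx
  show g * x * g⁻¹ ∈ (P ⊓ Subgroup.normalizer (Q : Set G)) ⊔ Cen Q
  have hc : s⁻¹ * (g * x * g⁻¹) ∈ Subgroup.centralizer (Q : Set G) := by
    rw [Subgroup.mem_centralizer_iff]
    intro q hq
    rw [← hmap] at hq
    obtain ⟨y, hy, rfl⟩ := hq
    have h3 := hs' ⟨y, hy⟩ (Helper84.conj_mem_of_mem_normalizer hxN hy)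
    rw [hg, hg] at h3
    show g * y * g⁻¹ * (s⁻¹ * (g * x * g⁻¹)) = s⁻¹ * (g * x * g⁻¹) * (g * y * g⁻¹)
    have h4 : g * (x * y * x⁻¹) * g⁻¹ = s * (g * y * g⁻¹) * s⁻¹ := h3
    have h5 : s⁻¹ * (g * x * g⁻¹) * (g * y * g⁻¹) =
        s⁻¹ * (g * (x * y * x⁻¹) * g⁻¹) * (g * x * g⁻¹) := by group
    rw [h5, h4]
    group
  have hgx : g * x * g⁻¹ ∈ Subgroup.normalizer (Q : Set G) := by
    rw [← hmap]
    exact normalizer_map_conj R' g ⟨x, hxN, rfl⟩
  have hsN : s ∈ P ⊓ Subgroup.normalizer (Q : Set G) := by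
    refine ⟨hs, ?_⟩
    have h6 : s = (g * x * g⁻¹) * (s⁻¹ * (g * x * g⁻¹))⁻¹ := by group
    show s ∈ Subgroup.normalizer (Q : Set G)
    rw [h6]
    exact Subgroup.mul_mem _ hgx (Subgroup.inv_mem _ (Subgroup.centralizer_le_normalizer _ hc))
  have h7 : g * x * g⁻¹ = s * (s⁻¹ * (g * x * g⁻¹)) := by group
  rw [h7]
  exact Subgroup.mul_mem_sup hsN hc

/-- **The fusion system of a block is saturated.** -/
theorem saturated_of_isBlockFusionSystemOn (hM : IsPModular p M) {B : Set (IrrCharacter G)}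
    {P : Subgroup G} {e : Set (IrrCharacter (Cen P))} {F : FusionSystem P}
    (hF : IsBlockFusionSystemOn p M B P e F) : F.IsSaturated p := by
  have := resF_charP hM
  have hdec := hasBlockDecomp (G := G) M
  obtain ⟨hBe, hmx⟩ := (isMaximalBrauerPair_iff M hM B P e).1 hF.1
  obtain ⟨hPe, hB, hblk⟩ := (isBrauerPairOf_iff M hM B P e).1 hBe
  intro R hR
  obtain ⟨fR, hfR⟩ := exists_ALE' hdec hmx.1 (Q := R) hR
  obtain ⟨t, ht, hmaxt⟩ := exists_max_conj hfR
    (fun z => Nat.card ↥(P ⊓ Subgroup.normalizer (z.1 : Set G)))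
  obtain ⟨x, hx⟩ : ∃ x, x = cjP t ((R, fR) : APair (ResF M) G) := ⟨_, rfl⟩
  rw [← hx] at ht
  have hxP : IsAPair p x := ht.isAPair_left hmx.1
  have hdef : IsDef p (stabP x) x.2 (P ⊓ Subgroup.normalizer (x.1 : Set G)) :=
    isDef_nor_of_fully M hM hB hmx hblk ht (fun s hs => by
      rw [hx, cjP_cjP] at hs ⊢
      exact hmaxt _ hs) (stabP_le_normalizer x) (fixedBy_stabP x)
      (fun u hu h => ⟨hu, mem_stabSub.2 h⟩)
  refine ⟨x.1, (isConj_iff M hM hF hfR _).2 ⟨t, hx ▸ ht, by rw [hx]⟩, ⟨ht.le, ?_⟩, ⟨ht.le, ?_⟩⟩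
  · -- fully automized
    rw [autGroup_eq M hM hF ht]
    obtain ⟨f, hf, hxf⟩ := exists_of_isAPair M hxP
    have hx2 : x.2 = idem M (Cen x.1) f := congrArg Prod.snd hxf
    have h1 := sylIn_aut M hM hxP.1 hf.2 (le_stabP hxP) (cen_le_stabP hxP)
      (stabP_le_normalizer x) (hx2 ▸ fixedBy_stabP x) (hx2 ▸ hdef)
    have h2 : autInducedBy (P ⊓ Subgroup.normalizer (x.1 : Set G)) x.1 = autInducedBy P x.1 := by
      apply le_antisymm (autInducedBy_mono inf_le_left _)
      intro α hα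
      rw [Helper84.mem_autInducedBy_iff] at hα ⊢
      obtain ⟨g, hg, hg'⟩ := hα
      exact ⟨g, ⟨hg, Helper84.mem_normalizer_of_induces hg'⟩, hg'⟩
    rw [h2] at h1
    exact h1
  · -- receptive
    intro R' φ hφ hrange
    obtain ⟨g, hg, f', h1, h2⟩ := (mem_hom_iff M hM hF R' φ).1 hφ
    have hmap : R'.map (MulAut.conj g).toMonoidHom = x.1 := by
      rw [← hrange, range_eq_map_conj hg]
    have hgx : cjP g ((R', f') : APair (ResF M) G) = x :=
      ALE.eq_of_fst_eq hdec hmx.1 h2 ht hmap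
    have hNle : extender P R' φ ≤ P ⊓ Subgroup.normalizer (R' : Set G) :=
      Helper84.extender_le P R' φ
    obtain ⟨e', he', he'y⟩ := h1.exists_normal hdec hmx.1 (R := extender P R' φ)
      (Helper84.le_extender h1.le φ (fun u => (F.le_of_mem hφ).2 u))
      (hNle.trans inf_le_left) (hNle.trans inf_le_right)
    have hz : ANormal p x (cjP g ((extender P R' φ, e') : APair (ResF M) G)) := by
      have := he'.cjP g
      rwa [hgx] at this
    have hzH := extender_map_le (P := P) hg hmap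
    obtain ⟨eD, heD, heDy⟩ := ht.exists_normal hdec hmx.1
      (R := P ⊓ Subgroup.normalizer (x.1 : Set G)) (le_inf ht.le Subgroup.le_normalizer)
      inf_le_left inf_le_right
    have hHT : (P ⊓ Subgroup.normalizer (x.1 : Set G)) ⊔ Cen x.1 ≤ stabP x :=
      sup_le hdef.1 (cen_le_stabP hxP)
    have hdefH : IsDef p ((P ⊓ Subgroup.normalizer (x.1 : Set G)) ⊔ Cen x.1) x.2
        (P ⊓ Subgroup.normalizer (x.1 : Set G)) :=
      ⟨le_sup_left, hdef.2.1, hdef.2.2.1,
        fun S hS hDS hSH hne => hdef.2.2.2 S hS hDS (hSH.trans hHT) hne⟩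
    obtain ⟨h, hhH, hle⟩ := rel_conj' M hM hxP
      ((le_inf ht.le Subgroup.le_normalizer).trans le_sup_left) le_sup_right
      (hHT.trans (stabP_le_normalizer x)) ((fixedBy_stabP x).mono hHT) hz heD hzH hdefH
    have hnorm : P ⊓ Subgroup.normalizer (x.1 : Set G) ≤
        Subgroup.normalizer ((Cen x.1 : Subgroup G) : Set G) :=
      inf_le_right.trans (normalizer_le_normalizer_centralizer x.1)
    have hh' : h ∈ (((P ⊓ Subgroup.normalizer (x.1 : Set G)) ⊔ Cen x.1 : Subgroup G) : Set G) := hhH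
    rw [Subgroup.coe_mul_of_left_le_normalizer_right _ _ hnorm] at hh'
    obtain ⟨d, hd, c, hc, rfl⟩ := hh'
    have hle2 : ALE p (cjP c (cjP g ((extender P R' φ, e') : APair (ResF M) G)))
        (P ⊓ Subgroup.normalizer (x.1 : Set G), eD) := by
      have h3 := hle.cjP d⁻¹
      rw [cjP_cjP, ← mul_assoc, inv_mul_cancel, one_mul] at h3
      rwa [cjP_eq_self_of_mem heD.2.1 (Subgroup.inv_mem _ hd)] at h3
    refine ⟨conjHom _ (c * g), (mem_hom_iff M hM hF _ _).2
      ⟨c * g, fun _ => rfl, e', he'y, ?_⟩, ?_⟩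
    · rw [← cjP_cjP]
      exact hle2.trans heDy
    · intro u huP huN
      show c * g * u * (c * g)⁻¹ = φ ⟨u, huP⟩
      rw [hg]
      have hq : g * u * g⁻¹ ∈ x.1 := by
        rw [← hmap]; exact ⟨u, huP, rfl⟩
      have h8 := (Subgroup.mem_centralizer_iff.1 hc) _ hq
      show c * g * u * (c * g)⁻¹ = g * u * g⁻¹
      calc c * g * u * (c * g)⁻¹ = c * (g * u * g⁻¹) * c⁻¹ := by group
        _ = (g * u * g⁻¹) * c * c⁻¹ := by rw [h8]
        _ = _ := by group

end main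

end Cfsg.Agent.Lib.Helper77
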