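import Mathlib
import Cfsg.Agent.Lib.Helper77.BSat
import Cfsg.Agent.Lib.Helper84.FusionConseq

/-!
# Nilpotent blocks through abstract Brauer pairs (helper77)
-/

set_option autoImplicit false
set_option linter.unusedSectionVars false

namespace Cfsg.Agent.Lib.Helper77

open Cfsg MonoidAlgebra Cfsg.Agent.Lib.Helper78 Cfsg.FusionSystem

universe u v

section group

variable {G : Type u} [Group G] [Finite G] {p : ℕ} [hp : Fact p.Prime]

theorem exists_pow_isPRegular (g : G) : ∃ a : ℕ, IsPRegular p (g ^ p ^ a) := by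
  refine ⟨(orderOf g).factorization p, ?_⟩
  unfold IsPRegular
  have hn : orderOf g ≠ 0 := (orderOf_pos g).ne'
  rw [orderOf_pow, Nat.gcd_eq_right (Nat.ordProj_dvd _ _)]
  exact Nat.not_dvd_ordCompl hp.out hn

theorem isPRegular_conj (t g : G) : IsPRegular p (t * g * t⁻¹) ↔ IsPRegular p g := by
  unfold IsPRegular
  have : orderOf (t * g * t⁻¹) = orderOf g :=
    orderOf_injective (MulAut.conj t).toMonoidHom (MulAut.conj t).injective g
  rw [this]

theorem mem_of_pow_mem_of_isPRegular {K : Subgroup G} {g : G} (hreg : IsPRegular p g) {a : ℕ}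
    (h : g ^ p ^ a ∈ K) : g ∈ K := by
  have hc : (p ^ a).Coprime (orderOf g) :=
    Nat.Coprime.pow_left a ((hp.out.coprime_iff_not_dvd).2 hreg)
  obtain ⟨m, hm⟩ := exists_pow_eq_self_of_coprime hc
  rw [← hm]
  exact K.pow_mem h m

theorem conj_pow_eq {Q : Subgroup G} {g u : G} (hg : g ∈ Subgroup.normalizer (Q : Set G))
    (h : ∀ v ∈ Q, g * v * g⁻¹ = u * v * u⁻¹) (n : ℕ) :
    ∀ v ∈ Q, g ^ n * v * (g ^ n)⁻¹ = u ^ n * v * (u ^ n)⁻¹ := by
  induction n with
  | zero => intro v _; simp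
  | succ n ih =>
    intro v hv
    have h1 := h v hv
    have h2 : g * v * g⁻¹ ∈ Q := Helper84.conj_mem_of_mem_normalizer hg hv
    have h3 := ih _ h2
    calc g ^ (n + 1) * v * (g ^ (n + 1))⁻¹ = g ^ n * (g * v * g⁻¹) * (g ^ n)⁻¹ := by
          rw [pow_succ]; group
      _ = u ^ n * (g * v * g⁻¹) * (u ^ n)⁻¹ := h3
      _ = u ^ n * (u * v * u⁻¹) * (u ^ n)⁻¹ := by rw [h1]
      _ = u ^ (n + 1) * v * (u ^ (n + 1))⁻¹ := by rw [pow_succ]; group

/-- A `p`-regular element of `N_G(Q)` acting on `Q` like a `p`-element centralizes `Q`. -/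
theorem mem_cen_of_isPRegular_of_induced {Q : Subgroup G} {g u : G}
    (hg : g ∈ Subgroup.normalizer (Q : Set G)) (hreg : IsPRegular p g) {a : ℕ}
    (hu : u ^ p ^ a = 1) (h : ∀ v ∈ Q, g * v * g⁻¹ = u * v * u⁻¹) : g ∈ Cen Q := by
  apply mem_of_pow_mem_of_isPRegular hreg (a := a)
  rw [Subgroup.mem_centralizer_iff]
  intro v hv
  have h1 := conj_pow_eq hg h (p ^ a) v hv
  rw [hu] at h1
  simp only [one_mul, inv_one, mul_one] at h1
  calc v * g ^ p ^ a = (g ^ p ^ a * v * (g ^ p ^ a)⁻¹) * g ^ p ^ a := by rw [h1]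
    _ = g ^ p ^ a * v := by group

end group

section abstract

variable {k : Type v} [CommRing k] {G : Type u} [Group G] [Finite G] {p : ℕ}

/-- Abstract nilpotency of a block idempotent. -/
def IsANil (p : ℕ) (b : MonoidAlgebra k G) : Prop :=
  ∀ z : APair k G, IsAPair p z → IsABlockOf b z → ∀ g ∈ stabP z, IsPRegular p g → g ∈ Cen z.1

theorem conj_mem_stabP {z : APair k G} {g : G} (hg : g ∈ stabP z) (t : G) :
    t * g * t⁻¹ ∈ stabP (cjP t z) := by
  rw [mem_stabP] at hg ⊢
  rw [cjP_cjP, inv_mul_cancel_right, ← cjP_cjP, hg]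

end abstract

section main

variable {G : Type u} [Group G] [Fintype G] (M : Ideal AlgInt) [hP : M.IsPrime]
variable {p : ℕ} [Fact p.Prime]

theorem mem_stabP_toA_iff {Q : Subgroup G} {e : Set (IrrCharacter (Cen Q))} (he : IsPBlock M e)
    {g : G} : g ∈ stabP (toA M ⟨Q, e⟩) ↔
      g ∈ Subgroup.normalizer (Q : Set G) ∧ StabilizesBlock (Cen Q) e g := by
  rw [stabilizesBlock_iff_cj M he]
  constructor
  · rintro ⟨h1, h2⟩
    exact ⟨h1, normalizer_le_normalizer_centralizer Q h1, mem_stabSub.1 h2⟩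
  · rintro ⟨h1, -, h2⟩
    exact ⟨h1, mem_stabSub.2 h2⟩

theorem isNilpotentBlock_iff (hM : IsPModular p M) (B : Set (IrrCharacter G)) :
    IsNilpotentBlock p M B ↔ IsPBlock M B ∧ IsANil p (ebar M B) := by
  unfold IsNilpotentBlock
  apply and_congr_right
  intro hB
  constructor
  · intro h z hz hzb g hg hreg
    obtain ⟨e, he, hze⟩ := exists_of_isAPair M hz
    rw [hze] at hzb hg
    obtain ⟨h1, h2⟩ := (mem_stabP_toA_iff M he.2).1 hg
    exact h z.1 e ((isBrauerPairOf_iff M hM B z.1 e).2 ⟨he, hB, hzb⟩) g h1 h2 hreg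
  · intro h Q e hQe x hx hst hreg
    obtain ⟨he, -, hb⟩ := (isBrauerPairOf_iff M hM B Q e).1 hQe
    exact h _ (isAPair_toA M he) hb x ((mem_stabP_toA_iff M he.2).2 ⟨hx, hst⟩) hreg

/-- Nilpotency may be checked on the pairs below a maximal pair. -/
theorem isANil_iff_below (hM : IsPModular p M) {B : Set (IrrCharacter G)} (hB : IsPBlock M B)
    {y : APair (ResF M) G} (hy : IsAMax p y) (hyb : IsABlockOf (ebar M B) y) :
    IsANil p (ebar M B) ↔
      ∀ x, ALE p x y → ∀ g ∈ stabP x, IsPRegular p g → g ∈ Cen x.1 := by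
  have := resF_charP hM
  have hdec := hasBlockDecomp (G := G) M
  constructor
  · intro h x hx
    exact h x (hx.isAPair_left hy.1) ((isABlockOf_iff_of_le hdec hx).2 hyb)
  · intro h z hz hzb g hg hreg
    obtain ⟨t, ht⟩ := exists_cjP_ALE M hM hB hy hyb hz hzb
    have h1 := h _ ht _ (conj_mem_stabP hg t) ((isPRegular_conj t g).2 hreg)
    have h2 : t * g * t⁻¹ ∈ (Cen z.1).map (MulAut.conj t).toMonoidHom := by
      rw [← cen_map_conj]; exact h1
    rw [mem_map_conj_iff] at h2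
    simpa [mul_assoc] using h2

/-- **A block is nilpotent iff its fusion system is the inner fusion system.** -/
theorem isANil_iff_inner (hM : IsPModular p M) {B : Set (IrrCharacter G)} {P : Subgroup G}
    {e : Set (IrrCharacter (Cen P))} {F : FusionSystem P}
    (hF : IsBlockFusionSystemOn p M B P e F) :
    IsANil p (ebar M B) ↔ ∀ Q : Subgroup G, F.Hom Q = (innerFusionSystem P).Hom Q := by
  have := resF_charP hM
  have hdec := hasBlockDecomp (G := G) M
  obtain ⟨hBe, hmx⟩ := (isMaximalBrauerPair_iff M hM B P e).1 hF.1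
  obtain ⟨hPe, hB, hblk⟩ := (isBrauerPairOf_iff M hM B P e).1 hBe
  rw [isANil_iff_below M hM hB hmx hblk]
  constructor
  · intro h
    have hsat := saturated_of_isBlockFusionSystemOn M hM hF
    have hFi : F = innerFusionSystem P := by
      apply Helper84.eq_inner_of_isPGroup hPe.1 F hsat
      intro Q hQ
      obtain ⟨f, hf⟩ := exists_ALE' hdec hmx.1 (Q := Q) hQ
      have h1 := autGroup_eq M hM hF hf
      simp only at h1
      rw [h1]
      rintro ⟨α, hα⟩
      obtain ⟨g, hg, hg'⟩ := (Helper84.mem_autInducedBy_iff _ _ _).1 hα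
      obtain ⟨a, ha⟩ := exists_pow_isPRegular (p := p) g
      have h2 := h _ hf _ (Subgroup.pow_mem _ hg (p ^ a)) ha
      refine ⟨a, Subtype.ext ?_⟩
      have hgN : g ∈ Subgroup.normalizer (Q : Set G) := stabP_le_normalizer _ hg
      have h3 : α = Q.normalizerMonoidHom ⟨g, hgN⟩ := by
        ext v
        rw [hg' v]; rfl
      show α ^ p ^ a = 1
      rw [h3, ← map_pow]
      ext v
      show g ^ p ^ a * v * (g ^ p ^ a)⁻¹ = v
      have h4 := (Subgroup.mem_centralizer_iff.1 h2) v v.2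
      rw [← h4]; group
    intro Q
    rw [hFi]
  · intro h x hx g hg hreg
    have h1 : conjHom x.1 g ∈ F.Hom x.1 :=
      (mem_hom_iff' M hM hF hx _).2 ⟨g, fun _ => rfl, by rw [mem_stabP.1 hg]; exact hx⟩
    rw [h] at h1
    obtain ⟨-, u, hu, hu'⟩ := h1
    obtain ⟨a, ha⟩ := hPe.1 ⟨u, hu⟩
    have ha' : u ^ p ^ a = 1 := congrArg Subtype.val ha
    exact mem_cen_of_isPRegular_of_induced (stabP_le_normalizer _ hg) hreg ha'
      (fun v hv => hu' ⟨v, hv⟩)

end main

end Cfsg.Agent.Lib.Helper77
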