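import Mathlib
import Cfsg.Agent.Lib.Helper77.Nilp

/-!
# Blocks with abelian defect groups: stabilizers of subpairs (helper77)
-/

set_option autoImplicit false
set_option linter.unusedSectionVars false

namespace Cfsg.Agent.Lib.Helper77

open Cfsg MonoidAlgebra Cfsg.Agent.Lib.Helper78 Cfsg.FusionSystem

universe u v

section main

variable {G : Type u} [Group G] [Fintype G] (M : Ideal AlgInt) [hP : M.IsPrime]
variable {p : ℕ} [Fact p.Prime]

open Cfsg.Agent.Lib.Helper85 (SylIn sylIn_iff_card)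

/-- `N_G(P, e) ∩ N_G(Q) ≤ N_G(Q, f)` for `(Q, f) ≤ (P, e)`. -/
theorem stabP_inf_normalizer_le {k : Type v} [CommRing k] [CharP k p]
    (hdec : HasBlockDecomp k G) {x y : APair k G} (hy : IsAPair p y) (h : ALE p x y) :
    stabP y ⊓ Subgroup.normalizer (x.1 : Set G) ≤ stabP x := by
  rintro u ⟨hu1, hu2⟩
  rw [mem_stabP]
  have h1 := h.cjP u
  rw [mem_stabP.1 hu1] at h1
  exact ALE.eq_of_fst_eq hdec hy h1 h (map_conj_eq_of_mem_normalizer hu2)

/-- A normal inclusion from an inclusion, when the big group normalizes the small one. -/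
theorem ALE.toANormal {k : Type v} [CommRing k] [CharP k p]
    (hdec : HasBlockDecomp k G) {x y : APair k G} (hy : IsAPair p y) (h : ALE p x y)
    (hN : y.1 ≤ Subgroup.normalizer (x.1 : Set G)) : ANormal p x y := by
  obtain ⟨g, hg, hgy⟩ := h.exists_normal hdec hy (R := y.1) h.le le_rfl hN
  have : ((y.1, g) : APair k G) = y :=
    ALE.eq_of_fst_eq hdec hy hgy Relation.ReflTransGen.refl rfl
  rwa [this] at hg

/-- A `B`-pair is not larger than a maximal `B`-pair. -/
theorem card_le_of_isAMax (hM : IsPModular p M) {B : Set (IrrCharacter G)} (hB : IsPBlock M B)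
    {z y : APair (ResF M) G} (hy : IsAMax p y) (hyb : IsABlockOf (ebar M B) y)
    (hz : IsAPair p z) (hzb : IsABlockOf (ebar M B) z) : Nat.card z.1 ≤ Nat.card y.1 := by
  obtain ⟨t, ht⟩ := exists_cjP_ALE M hM hB hy hyb hz hzb
  calc Nat.card z.1 = Nat.card (z.1.map (MulAut.conj t).toMonoidHom) := (card_map_conj t _).symm
    _ ≤ Nat.card y.1 := Subgroup.card_le_of_le ht.le

/-- If `(Q, f) ⊴ (P, e)` with `(P, e)` maximal, then `P` is a defect group of `f` in every
subgroup `H` with `P ≤ H ≤ N_G(Q, f)`. -/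
theorem isDef_of_normal_isAMax (hM : IsPModular p M) {B : Set (IrrCharacter G)}
    (hB : IsPBlock M B) {x y : APair (ResF M) G} (hy : IsAMax p y)
    (hyb : IsABlockOf (ebar M B) y) (h : ANormal p x y) {H : Subgroup G} (hPH : y.1 ≤ H)
    (hH : H ≤ stabP x) : IsDef p H x.2 y.1 := by
  have := resF_charP hM
  have hdec := hasBlockDecomp (G := G) M
  refine ⟨hPH, hy.1.1, h.trunc_ne_zero, fun S hS hPS hSH hne => ?_⟩
  obtain ⟨g, hg⟩ := exists_normal_above hdec h.1 hS (h.le.trans hPS)
    ((hSH.trans hH).trans (stabP_le_normalizer x)) ((fixedBy_stabP x).mono (hSH.trans hH)) hne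
  have hxb : IsABlockOf (ebar M B) x := (isABlockOf_iff_of_normal hdec h).2 hyb
  have hgb := (isABlockOf_iff_of_normal hdec hg).1 hxb
  exact (Subgroup.eq_of_le_of_card_ge hPS (card_le_of_isAMax M hM hB hy hyb hg.2.1 hgb)).symm

/-- **Abelian defect groups**: `N_G(Q, f) = N_G(P, e) C_G(Q)`-type factorization. -/
theorem stab_factor_of_abelian (hM : IsPModular p M) {B : Set (IrrCharacter G)}
    (hB : IsPBlock M B) {x y : APair (ResF M) G} (hy : IsAMax p y)
    (hyb : IsABlockOf (ebar M B) y) (h : ALE p x y) (hab : y.1 ≤ Cen y.1) {t : G}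
    (ht : t ∈ stabP x) : ∃ u ∈ stabP y, ∃ c ∈ Cen x.1, t = u * c := by
  have := resF_charP hM
  have hdec := hasBlockDecomp (G := G) M
  have hxP : IsAPair p x := h.isAPair_left hy.1
  have hPC : y.1 ≤ Cen x.1 := hab.trans (cen_anti h.le)
  have hCN : Cen x.1 ≤ Subgroup.normalizer (x.1 : Set G) := Subgroup.centralizer_le_normalizer _
  have hn : ANormal p x y := h.toANormal hdec hy.1 (hPC.trans hCN)
  have hn' : ANormal p x (cjP t y) := by
    have := hn.cjP t
    rwa [mem_stabP.1 ht] at this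
  have hzH : (cjP t y).1 ≤ Cen x.1 := by
    have h1 := map_conj_le_cen hPC t
    rwa [map_conj_eq_of_mem_normalizer (stabP_le_normalizer x ht)] at h1
  have hdef := isDef_of_normal_isAMax M hM hB hy hyb hn hPC (cen_le_stabP hxP)
  obtain ⟨c₀, hc₀, hle⟩ := rel_conj' M hM hxP (h.le.trans hPC) le_rfl hCN hxP.2.mem.2 hn' hn hzH
    hdef
  rw [cjP_cjP] at hle
  have h1 : (cjP (c₀ * t) y).1 = y.1 :=
    Subgroup.eq_of_le_of_card_ge hle.le (by
      show Nat.card y.1 ≤ Nat.card (y.1.map (MulAut.conj (c₀ * t)).toMonoidHom)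
      rw [card_map_conj])
  have h2 : cjP (c₀ * t) y = y :=
    ALE.eq_of_fst_eq hdec hy.1 hle Relation.ReflTransGen.refl h1
  have huN : c₀ * t ∈ Subgroup.normalizer (x.1 : Set G) :=
    Subgroup.mul_mem _ (hCN hc₀) (stabP_le_normalizer x ht)
  refine ⟨c₀ * t, mem_stabP.2 h2, (c₀ * t)⁻¹ * c₀⁻¹ * (c₀ * t), ?_, by group⟩
  have h3 := Helper84.conj_mem_of_mem_normalizer
    (normalizer_le_normalizer_centralizer x.1 (Subgroup.inv_mem _ huN))
    (Subgroup.inv_mem _ hc₀)
  simpa using h3

/-- A maximal pair is its own defect pair in its stabilizer. -/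
theorem isDef_stabP_of_isAMax {k : Type v} [CommRing k] [CharP k p]
    (hdec : HasBlockDecomp k G) {y : APair k G} (hy : IsAMax p y) :
    IsDef p (stabP y) y.2 y.1 := by
  refine ⟨le_stabP hy.1, hy.1.1, ?_, fun S hS hPS hST hne => ?_⟩
  · rw [trunc_of_suppIn hy.1.2.mem.1]
    exact hy.1.2.ne_zero
  · obtain ⟨g, hg⟩ := exists_normal_above hdec hy.1 hS hPS
      (hST.trans (stabP_le_normalizer y)) ((fixedBy_stabP y).mono hST) hne
    exact hy.2 _ (Relation.ReflTransGen.single hg)

/-- The inertial quotient `N_G(P, e) / P C_G(P)` has order prime to `p`: automizer form. -/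
theorem sylIn_aut_of_isAMax (hM : IsPModular p M) {y : APair (ResF M) G} (hy : IsAMax p y) :
    SylIn p (autInducedBy y.1 y.1) (autInducedBy (stabP y) y.1) := by
  have := resF_charP hM
  have hdec := hasBlockDecomp (G := G) M
  obtain ⟨f, hf, hxf⟩ := exists_of_isAPair M hy.1
  have hx2 : y.2 = idem M (Cen y.1) f := congrArg Prod.snd hxf
  exact sylIn_aut M hM hy.1.1 hf.2 (le_stabP hy.1) (cen_le_stabP hy.1)
    (stabP_le_normalizer y) (hx2 ▸ fixedBy_stabP y) (hx2 ▸ isDef_stabP_of_isAMax hdec hy)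

/-- **Abelian defect groups**: nilpotent iff the inertial quotient is trivial. -/
theorem isANil_iff_of_abelian (hM : IsPModular p M) {B : Set (IrrCharacter G)}
    (hB : IsPBlock M B) {y : APair (ResF M) G} (hy : IsAMax p y)
    (hyb : IsABlockOf (ebar M B) y) (hab : y.1 ≤ Cen y.1) :
    IsANil p (ebar M B) ↔ stabP y ≤ Cen y.1 := by
  have hp : p.Prime := Fact.out
  constructor
  · intro h g hg
    have hsyl := sylIn_aut_of_isAMax M hM hy
    have hbot : autInducedBy y.1 y.1 = ⊥ := by
      rw [eq_bot_iff]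
      intro α hα
      obtain ⟨u, hu, hu'⟩ := (Helper84.mem_autInducedBy_iff _ _ _).1 hα
      rw [Subgroup.mem_bot]
      ext v
      rw [hu' v]
      have := (Subgroup.mem_centralizer_iff.1 (hab hu)) v v.2
      show u * v * u⁻¹ = v
      rw [← this]; group
    have hfin : Finite (MulAut y.1) := inferInstance
    have hcard := (sylIn_iff_card (autInducedBy_mono (le_stabP hy.1) y.1)).1 hsyl
    rw [hbot, Subgroup.card_bot] at hcard
    have hgN : g ∈ Subgroup.normalizer (y.1 : Set G) := stabP_le_normalizer _ hg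
    set α := (y.1).normalizerMonoidHom ⟨g, hgN⟩ with hα
    have hαm : α ∈ autInducedBy (stabP y) y.1 :=
      (Helper84.mem_autInducedBy_iff _ _ _).2 ⟨g, hg, fun _ => rfl⟩
    obtain ⟨a, ha⟩ := exists_pow_isPRegular (p := p) g
    have h2 := h y hy.1 hyb _ (Subgroup.pow_mem _ hg (p ^ a)) ha
    have h3 : α ^ p ^ a = 1 := by
      rw [hα, ← map_pow]
      ext v
      show g ^ p ^ a * v * (g ^ p ^ a)⁻¹ = v
      have h4 := (Subgroup.mem_centralizer_iff.1 h2) v v.2
      rw [← h4]; group
    have h5 : orderOf α ∣ Nat.card (autInducedBy (stabP y) y.1) := by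
      have := orderOf_dvd_natCard (⟨α, hαm⟩ : autInducedBy (stabP y) y.1)
      rwa [Subgroup.orderOf_mk] at this
    have h6 : orderOf α ∣ p ^ a := orderOf_dvd_of_pow_eq_one h3
    have h7 : ¬ p ∣ Nat.card (autInducedBy (stabP y) y.1) := by
      intro hdvd
      have hpos : 0 < (Nat.card (autInducedBy (stabP y) y.1)).factorization p :=
        hp.factorization_pos_of_dvd Nat.card_pos.ne' hdvd
      have : 1 < p ^ (Nat.card (autInducedBy (stabP y) y.1)).factorization p :=
        Nat.one_lt_pow hpos.ne' hp.one_lt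
      omega
    have h8 : orderOf α = 1 := by
      obtain ⟨j, -, hj⟩ := (Nat.dvd_prime_pow hp).1 h6
      rcases Nat.eq_zero_or_pos j with rfl | hpos
      · simpa using hj
      · exfalso
        apply h7
        exact dvd_trans (hj ▸ dvd_pow_self p hpos.ne') h5
    have h9 : α = 1 := orderOf_eq_one_iff.1 h8
    rw [Subgroup.mem_centralizer_iff]
    intro v hv
    have h10 : ((α ⟨v, hv⟩ : y.1) : G) = v := by rw [h9]; rfl
    have h11 : g * v * g⁻¹ = v := h10
    calc v * g = (g * v * g⁻¹) * g := by rw [h11]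
      _ = g * v := by group
  · intro h
    rw [isANil_iff_below M hM hB hy hyb]
    intro x hx g hg _
    obtain ⟨u, hu, c, hc, rfl⟩ := stab_factor_of_abelian M hM hB hy hyb hx hab hg
    exact Subgroup.mul_mem _ (cen_anti hx.le (h hu)) hc

end main

end Cfsg.Agent.Lib.Helper77
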