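import Mathlib
import Cfsg.Agent.Lib.Helper77.BlockBasic
import Cfsg.Agent.Lib.Helper97.BlockRank
import Cfsg.Agent.Lib.Helper78.Subsection
import Cfsg.Agent.Lib.Helper78.BrauerFeit
import Cfsg.Agent.Lib.Helper16.DefectAPI
import Cfsg.Agent.S0924

/-!
# Blocks with a central defect group (helper77)
-/

set_option autoImplicit false
set_option linter.unusedSectionVars false

namespace Cfsg.Agent.Lib.Helper77

open Cfsg Cfsg.Agent.Lib.Helper78
open scoped ComplexConjugate

variable {G : Type*} [Group G] [Fintype G] {M : Ideal AlgInt} {p : ℕ} [Fact p.Prime]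

theorem irr_central_norm (χ : IrrCharacter G) {u : G} (hu : ∀ t : G, t * u = u * t) (s : G) :
    (χ : G → ℂ) (u * s) * conj ((χ : G → ℂ) (u * s)) =
      (χ : G → ℂ) s * conj ((χ : G → ℂ) s) := by
  have hu' : ∀ t : G, t * u⁻¹ = u⁻¹ * t := by
    intro t
    calc t * u⁻¹ = u⁻¹ * (u * t) * u⁻¹ := by group
      _ = u⁻¹ * (t * u) * u⁻¹ := by rw [hu t]
      _ = u⁻¹ * t := by group
  have h1 := irr_central_mul χ hu u⁻¹
  rw [mul_inv_cancel] at h1
  have h0 := irr_one_ne_zero χ
  rw [← irr_inv, ← irr_inv, mul_inv_rev, hu' s⁻¹, irr_central_mul χ hu s,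
    irr_central_mul χ hu' s⁻¹]
  have h2 : (χ : G → ℂ) u / (χ : G → ℂ) 1 * ((χ : G → ℂ) u⁻¹ / (χ : G → ℂ) 1) = 1 := by
    have h3 : (χ : G → ℂ) u * (χ : G → ℂ) u⁻¹ = (χ : G → ℂ) 1 * (χ : G → ℂ) 1 := by
      calc (χ : G → ℂ) u * (χ : G → ℂ) u⁻¹
          = ((χ : G → ℂ) u / (χ : G → ℂ) 1 * (χ : G → ℂ) u⁻¹) * (χ : G → ℂ) 1 := by field_simp
        _ = (χ : G → ℂ) 1 * (χ : G → ℂ) 1 := by rw [← h1]
    rw [div_mul_div_comm, h3, div_self (mul_ne_zero h0 h0)]
  calc (χ : G → ℂ) u / (χ : G → ℂ) 1 * (χ : G → ℂ) s *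
        ((χ : G → ℂ) u⁻¹ / (χ : G → ℂ) 1 * (χ : G → ℂ) s⁻¹)
      = ((χ : G → ℂ) u / (χ : G → ℂ) 1 * ((χ : G → ℂ) u⁻¹ / (χ : G → ℂ) 1)) *
        ((χ : G → ℂ) s * (χ : G → ℂ) s⁻¹) := by ring
    _ = (χ : G → ℂ) s * (χ : G → ℂ) s⁻¹ := by rw [h2, one_mul]

open Classical in
/-- `k(B) = |P| l(B)` for a block with a central defect group `P`. -/
theorem card_eq_card_mul_blockRank (hM : IsPModular p M) {B : Set (IrrCharacter G)}
    (hB : IsPBlock M B) {P : Subgroup G} (hD : IsDefectGroup p M B P)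
    (hPZ : P ≤ Subgroup.center G) : Nat.card B = Nat.card P * blockRank p B := by
  have hMp := pmod_isPrime hM
  obtain ⟨e, a, he, hea⟩ := Helper4.exists_pPartExp G p
  set F : G → ℂ := fun g => ∑ χ : IrrCharacter G,
    if χ ∈ B then (χ : G → ℂ) g * conj ((χ : G → ℂ) g) else 0 with hF
  have hG : (Fintype.card G : ℂ) ≠ 0 := by exact_mod_cast Fintype.card_ne_zero
  have hcen : ∀ u ∈ P, ∀ t : G, t * u = u * t := fun u hu t =>
    (Subgroup.mem_center_iff.1 (hPZ hu) t)
  -- (1)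
  have h1 : ∑ g, F g = (Fintype.card G : ℂ) * (Nat.card B : ℂ) := by
    have hc : (Nat.card B : ℂ) = ∑ ψ : IrrCharacter G, if ψ ∈ B then (1 : ℂ) else 0 := by
      have := natCard_set_eq_sum B
      have h' : ((Nat.card B : ℤ) : ℂ) = ((∑ ψ : IrrCharacter G, if ψ ∈ B then (1 : ℤ) else 0 : ℤ) : ℂ) := by
        rw [this]
      push_cast at h'
      exact h'
    rw [hF, Finset.sum_comm, hc, Finset.mul_sum]
    refine Finset.sum_congr rfl fun χ _ => ?_
    by_cases hχ : χ ∈ B
    · simp only [if_pos hχ]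
      have := Helper74.classInner_irr_self χ
      unfold classInner at this
      rw [Nat.card_eq_fintype_card] at this
      field_simp at this
      rw [this]; simp
    · simp [if_neg hχ]
  -- (2)
  have h2 : (Fintype.card G : ℂ) * (blockRank p B : ℂ) =
      ∑ s : G, if ¬ p ∣ orderOf s then F s else 0 := by
    rw [Helper97.blockRank_eq hM B (fun ψ hψ => by rw [← IsPBlock.eq_blockOf hMp hB hψ]),
      ← mul_assoc, mul_inv_cancel₀ hG, one_mul]
    refine Finset.sum_congr rfl fun c _ => ?_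
    rw [finsum_mem_irr]
  -- vanishing
  have h3 : ∀ g : G, g ^ e ∉ P → F g = 0 := by
    intro g hg
    apply Finset.sum_eq_zero
    intro χ _
    by_cases hχ : χ ∈ B
    · rw [if_pos hχ]
      have : (χ : G → ℂ) g = 0 := by
        apply Cfsg.Agent.S0924.result p M hM χ g (g ^ e) ((he g _).2 rfl)
        intro D hDD hgD
        rw [← IsPBlock.eq_blockOf hMp hB hχ] at hDD
        obtain ⟨x, rfl⟩ := Helper16.IsDefectGroup.exists_conj_eq hM hB hD hDD
        rw [Helper16.mem_cj] at hgD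
        apply hg
        have h5 := hcen _ hgD x
        have : g ^ e = x * (x⁻¹ * g ^ e * x) * x⁻¹ := by group
        rw [this, h5, mul_inv_cancel_right]
        exact hgD
      rw [this, zero_mul]
    · rw [if_neg hχ]
  have h4 : ∀ g : G, F g = ∑ u ∈ Finset.univ.filter (fun u : G => u ∈ P),
      if g ^ e = u then F g else 0 := by
    intro g
    by_cases hg : g ^ e ∈ P
    · rw [Finset.sum_eq_single (g ^ e), if_pos rfl]
      · intro b _ hb
        rw [if_neg (fun h => hb h.symm)]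
      · intro h
        exact absurd (Finset.mem_filter.2 ⟨Finset.mem_univ _, hg⟩) h
    · rw [h3 g hg]
      simp
  have h5 : ∀ u ∈ P, (∑ g : G, if g ^ e = u then F g else 0) =
      ∑ s : G, if ¬ p ∣ orderOf s then F s else 0 := by
    intro u hu
    rw [← Equiv.sum_comp (Equiv.mulLeft u)]
    refine Finset.sum_congr rfl fun s _ => ?_
    simp only [Equiv.coe_mulLeft]
    have hiff : (u * s) ^ e = u ↔ ¬ p ∣ orderOf s := by
      constructor
      · intro h
        obtain ⟨y, hy, -, -, hy2⟩ := (he (u * s) u).2 h.symm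
        rwa [mul_left_cancel hy] at hy2
      · intro h
        obtain ⟨k, hk⟩ := (IsPGroup.iff_orderOf.1 (Helper16.IsDefectGroup.isPGroup hD)) ⟨u, hu⟩
        rw [Subgroup.orderOf_mk] at hk
        exact ((he (u * s) u).1 ⟨s, rfl, (hcen u hu s).symm, ⟨k, hk⟩, h⟩).symm
    have hFu : F (u * s) = F s := by
      rw [hF]
      refine Finset.sum_congr rfl fun χ _ => ?_
      rw [irr_central_norm χ (hcen u hu) s]
    simp only [hiff, hFu]
  have h6 : ∑ g, F g = (Nat.card P : ℂ) * ∑ s : G, if ¬ p ∣ orderOf s then F s else 0 := by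
    calc ∑ g, F g = ∑ g, ∑ u ∈ Finset.univ.filter (fun u : G => u ∈ P),
          if g ^ e = u then F g else 0 := Finset.sum_congr rfl fun g _ => h4 g
      _ = ∑ u ∈ Finset.univ.filter (fun u : G => u ∈ P), ∑ g, if g ^ e = u then F g else 0 :=
          Finset.sum_comm
      _ = ∑ u ∈ Finset.univ.filter (fun u : G => u ∈ P),
          ∑ s : G, if ¬ p ∣ orderOf s then F s else 0 :=
          Finset.sum_congr rfl fun u hu => h5 u (Finset.mem_filter.1 hu).2
      _ = _ := by
          rw [Finset.sum_const, nsmul_eq_mul, Nat.card_eq_fintype_card, Fintype.card_subtype]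
  rw [h1, ← h2] at h6
  have h7 : (Nat.card B : ℂ) = (Nat.card P : ℂ) * (blockRank p B : ℂ) := by
    apply mul_left_cancel₀ hG
    rw [h6]; ring
  exact_mod_cast h7

end Cfsg.Agent.Lib.Helper77
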