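import Mathlib
import Cfsg.Agent.Lib.Helper77.CentralDef
import Cfsg.Agent.Lib.Helper78.RegInner2
import Cfsg.Agent.S0164
import Cfsg.Agent.S0912

/-!
# Characters of defect zero modulo a central `p`-subgroup (helper77)
-/

set_option autoImplicit false
set_option linter.unusedSectionVars false

namespace Cfsg.Agent.Lib.Helper77

open Cfsg Cfsg.Agent.Lib.Helper78
open scoped ComplexConjugate

variable {G : Type*} [Group G] [Fintype G] {M : Ideal AlgInt} {p : ℕ} [Fact p.Prime]

open Classical in
/-- Summation over the elements whose `p`-part lies in a central `p`-subgroup. -/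
theorem sum_central_sections {D : Subgroup G} (hDp : IsPGroup p D) (hDZ : D ≤ Subgroup.center G)
    {e : ℕ} (he : ∀ g x : G, IsPPart p g x ↔ x = g ^ e) {A : Type*} [AddCommMonoid A] (F : G → A)
    (hF : ∀ u ∈ D, ∀ s, F (u * s) = F s) :
    (∑ g : G, if g ^ e ∈ D then F g else 0) =
      Nat.card D • ∑ s : G, if ¬ p ∣ orderOf s then F s else 0 := by
  have hcen : ∀ u ∈ D, ∀ t : G, t * u = u * t := fun u hu t =>
    (Subgroup.mem_center_iff.1 (hDZ hu) t)
  have h4 : ∀ g : G, (if g ^ e ∈ D then F g else 0) =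
      ∑ u ∈ Finset.univ.filter (fun u : G => u ∈ D), if g ^ e = u then F g else 0 := by
    intro g
    by_cases hg : g ^ e ∈ D
    · rw [if_pos hg, Finset.sum_eq_single (g ^ e), if_pos rfl]
      · intro b _ hb
        rw [if_neg (fun h => hb h.symm)]
      · intro h
        exact absurd (Finset.mem_filter.2 ⟨Finset.mem_univ _, hg⟩) h
    · rw [if_neg hg]
      symm
      apply Finset.sum_eq_zero
      intro u hu
      rw [if_neg]
      rintro rfl
      exact hg (Finset.mem_filter.1 hu).2
  have h5 : ∀ u ∈ D, (∑ g : G, if g ^ e = u then F g else 0) =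
      ∑ s : G, if ¬ p ∣ orderOf s then F s else 0 := by
    intro u hu
    rw [← Equiv.sum_comp (Equiv.mulLeft u)]
    refine Finset.sum_congr rfl fun s _ => ?_
    simp only [Equiv.coe_mulLeft]
    have hiff : (u * s) ^ e = u ↔ ¬ p ∣ orderOf s := by
      constructor
      · intro h
        obtain ⟨y, hy, -, -, hy2⟩ := (he (u * s) u).2 h.symm
        rwa [mul_left_cancel hy] at hy2
      · intro h
        obtain ⟨k, hk⟩ := (IsPGroup.iff_orderOf.1 hDp) ⟨u, hu⟩
        rw [Subgroup.orderOf_mk] at hk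
        exact ((he (u * s) u).1 ⟨s, rfl, (hcen u hu s).symm, ⟨k, hk⟩, h⟩).symm
    simp only [hiff, hF u hu s]
  calc (∑ g : G, if g ^ e ∈ D then F g else 0)
      = ∑ g, ∑ u ∈ Finset.univ.filter (fun u : G => u ∈ D),
          if g ^ e = u then F g else 0 := Finset.sum_congr rfl fun g _ => h4 g
    _ = ∑ u ∈ Finset.univ.filter (fun u : G => u ∈ D), ∑ g, if g ^ e = u then F g else 0 :=
        Finset.sum_comm
    _ = ∑ u ∈ Finset.univ.filter (fun u : G => u ∈ D),
        ∑ s : G, if ¬ p ∣ orderOf s then F s else 0 :=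
        Finset.sum_congr rfl fun u hu => h5 u (Finset.mem_filter.1 hu).2
    _ = _ := by
        rw [Finset.sum_const, Nat.card_eq_fintype_card, Fintype.card_subtype]

open Classical in
/-- The key computation: `|D| ⟨χ°, χ°⟩ = 1` and `χ` vanishes off `D · G_{p'}`. -/
theorem central_defect_zero_aux (hM : IsPModular p M) {D : Subgroup G} (hDp : IsPGroup p D)
    (hDZ : D ≤ Subgroup.center G) (χ : IrrCharacter G)
    (hdeg : (charDegree (χ : G → ℂ)).factorization p = D.index.factorization p) :
    ((Nat.card D : ℝ) * ∑ s : G, (if ¬ p ∣ orderOf s then Complex.normSq ((χ : G → ℂ) s) else 0) =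
      (Fintype.card G : ℝ)) ∧
    ∀ g x : G, IsPPart p g x → x ∉ D → (χ : G → ℂ) g = 0 := by
  have hp : p.Prime := hM.1
  have hBr : BrauerChar G := fun θ hθ hE => Cfsg.Agent.S0164.result θ hθ hE
  obtain ⟨e, a', he, hea⟩ := Helper4.exists_pPartExp G p
  set r : G → ℝ := fun g => Complex.normSq ((χ : G → ℂ) g) with hr
  set S : ℝ := ∑ s : G, if ¬ p ∣ orderOf s then r s else 0 with hS
  have hG : (0 : ℝ) < (Fintype.card G : ℝ) := by exact_mod_cast Fintype.card_pos
  have hcen : ∀ u ∈ D, ∀ t : G, t * u = u * t := fun u hu t =>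
    (Subgroup.mem_center_iff.1 (hDZ hu) t)
  have hrc : ∀ g, ((r g : ℝ) : ℂ) = (χ : G → ℂ) g * conj ((χ : G → ℂ) g) := fun g =>
    (Complex.mul_conj _).symm
  -- total norm
  have h1 : ∑ g, r g = (Fintype.card G : ℝ) := by
    have := Helper74.classInner_irr_self χ
    unfold classInner at this
    rw [Nat.card_eq_fintype_card] at this
    have hGc : (Fintype.card G : ℂ) ≠ 0 := by exact_mod_cast Fintype.card_ne_zero
    have h2 : ∑ g, (χ : G → ℂ) g * conj ((χ : G → ℂ) g) = (Fintype.card G : ℂ) := by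
      field_simp at this
      exact this
    have h3 : ((∑ g, r g : ℝ) : ℂ) = ((Fintype.card G : ℝ) : ℂ) := by
      push_cast
      rw [← h2]
      exact Finset.sum_congr rfl fun g _ => hrc g
    exact_mod_cast h3
  -- the sections of D
  have h2 : (∑ g : G, if g ^ e ∈ D then r g else 0) = (Nat.card D : ℝ) * S := by
    rw [sum_central_sections hDp hDZ he r, nsmul_eq_mul]
    intro u hu s
    have := irr_central_norm χ (hcen u hu) s
    rw [← hrc, ← hrc] at this
    exact_mod_cast this
  -- card D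
  obtain ⟨δ, hδ⟩ := (IsPGroup.iff_card.1 hDp)
  have hab : (Nat.card G).factorization p = δ + (charDegree (χ : G → ℂ)).factorization p := by
    rw [hdeg, ← D.card_mul_index, Nat.factorization_mul Nat.card_pos.ne'
      Subgroup.index_ne_zero_of_finite, hδ, Nat.Prime.factorization_pow hp]
    simp
  -- integrality
  obtain ⟨-, hint⟩ := Helper3.isGeneralizedCharacter_iff.1 (isGeneralizedCharacter_tilde_div hBr hp χ)
  obtain ⟨n, hn⟩ := hint χ
  have h3 : ((Nat.card D : ℝ) * S : ℝ) = (n : ℝ) * (Fintype.card G : ℝ) := by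
    have h4 : (((Nat.card D : ℝ) * S : ℝ) : ℂ) = (((n : ℝ) * (Fintype.card G : ℝ) : ℝ) : ℂ) := by
      unfold classInner at hn
      rw [Nat.card_eq_fintype_card] at hn
      have hGc : (Fintype.card G : ℂ) ≠ 0 := by exact_mod_cast Fintype.card_ne_zero
      push_cast
      rw [← hn, mul_comm ((Fintype.card G : ℂ)⁻¹), mul_assoc, inv_mul_cancel₀ hGc, mul_one, hS]
      push_cast
      rw [Finset.mul_sum]
      refine Finset.sum_congr rfl fun s _ => ?_
      by_cases hs : p ∣ orderOf s
      · simp [hs]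
      · simp only [hs, not_false_eq_true, if_true, if_false]
        rw [hrc, ← Nat.card_eq_fintype_card, hab, Nat.add_sub_cancel, hδ]
        push_cast
        ring
    exact_mod_cast h4
  have hSpos : 0 < S := by
    rw [hS]
    apply Finset.sum_pos'
    · intro s _
      split_ifs
      · exact le_refl _
      · exact Complex.normSq_nonneg _
    · refine ⟨1, Finset.mem_univ _, ?_⟩
      rw [if_pos (by rw [orderOf_one]; exact hp.one_lt.ne' ∘ Nat.dvd_one.1)]
      exact Complex.normSq_pos.2 (irr_one_ne_zero χ)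
  have hDpos : (0 : ℝ) < (Nat.card D : ℝ) := by exact_mod_cast Nat.card_pos
  have hle : (Nat.card D : ℝ) * S ≤ (Fintype.card G : ℝ) := by
    rw [← h2, ← h1]
    apply Finset.sum_le_sum
    intro g _
    split_ifs
    · exact le_refl _
    · exact Complex.normSq_nonneg _
  have hn1 : n = 1 := by
    have hn0 : (0 : ℝ) < (n : ℝ) := by
      have : 0 < (n : ℝ) * (Fintype.card G : ℝ) := by rw [← h3]; exact mul_pos hDpos hSpos
      exact (mul_pos_iff_of_pos_right hG).1 this
    have hn1 : (n : ℝ) ≤ 1 := by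
      rw [h3] at hle
      have : (n : ℝ) * (Fintype.card G : ℝ) ≤ 1 * (Fintype.card G : ℝ) := by rwa [one_mul]
      exact le_of_mul_le_mul_right this hG
    have h5 : 0 < n := by exact_mod_cast hn0
    have h6 : n ≤ 1 := by exact_mod_cast hn1
    omega
  rw [hn1, Int.cast_one, one_mul] at h3
  refine ⟨h3, ?_⟩
  intro g x hgx hxD
  rw [(he g x).1 hgx] at hxD
  -- the remaining terms vanish
  have h6 : ∑ g : G, (r g - if g ^ e ∈ D then r g else 0) = 0 := by
    rw [Finset.sum_sub_distrib, h1, h2, h3, sub_self]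
  have h7 := (Finset.sum_eq_zero_iff_of_nonneg (fun g _ => by
    split_ifs
    · rw [sub_self]
    · rw [sub_zero]; exact Complex.normSq_nonneg _)).1 h6 g (Finset.mem_univ _)
  rw [if_neg hxD, sub_zero] at h7
  exact Complex.normSq_eq_zero.1 h7

open Classical in
/-- A character of defect zero modulo the central `p`-subgroup `D` lies in a block with defect
group `D`. -/
theorem isDefectGroup_of_central_defect_zero (hM : IsPModular p M) {D : Subgroup G}
    (hDp : IsPGroup p D) (hDZ : D ≤ Subgroup.center G) (χ : IrrCharacter G)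
    (hdeg : (charDegree (χ : G → ℂ)).factorization p = D.index.factorization p) :
    IsDefectGroup p M (blockOf M (χ : G → ℂ)) D := by
  have hp : p.Prime := hM.1
  have hMp := pmod_isPrime hM
  have hBr : BrauerChar G := fun θ hθ hE => Cfsg.Agent.S0164.result θ hθ hE
  have hB : IsPBlock M (blockOf M (χ : G → ℂ)) := isPBlock_blockOf χ
  have hχ : χ ∈ blockOf M (χ : G → ℂ) := mem_blockOf_self hMp χ
  obtain ⟨h1, -⟩ := central_defect_zero_aux hM hDp hDZ χ hdeg
  obtain ⟨δ, hδ⟩ := (IsPGroup.iff_card.1 hDp)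
  have hab : (Nat.card G).factorization p = δ + (charDegree (χ : G → ℂ)).factorization p := by
    rw [hdeg, ← D.card_mul_index, Nat.factorization_mul Nat.card_pos.ne'
      Subgroup.index_ne_zero_of_finite, hδ, Nat.Prime.factorization_pow hp]
    simp
  set b := (charDegree (χ : G → ℂ)).factorization p with hb
  have hGc : (Fintype.card G : ℂ) ≠ 0 := by exact_mod_cast Fintype.card_ne_zero
  have hpc : (p : ℂ) ≠ 0 := by exact_mod_cast hp.ne_zero
  have h2 : classInner (tilde p (χ : G → ℂ)) (χ : G → ℂ) = ((p ^ b : ℕ) : ℂ) := by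
    have h1c : ((Nat.card D : ℂ) * ∑ s : G, (if ¬ p ∣ orderOf s then
        (χ : G → ℂ) s * conj ((χ : G → ℂ) s) else 0) = (Fintype.card G : ℂ)) := by
      have := congrArg (fun x : ℝ => (x : ℂ)) h1
      push_cast at this
      rw [← this]
      congr 1
      refine Finset.sum_congr rfl fun s _ => ?_
      split_ifs
      · rfl
      · exact Complex.mul_conj _
    unfold classInner tilde
    rw [Nat.card_eq_fintype_card]
    have h3 : ∑ g : G, (if p ∣ orderOf g then (0 : ℂ) else
        ((p ^ (Fintype.card G).factorization p : ℕ) : ℂ) * (χ : G → ℂ) g) * conj ((χ : G → ℂ) g) =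
        ((p ^ (Fintype.card G).factorization p : ℕ) : ℂ) * ∑ s : G, (if ¬ p ∣ orderOf s then
        (χ : G → ℂ) s * conj ((χ : G → ℂ) s) else 0) := by
      rw [Finset.mul_sum]
      refine Finset.sum_congr rfl fun s _ => ?_
      by_cases hs : p ∣ orderOf s
      · simp [hs]
      · simp only [hs, not_false_eq_true, if_true, if_false]
        ring
    rw [h3, ← Nat.card_eq_fintype_card, hab, Nat.card_eq_fintype_card]
    have hDc : (Nat.card D : ℂ) = (p : ℂ) ^ δ := by rw [hδ]; push_cast; rfl
    rw [hDc] at h1c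
    push_cast
    rw [pow_add]
    have hpd : (p : ℂ) ^ δ ≠ 0 := pow_ne_zero _ hpc
    calc (Fintype.card G : ℂ)⁻¹ * ((p : ℂ) ^ δ * (p : ℂ) ^ b * ∑ s : G, (if ¬ p ∣ orderOf s then
          (χ : G → ℂ) s * conj ((χ : G → ℂ) s) else 0))
        = (Fintype.card G : ℂ)⁻¹ * ((p : ℂ) ^ b * ((p : ℂ) ^ δ * ∑ s : G, (if ¬ p ∣ orderOf s then
          (χ : G → ℂ) s * conj ((χ : G → ℂ) s) else 0))) := by ring
      _ = (p : ℂ) ^ b := by rw [h1c]; field_simp
  have h3 := conj_classInner_tilde p (χ : G → ℂ) χ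
  rw [h2, Complex.conj_natCast] at h3
  have h4 : omega (χ : G → ℂ) (cfun p (χ : G → ℂ)) =
      ((p ^ b : ℕ) : ℂ) / ((charDegree (χ : G → ℂ) : ℕ) : ℂ) := by
    rw [h3, ← irr_one_eq, mul_div_cancel_left₀ _ (irr_one_ne_zero χ)]
  have h5 : blockHeight p (blockOf M (χ : G → ℂ)) (χ : G → ℂ) = 0 := by
    rw [height_zero_iff_omega_cfun hBr hM hB hχ, h4]
    apply not_memLocalIdeal_natCast_div hM (pow_ne_zero _ hp.ne_zero) (irr_charDegree_pos χ).ne'
    rw [Nat.Prime.factorization_pow hp]
    simp [hb]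
  have h6 := (blockHeight_eq_zero_iff hχ).1 h5
  have h7 : blockDefect p (blockOf M (χ : G → ℂ)) = δ := by
    rw [blockDefect_eq, ← h6, hab]
    omega
  obtain ⟨P, hP⟩ := Helper16.exists_isDefectGroup hM hB
  have h8 := card_of_isDefectGroup hM hB hP
  rw [h7, ← hδ] at h8
  have hDn : D.Normal := by
    constructor
    intro n hn g
    have := Subgroup.mem_center_iff.1 (hDZ hn) g
    rw [this, mul_inv_cancel_right]
    exact hn
  have h9' : D ≤ pCore p G := le_sSup (show D ∈ {N : Subgroup G | N.Normal ∧ IsPGroup p N} from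
    ⟨hDn, hDp⟩)
  have h9 : D ≤ P := le_trans h9' (Cfsg.Agent.S0912.result p M hM _ hB P hP)
  have h10 : D = P := Subgroup.eq_of_le_of_card_ge h9 h8.le
  rw [h10]
  exact hP

end Cfsg.Agent.Lib.Helper77
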