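import Mathlib
import Cfsg.Agent.Lib.Helper77.Abel

/-!
# Local blocks of nilpotent blocks (helper77)
-/

set_option autoImplicit false
set_option linter.unusedSectionVars false

namespace Cfsg.Agent.Lib.Helper77

open Cfsg MonoidAlgebra Cfsg.Agent.Lib.Helper78 Cfsg.FusionSystem

universe u v

section main

variable {G : Type u} [Group G] [Fintype G] (M : Ideal AlgInt) [hP : M.IsPrime]
variable {p : ℕ} [Fact p.Prime]

/-- A pair `(R, g)` of `C_G(Q)` belonging to `f` gives `(Q, f) ⊴ (QR, g)`. -/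
theorem aNormal_embQ_cen (hM : IsPModular p M) {Q : Subgroup G}
    {f : Set (IrrCharacter (Cen Q))} (hQf : IsBrauerPair p M Q f)
    {z : APair (ResF M) (Cen Q)} (hz : IsAPair p z) (hzb : IsABlockOf (ebar M f) z) :
    ANormal p (toA M ⟨Q, f⟩) (embQ Q (Cen Q) z) := by
  have hCN : Cen Q ≤ Subgroup.normalizer (Q : Set G) := Subgroup.centralizer_le_normalizer _
  have hx := isAPair_toA M hQf
  refine ⟨hx, (isAPair_embQ hQf.1 hCN (goodP_cen Q z.1)).2 hz, le_sup_left,
    sup_le Subgroup.le_normalizer ((Subgroup.map_subtype_le _).trans hCN), ?_,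
    (isABlockOf_embQ_iff M hQf.2 (goodP_cen Q z.1)).1 hzb⟩
  exact (fixedBy_of_suppIn_cen hx.2.mem.1).sup (hx.2.mem.2.mono (Subgroup.map_subtype_le _))

/-- **The local blocks of a nilpotent block are nilpotent.** -/
theorem isANil_cen (hM : IsPModular p M) {b : MonoidAlgebra (ResF M) G} (hnil : IsANil p b)
    {Q : Subgroup G} {f : Set (IrrCharacter (Cen Q))} (hQf : IsBrauerPair p M Q f)
    (hxb : IsABlockOf b (toA M ⟨Q, f⟩)) : IsANil p (ebar M f) := by
  have := resF_charP hM
  have hdec := hasBlockDecomp (G := G) M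
  have hCN : Cen Q ≤ Subgroup.normalizer (Q : Set G) := Subgroup.centralizer_le_normalizer _
  intro z hz hzb g hg hreg
  have hn := aNormal_embQ_cen M hM hQf hz hzb
  have hzb' := (isABlockOf_iff_of_normal hdec hn).1 hxb
  have hg' : (g : G) ∈ stabP (embQ Q (Cen Q) z) := by
    rw [mem_stabP, ← embQ_cjP hCN, mem_stabP.1 hg]
  have hreg' : IsPRegular p (g : G) := by
    unfold IsPRegular at hreg ⊢
    rwa [Subgroup.orderOf_coe]
  have h1 := hnil _ hn.2.1 hzb' _ hg' hreg'
  have h2 : (g : G) ∈ (Cen z.1).map (Cen Q).subtype := by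
    rw [goodP_cen Q z.1]; exact h1
  obtain ⟨h, hh, hhg⟩ := h2
  have : h = g := Subtype.ext hhg
  rwa [this] at hh

end main

end Cfsg.Agent.Lib.Helper77
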