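import Mathlib
import Cfsg.Agent.Lib.Helper77.Local

/-!
# Centric pairs: the block of `Q C_G(Q)` is nilpotent (helper77)
-/

set_option autoImplicit false
set_option linter.unusedSectionVars false

namespace Cfsg.Agent.Lib.Helper77

open Cfsg MonoidAlgebra Cfsg.Agent.Lib.Helper78 Cfsg.FusionSystem

universe u v

section main

variable {G : Type u} [Group G] [Fintype G] (M : Ideal AlgInt) [hP : M.IsPrime]
variable {p : ℕ} [Fact p.Prime]

theorem mem_sup_cen {Q : Subgroup G} {g : G} (hg : g ∈ Q ⊔ Cen Q) :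
    ∃ q ∈ Q, ∃ c ∈ Cen Q, g = q * c := by
  have hnorm : Q ≤ Subgroup.normalizer ((Cen Q : Subgroup G) : Set G) :=
    Subgroup.le_normalizer.trans (normalizer_le_normalizer_centralizer Q)
  have hg' : g ∈ ((Q ⊔ Cen Q : Subgroup G) : Set G) := hg
  rw [Subgroup.coe_mul_of_left_le_normalizer_right _ _ hnorm] at hg'
  obtain ⟨q, hq, c, hc, rfl⟩ := hg'
  exact ⟨q, hq, c, hc, rfl⟩

/-- If `Z(Q)` is a defect group of `f` in `C_G(Q)`, then `Q` is a defect group of `f` in
`Q C_G(Q)`. -/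
theorem isDef_sup_cen {k : Type v} [CommRing k] {Q : Subgroup G} (hQ : IsPGroup p Q)
    {a : MonoidAlgebra k G} (ha : SuppIn (Cen Q) a) (hdef : IsDef p (Cen Q) a (Q ⊓ Cen Q)) :
    IsDef p (Q ⊔ Cen Q) a Q := by
  refine ⟨le_sup_left, hQ, ?_, fun S hS hQS hSL hne => ?_⟩
  · rw [trunc_of_suppIn ha]
    intro h0
    apply hdef.2.2.1
    rw [h0, trunc_zero]
  · have hS' : S = Q ⊔ (S ⊓ Cen Q) := by
      apply le_antisymm _ (sup_le hQS inf_le_left)
      intro s hs
      obtain ⟨q, hq, c, hc, rfl⟩ := mem_sup_cen (hSL hs)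
      refine Subgroup.mul_mem_sup hq ⟨?_, hc⟩
      have : c = q⁻¹ * (q * c) := by group
      rw [this]
      exact S.mul_mem (S.inv_mem (hQS hq)) hs
    have h1 : trunc (Cen (S ⊓ Cen Q)) a ≠ 0 := by
      rw [← trunc_cen_sup (Q := Q) ha, ← hS']
      exact hne
    have h2 := hdef.2.2.2 (S ⊓ Cen Q) (hS.to_le inf_le_left) (inf_le_inf_right _ hQS)
      inf_le_right h1
    rw [hS', h2]
    exact sup_eq_left.2 inf_le_left

/-- A `p`-regular element of `Q C_G(Q)` centralizes `Q`. -/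
theorem mem_cen_of_isPRegular_of_mem_sup {Q : Subgroup G} (hQ : IsPGroup p Q) {g : G}
    (hg : g ∈ Q ⊔ Cen Q) (hreg : IsPRegular p g) : g ∈ Cen Q := by
  obtain ⟨q, hq, c, hc, rfl⟩ := mem_sup_cen hg
  obtain ⟨a, ha⟩ := hQ ⟨q, hq⟩
  have ha' : q ^ p ^ a = 1 := congrArg Subtype.val ha
  refine mem_cen_of_isPRegular_of_induced (Subgroup.mul_mem _ (Subgroup.le_normalizer hq)
    (Subgroup.centralizer_le_normalizer _ hc)) hreg ha' (fun v hv => ?_)
  have h1 := (Subgroup.mem_centralizer_iff.1 hc) v hv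
  calc q * c * v * (q * c)⁻¹ = q * (c * v) * c⁻¹ * q⁻¹ := by group
    _ = q * (v * c) * c⁻¹ * q⁻¹ := by rw [h1]
    _ = q * v * q⁻¹ := by group

/-- **The block of `Q C_G(Q)` with idempotent `f` is nilpotent when `Z(Q)` is a defect group of
`f`.** -/
theorem isANil_sup_cen (hM : IsPModular p M) {Q : Subgroup G} (hQ : IsPGroup p Q)
    {F' : Set (IrrCharacter ↥(Q ⊔ Cen Q))} (hF' : IsPBlock M F')
    (hdef : IsDef p (Q ⊔ Cen Q) (idem M (Q ⊔ Cen Q) F') Q) : IsANil p (ebar M F') := by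
  have := Fintype.ofFinite ↥(Q ⊔ Cen Q)
  intro z hz hzb g _ hreg
  have hD := (isDefectGroup_subgroupOf_iff M hM hF' le_sup_left).2 hdef
  have hne : trunc (Cen z.1) (ebar M F') ≠ 0 := by
    intro h0
    have := hzb.2
    rw [h0, zero_mul] at this
    exact hz.2.ne_zero this.symm
  obtain ⟨x, hx⟩ := (trunc_ebar_ne_zero_iff M hM hF' hD hz.1).1 hne
  have hzQ : ∀ r ∈ z.1, (r : G) ∈ Q := by
    intro r hr
    have h1 := hx hr
    rw [mem_map_conj_iff] at h1
    have h2 : (x : G)⁻¹ * r * x ∈ Q := h1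
    have hxN : (x : G) ∈ Subgroup.normalizer (Q : Set G) :=
      (sup_le Subgroup.le_normalizer (Subgroup.centralizer_le_normalizer _) :
        Q ⊔ Cen Q ≤ Subgroup.normalizer (Q : Set G)) x.2
    have h3 := Helper84.conj_mem_of_mem_normalizer hxN h2
    simpa [mul_assoc] using h3
  have hreg' : IsPRegular p (g : G) := by
    unfold IsPRegular at hreg ⊢
    rwa [Subgroup.orderOf_coe]
  have hgC := mem_cen_of_isPRegular_of_mem_sup hQ g.2 hreg'
  rw [Subgroup.mem_centralizer_iff]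
  intro r hr
  exact Subtype.ext ((Subgroup.mem_centralizer_iff.1 hgC) r (hzQ r hr))

/-- A `G`-stable block idempotent of `C_G(Q)`, `Q` normal, belonging to `B` is the idempotent
of `B`. -/
theorem ebar_eq_of_fixedBy_top (hM : IsPModular p M) {B : Set (IrrCharacter G)}
    (hB : IsPBlock M B) {x : APair (ResF M) G} (hx : IsAPair p x)
    (hxb : IsABlockOf (ebar M B) x) (hN : ⊤ ≤ Subgroup.normalizer (x.1 : Set G))
    (hfix : FixedBy ⊤ x.2) : ebar M B = x.2 := by
  have := resF_charP hM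
  have hprim := isPrimIdem_ebar M hB
  have hsupp : SuppIn (Cen x.1) (ebar M B) :=
    suppIn_cen_of_idem p le_top hN hx.1 hprim.mem hprim.idem
  have h1 : ebar M B * x.2 = x.2 := by
    have := hxb.2
    rwa [trunc_of_suppIn hsupp] at this
  have hmem : x.2 ∈ zsub (ResF M) (⊤ : Subgroup G) := mem_zsub_top.2 hfix
  have hcomm : x.2 * ebar M B = ebar M B * x.2 := zsub_commute hmem hprim.mem
  rcases hprim.prim x.2 hmem hx.2.idem with h2 | h2
  · rw [← h2, hcomm, h1]
  · exfalso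
    rw [hcomm, h1] at h2
    exact hx.2.ne_zero h2

end main

end Cfsg.Agent.Lib.Helper77
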