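import Mathlib
import Cfsg.Agent.S4511
import Cfsg.Agent.Lib.Helper77.Major

/-!
# Counting characters by subsections: auxiliary facts (helper77)
-/

set_option autoImplicit false
set_option linter.unusedSectionVars false

namespace Cfsg.Agent.Lib.Helper77b

open Cfsg Cfsg.Agent.Lib.Helper4 Cfsg.Agent.Lib.Helper16 Cfsg.Agent.Lib.Helper97
  Cfsg.Agent.Lib.Helper78
open scoped ComplexConjugate

variable {G : Type*} [Group G] [Fintype G]
variable {M : Ideal AlgInt} {p : ℕ} [Fact p.Prime]

/-- the contribution of the trivial element to Brauer's formula is `l(B)` -/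
theorem sum_rank_one (hM : IsPModular p M) {B : Set (IrrCharacter G)} (hB : IsPBlock M B) :
    ∑ᶠ b ∈ {b : Set (IrrCharacter (Cen (1 : G))) | IsInducedBlock M (Cen (1 : G)) b B},
      blockRank p b = blockRank p B := by
  classical
  have hMp : M.IsPrime := hM.2.1.isPrime
  have h1 : ((∑ᶠ b ∈ {b : Set (IrrCharacter (Cen (1 : G))) |
      IsInducedBlock M (Cen (1 : G)) b B}, blockRank p b : ℕ) : ℂ) = blockRank p B := by
    rw [Cfsg.Agent.S4511.blockRank_indSet hM,
      blockRank_eq hM _ (indSet_union hMp 1 B),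
      blockRank_eq hM _ (fun ψ hψ => (IsPBlock.eq_blockOf hMp hB hψ).ge)]
    have hall : ∀ g : G, g ∈ Cen (1 : G) := by
      intro g
      exact Subgroup.mem_centralizer_singleton_iff.2 (by simp)
    have hc : Fintype.card (Cen (1 : G)) = Fintype.card G :=
      Fintype.card_congr (Equiv.subtypeUnivEquiv hall)
    rw [hc]
    congr 1
    refine Fintype.sum_equiv (Equiv.subtypeUnivEquiv hall) _ _ fun c => ?_
    have ho : orderOf ((Equiv.subtypeUnivEquiv hall) c) = orderOf c := Subgroup.orderOf_coe c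
    rw [ho]
    by_cases hcr : p ∣ orderOf c
    · simp [hcr]
    · simp only [if_pos hcr]
      have := sum_block_section hM (1 : G) ⟨0, by simp⟩ hB c c hcr hcr
      simp only [one_mul] at this
      exact this.symm
  exact_mod_cast h1

theorem blockRank_pos' {K : Type*} [Group K] [Finite K] {b : Set (IrrCharacter K)}
    (hb : b.Nonempty) : 0 < blockRank p b := by
  obtain ⟨ζ, hζ⟩ := hb
  unfold blockRank
  rw [Module.finrank_pos_iff_exists_ne_zero]
  refine ⟨⟨pRegularPart p (ζ : K → ℂ), Submodule.subset_span ⟨ζ, hζ, rfl⟩⟩, ?_⟩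
  intro h
  have h1 : pRegularPart p (ζ : K → ℂ) = 0 := congrArg Subtype.val h
  have h2 := congrFun h1 1
  have := Fintype.ofFinite K
  rw [pRegularPart_of_reg _ (by
    rw [orderOf_one]; exact (Fact.out : p.Prime).one_lt.ne' ∘ Nat.dvd_one.1)] at h2
  exact irr_one_ne_zero ζ h2

/-- representatives of the classes of `p`-elements -/
theorem exists_pElement_reps (p : ℕ) (G : Type*) [Group G] [Fintype G] :
    ∃ (X : Finset G) (r : G → G), (∀ x ∈ X, ∃ k : ℕ, orderOf x = p ^ k) ∧
      (∀ g : G, (∃ k : ℕ, orderOf g = p ^ k) → ∃! x, x ∈ X ∧ IsConj g x) ∧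
      (∀ g : G, IsConj g (r g)) ∧ (∀ g : G, (∃ k : ℕ, orderOf g = p ^ k) → r g ∈ X) ∧
      r 1 = 1 := by
  classical
  have hr : ∀ g : G, IsConj g (Quotient.out (ConjClasses.mk g)) := by
    intro g
    rw [← ConjClasses.mk_eq_mk_iff_isConj]
    exact (Quotient.out_eq _).symm
  have hord : ∀ {g h : G}, IsConj g h → orderOf g = orderOf h := by
    intro g h hgh
    obtain ⟨c, hc⟩ := isConj_iff.1 hgh
    rw [← hc, orderOf_conj']
  refine ⟨(Finset.univ.image fun g : G => Quotient.out (ConjClasses.mk g)).filter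
    (fun x => ∃ k : ℕ, orderOf x = p ^ k), fun g => Quotient.out (ConjClasses.mk g),
    fun x hx => (Finset.mem_filter.1 hx).2, ?_, hr, ?_, ?_⟩
  · rintro g ⟨k, hk⟩
    refine ⟨Quotient.out (ConjClasses.mk g), ⟨Finset.mem_filter.2
      ⟨Finset.mem_image.2 ⟨g, Finset.mem_univ _, rfl⟩, k, by rw [← hord (hr g), hk]⟩, hr g⟩, ?_⟩
    rintro y ⟨hy, hgy⟩
    obtain ⟨g', -, rfl⟩ := Finset.mem_image.1 (Finset.mem_filter.1 hy).1
    have h1 : ConjClasses.mk g = ConjClasses.mk g' := by
      rw [ConjClasses.mk_eq_mk_iff_isConj]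
      exact hgy.trans (hr g').symm
    rw [h1]
  · rintro g ⟨k, hk⟩
    exact Finset.mem_filter.2
      ⟨Finset.mem_image.2 ⟨g, Finset.mem_univ _, rfl⟩, k, by rw [← hord (hr g), hk]⟩
  · exact (isConj_one_right.1 (hr 1))

end Cfsg.Agent.Lib.Helper77b
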