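import Cfsg.Agent.Lib.Helper77.GalProd
import Cfsg.Agent.Lib.Helper15.Extraspecial
import Cfsg.Agent.Lib.Helper80.Quot
import Cfsg.Agent.Lib.Helper80.CoreDvd
import Cfsg.Agent.Lib.Helper76.ItoDeg
import Cfsg.Agent.Lib.Helper1.Nilpotent

/-!
# `p`-groups whose nonlinear irreducible characters of equal degree are Galois conjugate
-/

set_option autoImplicit false

namespace Cfsg.Agent.Lib.Helper77.GalConjP

open Cfsg Cfsg.Agent.Lib Cfsg.Agent.Lib.Helper15
open scoped ComplexConjugate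

section cyc

/-- in a finite cyclic group the solutions of `x ^ p = 1` are the powers of any element of order
`p` -/
theorem mem_zpowers_of_pow_eq_one {A : Type*} [Group A] [Finite A] [IsCyclic A] {p : ℕ}
    (hp : p.Prime) {d w : A} (hd : orderOf d = p) (hw : w ^ p = 1) : w ∈ Subgroup.zpowers d := by
  classical
  have := Fintype.ofFinite A
  have hS := IsCyclic.card_pow_eq_one_le (α := A) (n := p) hp.pos
  set S : Finset A := Finset.univ.filter (fun a : A => a ^ p = 1) with hSdef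
  set T : Finset A := (Finset.range p).image (fun i => d ^ i) with hTdef
  have hTcard : T.card = p := by
    rw [hTdef, Finset.card_image_of_injOn, Finset.card_range]
    intro i hi j hj hij
    have hi' : i < orderOf d := by rw [hd]; exact Finset.mem_range.1 hi
    have hj' : j < orderOf d := by rw [hd]; exact Finset.mem_range.1 hj
    exact pow_injOn_Iio_orderOf hi' hj' hij
  have hTS : T ⊆ S := by
    intro a ha
    obtain ⟨i, -, rfl⟩ := Finset.mem_image.1 ha
    rw [hSdef, Finset.mem_filter]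
    refine ⟨Finset.mem_univ _, ?_⟩
    rw [← pow_mul, mul_comm, pow_mul, ← hd, pow_orderOf_eq_one, one_pow]
  have heq : T = S := Finset.eq_of_subset_of_card_le hTS (by rw [hTcard]; exact hS)
  have hwS : w ∈ S := by rw [hSdef, Finset.mem_filter]; exact ⟨Finset.mem_univ _, hw⟩
  rw [← heq] at hwS
  obtain ⟨i, -, rfl⟩ := Finset.mem_image.1 hwS
  exact Subgroup.pow_mem _ (Subgroup.mem_zpowers d) i

end cyc

section pgroup

variable {P : Type*} [Group P] [Finite P] {p : ℕ} [hp : Fact p.Prime]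

/-- a normal subgroup of order `p` of a `p`-group is central -/
theorem le_center_of_card_eq_prime (hP : IsPGroup p P) (N : Subgroup P) [N.Normal]
    (hN : Nat.card N = p) : N ≤ Subgroup.center P := by
  have hnil : Group.IsNilpotent P := hP.isNilpotent
  have hne : N ≠ ⊥ := by
    rintro rfl
    rw [Subgroup.card_bot] at hN
    exact hp.out.one_lt.ne hN
  have h1 := Helper1.normal_inf_center_ne_bot hne
  obtain ⟨⟨x, hx⟩, hx1'⟩ := Subgroup.ne_bot_iff_exists_ne_one.1 h1
  have hx1 : x ≠ 1 := fun h => hx1' (Subtype.ext h)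
  intro y hy
  have hmem : (⟨y, hy⟩ : N) ∈ Subgroup.zpowers (⟨x, hx.1⟩ : N) := by
    apply mem_zpowers_of_prime_card hN
    intro h
    exact hx1 (congrArg Subtype.val h)
  obtain ⟨k, hk⟩ := Subgroup.mem_zpowers_iff.1 hmem
  have hk' : x ^ k = y := congrArg Subtype.val hk
  rw [← hk']
  exact Subgroup.zpow_mem _ hx.2 k

/-- a nontrivial normal subgroup of a `p`-group contains a central element of order `p` -/
theorem exists_central_orderOf_eq (hP : IsPGroup p P) (N : Subgroup P) [N.Normal] (hN : N ≠ ⊥) :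
    ∃ c ∈ N, c ∈ Subgroup.center P ∧ orderOf c = p := by
  have hnil : Group.IsNilpotent P := hP.isNilpotent
  have h1 := Helper1.normal_inf_center_ne_bot hN
  obtain ⟨⟨x, hx⟩, hx1'⟩ := Subgroup.ne_bot_iff_exists_ne_one.1 h1
  have hx1 : x ≠ 1 := fun h => hx1' (Subtype.ext h)
  obtain ⟨k, hk⟩ := (IsPGroup.iff_orderOf.1 hP) x
  have hk0 : k ≠ 0 := by
    rintro rfl
    rw [pow_zero, orderOf_eq_one_iff] at hk
    exact hx1 hk
  obtain ⟨j, rfl⟩ := Nat.exists_eq_succ_of_ne_zero hk0
  refine ⟨x ^ (p ^ j), N.pow_mem hx.1 _, Subgroup.pow_mem _ hx.2 _, ?_⟩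
  rw [orderOf_pow_of_dvd (pow_ne_zero _ hp.out.ne_zero) (by rw [hk]; exact pow_dvd_pow p (Nat.le_succ j)),
    hk, Nat.succ_eq_add_one, pow_succ, Nat.mul_div_cancel_left _ (pow_pos hp.out.pos j)]

end pgroup

section degree

variable {Q : Type*} [Group Q] [Finite Q]

/-- splitting the norm of an irreducible character at the centre -/
theorem card_eq_center_add {χ : Q → ℂ} (hχ : IsIrrCharacter Q χ) :
    ∃ r : ℝ, 0 ≤ r ∧ (Nat.card Q : ℝ)
      = (Nat.card (Subgroup.center Q) : ℝ) * (charDegree χ : ℝ) ^ 2 + r ∧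
      ((∀ x, x ∉ Subgroup.center Q → χ x = 0) → r = 0) := by
  classical
  have := Fintype.ofFinite Q
  have h := irr_inner_self hχ
  unfold classInner at h
  have hc : (Nat.card Q : ℂ) ≠ 0 := card_ne_zero Q
  have h2 : ∑ g : Q, χ g * conj (χ g) = (Nat.card Q : ℂ) := by
    field_simp at h
    exact h
  have h3 : ∑ g : Q, Complex.normSq (χ g) = (Nat.card Q : ℝ) := by
    have : ((∑ g : Q, Complex.normSq (χ g) : ℝ) : ℂ) = ((Nat.card Q : ℝ) : ℂ) := by
      push_cast
      rw [← h2]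
      apply Finset.sum_congr rfl
      intro g _
      rw [Complex.mul_conj]
    exact_mod_cast this
  have hd : χ 1 = (charDegree χ : ℂ) := Helper80.char_one_eq_charDegree (irr_char hχ)
  have h4 : ∀ g ∈ Subgroup.center Q, Complex.normSq (χ g) = (charDegree χ : ℝ) ^ 2 := by
    intro g hg
    have h5 := irr_central_norm hχ hg
    rw [Complex.mul_conj, hd] at h5
    have : ((Complex.normSq (χ g) : ℝ) : ℂ) = (((charDegree χ : ℝ) ^ 2 : ℝ) : ℂ) := by
      rw [h5]; push_cast; ring
    exact_mod_cast this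
  refine ⟨∑ g ∈ Finset.univ.filter (fun g : Q => g ∉ Subgroup.center Q), Complex.normSq (χ g),
    Finset.sum_nonneg (fun g _ => Complex.normSq_nonneg _), ?_, ?_⟩
  · rw [← h3, ← Finset.sum_filter_add_sum_filter_not Finset.univ (fun g : Q => g ∈ Subgroup.center Q)]
    congr 1
    rw [Finset.sum_congr rfl (fun g hg => h4 g (Finset.mem_filter.1 hg).2), Finset.sum_const,
      nsmul_eq_mul]
    congr 2
    rw [Nat.card_eq_fintype_card, Fintype.card_subtype]
  · intro hv
    apply Finset.sum_eq_zero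
    intro g hg
    rw [hv g (Finset.mem_filter.1 hg).2]
    simp

theorem card_center_mul_sq_le {χ : Q → ℂ} (hχ : IsIrrCharacter Q χ) :
    Nat.card (Subgroup.center Q) * (charDegree χ) ^ 2 ≤ Nat.card Q := by
  obtain ⟨r, hr, h, -⟩ := card_eq_center_add hχ
  have : ((Nat.card (Subgroup.center Q) * (charDegree χ) ^ 2 : ℕ) : ℝ) ≤ (Nat.card Q : ℝ) := by
    push_cast
    linarith
  exact_mod_cast this

theorem card_eq_of_vanish {χ : Q → ℂ} (hχ : IsIrrCharacter Q χ)
    (hv : ∀ x, x ∉ Subgroup.center Q → χ x = 0) :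
    Nat.card Q = Nat.card (Subgroup.center Q) * (charDegree χ) ^ 2 := by
  obtain ⟨r, -, h, h0⟩ := card_eq_center_add hχ
  rw [h0 hv, add_zero] at h
  exact_mod_cast h

end degree

section derived

variable {P : Type*} [Group P] [Finite P] {p : ℕ} [hp : Fact p.Prime]

/-- a nonlinear irreducible character is nontrivial at every nonidentity element of a derived
subgroup of prime order -/
theorem ne_of_mem_commutator (hD : Nat.card (commutator P) = p) {χ : P → ℂ}
    (hχ : IsIrrCharacter P χ) (h1 : χ 1 ≠ 1) {c : P} (hc : c ∈ commutator P) (hc1 : c ≠ 1) :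
    χ c ≠ χ 1 := by
  intro h
  apply h1
  apply (Helper80.char_one_eq_one_iff ⟨χ, hχ⟩).2
  intro z hz
  have hmem : (⟨z, hz⟩ : commutator P) ∈ Subgroup.zpowers (⟨c, hc⟩ : commutator P) := by
    apply mem_zpowers_of_prime_card hD
    intro h
    exact hc1 (congrArg Subtype.val h)
  obtain ⟨k, hk⟩ := (mem_powers_iff_mem_zpowers).2 hmem
  have hk' : c ^ k = z := congrArg Subtype.val hk
  change χ z = χ 1
  rw [← hk']
  exact (Helper80.charKer χ (irr_char hχ)).pow_mem h k

theorem vanish_of_card_commutator (hP : IsPGroup p P) (hD : Nat.card (commutator P) = p)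
    {χ : P → ℂ} (hχ : IsIrrCharacter P χ) (h1 : χ 1 ≠ 1) {x : P}
    (hx : x ∉ Subgroup.center P) : χ x = 0 := by
  have hDZ : commutator P ≤ Subgroup.center P := le_center_of_card_eq_prime hP _ hD
  rw [Subgroup.mem_center_iff] at hx
  push Not at hx
  obtain ⟨y, hy⟩ := hx
  have hc0 : x⁻¹ * y⁻¹ * x * y ∈ commutator P := by
    have h0 := Subgroup.commutator_mem_commutator (Subgroup.mem_top x⁻¹) (Subgroup.mem_top y⁻¹)
    rw [commutatorElement_def, inv_inv, inv_inv] at h0
    exact h0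
  apply irr_eq_zero_of_comm hχ x y (hDZ hc0)
  apply ne_of_mem_commutator hD hχ h1 hc0
  intro h
  apply hy
  have : x * y = y * x * (x⁻¹ * y⁻¹ * x * y) := by group
  rw [this, h, mul_one]

theorem card_eq_of_card_commutator (hP : IsPGroup p P) (hD : Nat.card (commutator P) = p)
    {χ : P → ℂ} (hχ : IsIrrCharacter P χ) (h1 : χ 1 ≠ 1) :
    Nat.card P = Nat.card (Subgroup.center P) * (charDegree χ) ^ 2 :=
  card_eq_of_vanish hχ (fun _ hx => vanish_of_card_commutator hP hD hχ h1 hx)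

end derived

/-- nonlinear irreducible characters of the same degree are Galois conjugate -/
def GC (P : Type*) [Group P] : Prop :=
  ∀ χ ψ : P → ℂ, IsIrrCharacter P χ → IsIrrCharacter P ψ → χ 1 ≠ 1 → χ 1 = ψ 1 →
    ∃ k : ℕ, k.Coprime (Nat.card P) ∧ ∀ g : P, ψ g = χ (g ^ k)

section gc

variable {P : Type*} [Group P] [Finite P]

theorem GC.quotient (h : GC P) (N : Subgroup P) [N.Normal] : GC (P ⧸ N) := by
  intro χ ψ hχ hψ h1 h2
  obtain ⟨k, hk, hkk⟩ := h _ _ (Helper80.isIrrCharacter_inflate N hχ)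
    (Helper80.isIrrCharacter_inflate N hψ) h1 h2
  refine ⟨k, Nat.Coprime.coprime_dvd_right ?_ hk, ?_⟩
  · rw [← Subgroup.index_eq_card]
    exact Subgroup.index_dvd_card N
  · intro g
    obtain ⟨g, rfl⟩ := QuotientGroup.mk_surjective g
    exact hkk g

/-- two characters related by `GC` have the same kernel -/
theorem GC.ker_eq (h : GC P) {χ ψ : P → ℂ} (hχ : IsIrrCharacter P χ) (hψ : IsIrrCharacter P ψ)
    (h1 : χ 1 ≠ 1) (h2 : χ 1 = ψ 1) {z : P} (hz : χ z = χ 1) : ψ z = ψ 1 := by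
  obtain ⟨k, -, hkk⟩ := h χ ψ hχ hψ h1 h2
  rw [hkk z, ← h2]
  exact (Helper80.charKer χ (irr_char hχ)).pow_mem hz k

/-- the kernel of a nonlinear irreducible character lies in the derived subgroup -/
theorem GC.ker_le_commutator (h : GC P) {χ : P → ℂ} (hχ : IsIrrCharacter P χ) (h1 : χ 1 ≠ 1)
    {z : P} (hz : χ z = χ 1) : z ∈ commutator P := by
  by_contra hzD
  obtain ⟨lam, hlam, hlamz⟩ := Helper80.exists_irr_ker_ne (commutator P) hzD
  have hl1 : (lam : P → ℂ) 1 = 1 := (Helper80.char_one_eq_one_iff lam).2 hlam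
  have hψ : IsIrrCharacter P ((lam : P → ℂ) * χ) := irr_linear_mul (irr_char lam.2) hl1 hχ
  have h2 : χ 1 = ((lam : P → ℂ) * χ) 1 := by rw [Pi.mul_apply, hl1, one_mul]
  have h3 := h.ker_eq hχ hψ h1 h2 hz
  rw [Pi.mul_apply, Pi.mul_apply, hl1, one_mul, hz] at h3
  apply hlamz
  rw [hl1]
  exact mul_right_cancel₀ (irr_one_ne_zero hχ) (by rw [h3, one_mul])

theorem exists_nonlinear (hna : ¬ ∀ a b : P, a * b = b * a) :
    ∃ χ : P → ℂ, IsIrrCharacter P χ ∧ χ 1 ≠ 1 := by
  by_contra hcon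
  push Not at hcon
  exact hna (Helper80.comm_iff_all_linear.2 (fun χ => hcon χ χ.2))

variable {p : ℕ} [hp : Fact p.Prime]

/-- Step 1: if the derived subgroup has order `p` then the centre is cyclic -/
theorem GC.isCyclic_center (h : GC P) (hna : ¬ ∀ a b : P, a * b = b * a)
    (hD : Nat.card (commutator P) = p) : IsCyclic (Subgroup.center P) := by
  obtain ⟨χ, hχ, h1⟩ := exists_nonlinear hna
  obtain ⟨ω, hω⟩ := Helper76.irr_central_char hχ
  have hinj : Function.Injective ω := by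
    rw [injective_iff_map_eq_one]
    intro z hz
    have h2 := hω z 1
    rw [hz, mul_one, Units.val_one, one_mul] at h2
    by_contra hz1
    exact ne_of_mem_commutator hD hχ h1 (h.ker_le_commutator hχ h1 h2)
      (fun h => hz1 (Subtype.ext h)) h2
  exact isCyclic_of_injective_ringHom ((Units.coeHom ℂ).comp ω)
    (Units.val_injective.comp hinj)

end gc

section converse

variable {P : Type*} [Group P] [Finite P] {p : ℕ} [hp : Fact p.Prime]

/-- the central character of a nonlinear irreducible character is faithful -/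
theorem central_injective (hP : IsPGroup p P) (hcyc : IsCyclic (Subgroup.center P))
    (hD : Nat.card (commutator P) = p) {χ : P → ℂ} (hχ : IsIrrCharacter P χ) (h1 : χ 1 ≠ 1)
    (ω : Subgroup.center P →* ℂˣ)
    (hω : ∀ (z : Subgroup.center P) (g : P), χ ((z : P) * g) = (ω z : ℂ) * χ g) :
    Function.Injective ω := by
  have hDZ : commutator P ≤ Subgroup.center P := le_center_of_card_eq_prime hP _ hD
  rw [injective_iff_map_eq_one]
  intro z hz
  by_contra hz1
  obtain ⟨k, hk⟩ := (IsPGroup.iff_orderOf.1 (hP.to_subgroup (Subgroup.center P))) z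
  have hk0 : k ≠ 0 := by
    rintro rfl
    rw [pow_zero, orderOf_eq_one_iff] at hk
    exact hz1 hk
  obtain ⟨j, rfl⟩ := Nat.exists_eq_succ_of_ne_zero hk0
  set w : Subgroup.center P := z ^ (p ^ j) with hw
  have hwo : orderOf w = p := by
    rw [hw, orderOf_pow_of_dvd (pow_ne_zero _ hp.out.ne_zero)
      (by rw [hk]; exact pow_dvd_pow p (Nat.le_succ j)),
      hk, Nat.succ_eq_add_one, pow_succ, Nat.mul_div_cancel_left _ (pow_pos hp.out.pos j)]
  have hωw : ω w = 1 := by rw [hw, map_pow, hz, one_pow]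
  apply h1
  apply (Helper80.char_one_eq_one_iff ⟨χ, hχ⟩).2
  intro e he
  have hep : (⟨e, hDZ he⟩ : Subgroup.center P) ^ p = 1 := by
    apply Subtype.ext
    have : (⟨e, he⟩ : commutator P) ^ p = 1 := by rw [← hD]; exact pow_card_eq_one'
    have h' : e ^ p = 1 := by simpa using congrArg Subtype.val this
    simpa using h'
  obtain ⟨i, hi⟩ := Subgroup.mem_zpowers_iff.1 (mem_zpowers_of_pow_eq_one hp.out hwo hep)
  have h2 := hω ⟨e, hDZ he⟩ 1
  rw [← hi, map_zpow, hωw, one_zpow, Units.val_one, one_mul, hi, mul_one] at h2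
  exact h2

theorem gc_of_cyclic (hP : IsPGroup p P) (hcyc : IsCyclic (Subgroup.center P))
    (hD : Nat.card (commutator P) = p) : GC P := by
  intro χ ψ hχ hψ h1 h2
  have h1' : ψ 1 ≠ 1 := by rw [← h2]; exact h1
  obtain ⟨ω, hω⟩ := Helper76.irr_central_char hχ
  obtain ⟨ω', hω'⟩ := Helper76.irr_central_char hψ
  have hinj := central_injective hP hcyc hD hχ h1 ω hω
  have hinj' := central_injective hP hcyc hD hψ h1' ω' hω'
  obtain ⟨g₀, hg₀⟩ := hcyc.exists_generator
  set n := orderOf g₀ with hn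
  have hn0 : 0 < n := orderOf_pos g₀
  have hprim : IsPrimitiveRoot (ω g₀) n := by
    rw [hn, ← orderOf_injective ω hinj g₀]
    exact IsPrimitiveRoot.orderOf _
  have hprim' : IsPrimitiveRoot (ω' g₀) n := by
    rw [hn, ← orderOf_injective ω' hinj' g₀]
    exact IsPrimitiveRoot.orderOf _
  have : NeZero n := ⟨hn0.ne'⟩
  obtain ⟨k, -, hkC⟩ := (IsPrimitiveRoot.coe_units_iff.2 hprim).eq_pow_of_pow_eq_one
    (IsPrimitiveRoot.coe_units_iff.2 hprim').pow_eq_one
  have hk : ω g₀ ^ k = ω' g₀ := Units.ext (by simpa using hkC)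
  have hkn : k.Coprime n := by
    rw [← hprim.pow_iff_coprime hn0, hk]
    exact hprim'
  -- `n` is a nontrivial power of `p`
  have hncard : n = Nat.card (Subgroup.center P) := by
    rw [hn]
    exact orderOf_eq_card_of_forall_mem_zpowers hg₀
  have hDZ : commutator P ≤ Subgroup.center P := le_center_of_card_eq_prime hP _ hD
  have hpn : p ∣ n := by
    rw [hncard, ← hD]
    exact Subgroup.card_dvd_of_le hDZ
  have hkp : k.Coprime p := Nat.Coprime.coprime_dvd_right hpn hkn
  obtain ⟨m, hm⟩ := IsPGroup.iff_card.1 hP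
  have hkP : k.Coprime (Nat.card P) := by
    rw [hm]
    exact Nat.Coprime.pow_right m hkp
  have hωeq : ∀ z : Subgroup.center P, ω' z = ω z ^ k := by
    intro z
    obtain ⟨i, rfl⟩ := Subgroup.mem_zpowers_iff.1 (hg₀ z)
    rw [map_zpow, map_zpow, ← hk, ← zpow_natCast, ← zpow_natCast, ← zpow_mul, ← zpow_mul, mul_comm]
  refine ⟨k, hkP, fun g => ?_⟩
  have := Fintype.ofFinite P
  by_cases hg : g ∈ Subgroup.center P
  · have e1 := hω' ⟨g, hg⟩ 1
    have e2 := hω (⟨g, hg⟩ ^ k) 1
    rw [mul_one] at e1 e2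
    simp only [Subgroup.coe_pow] at e2
    rw [e1, e2, hωeq, map_pow, h2]
  · rw [vanish_of_card_commutator hP hD hψ h1' hg,
      vanish_of_card_commutator hP hD hχ h1 (fun h => hg (GalProd.mem_of_pow_mem hkP _ h))]

end converse

section quot

variable {P : Type*} [Group P] [Finite P] (M : Subgroup P) [M.Normal]

theorem card_mul_card_map {K : Subgroup P} (h : M ≤ K) :
    Nat.card M * Nat.card (K.map (QuotientGroup.mk' M)) = Nat.card K := by
  rw [← Subgroup.relIndex_ker, QuotientGroup.ker_mk', Subgroup.relIndex, ← card_subgroupOf_of_le h]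
  exact Subgroup.card_mul_index _

theorem map_center_le_center :
    (Subgroup.center P).map (QuotientGroup.mk' M) ≤ Subgroup.center (P ⧸ M) := by
  rintro _ ⟨z, hz, rfl⟩
  rw [Subgroup.mem_center_iff]
  intro g
  obtain ⟨g, rfl⟩ := QuotientGroup.mk_surjective g
  change QuotientGroup.mk' M g * QuotientGroup.mk' M z = QuotientGroup.mk' M z * QuotientGroup.mk' M g
  rw [← map_mul, ← map_mul, Subgroup.mem_center_iff.1 hz g]

theorem card_center_le_mul (hM : M ≤ Subgroup.center P) :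
    Nat.card (Subgroup.center P) ≤ Nat.card M * Nat.card (Subgroup.center (P ⧸ M)) := by
  rw [← card_mul_card_map M hM]
  exact Nat.mul_le_mul_left _ (Subgroup.card_le_of_le (map_center_le_center M))

theorem card_center_quot_dvd {p : ℕ} (hM : M ≤ Subgroup.center P) (hMp : Nat.card M = p)
    (hcyc : IsCyclic (Subgroup.center (P ⧸ M))) :
    Nat.card (Subgroup.center (P ⧸ M)) ∣ Nat.card (Subgroup.center P) := by
  obtain ⟨cb, hcb⟩ := hcyc.exists_generator
  obtain ⟨c, hc⟩ := QuotientGroup.mk_surjective (cb : P ⧸ M)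
  have hcp : c ^ p ∈ Subgroup.center P := by
    rw [Subgroup.mem_center_iff]
    intro g
    have hm : c⁻¹ * (g * c * g⁻¹) ∈ M := by
      rw [← QuotientGroup.eq_one_iff]
      have h1 := Subgroup.mem_center_iff.1 cb.2 (g : P ⧸ M)
      rw [← hc] at h1
      simp only [QuotientGroup.mk_mul, QuotientGroup.mk_inv]
      rw [h1]
      group
    have hmp : (c⁻¹ * (g * c * g⁻¹)) ^ p = 1 := by
      have : (⟨_, hm⟩ : M) ^ p = 1 := by rw [← hMp]; exact pow_card_eq_one'
      simpa using congrArg Subtype.val this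
    have hcomm : Commute c (c⁻¹ * (g * c * g⁻¹)) := (Subgroup.mem_center_iff.1 (hM hm) c)
    have h2 : (g * c * g⁻¹) ^ p = c ^ p := by
      have e : g * c * g⁻¹ = c * (c⁻¹ * (g * c * g⁻¹)) := by group
      rw [e, hcomm.mul_pow, hmp, mul_one]
    rw [conj_pow] at h2
    calc g * c ^ p = (g * c ^ p * g⁻¹) * g := by group
      _ = c ^ p * g := by rw [h2]
  have ho : orderOf (c : P ⧸ M) = Nat.card (Subgroup.center (P ⧸ M)) := by
    rw [hc, Subgroup.orderOf_coe]
    exact orderOf_eq_card_of_forall_mem_zpowers hcb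
  have hx : ((c : P ⧸ M)) ^ p ∈ (Subgroup.center P).map (QuotientGroup.mk' M) :=
    ⟨c ^ p, hcp, by simp⟩
  have h3 : orderOf ((c : P ⧸ M) ^ p) ∣ Nat.card ((Subgroup.center P).map (QuotientGroup.mk' M)) := by
    have := orderOf_dvd_natCard (⟨_, hx⟩ : (Subgroup.center P).map (QuotientGroup.mk' M))
    rwa [← Subgroup.orderOf_coe] at this
  have h4 : orderOf (c : P ⧸ M) ∣ p * orderOf ((c : P ⧸ M) ^ p) := by
    apply orderOf_dvd_of_pow_eq_one
    rw [pow_mul, pow_orderOf_eq_one]
  rw [← ho, ← card_mul_card_map M hM, hMp]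
  exact h4.trans (Nat.mul_dvd_mul_left p h3)

end quot

section step

variable {P : Type*} [Group P] [Finite P] {p : ℕ} [hp : Fact p.Prime]

/-- numerical data attached to a quotient by a central subgroup of order `p` -/
theorem quot_data (hP : IsPGroup p P) (M : Subgroup P) [M.Normal] (hM : M ≤ Subgroup.center P)
    (hMp : Nat.card M = p) (hcyc : IsCyclic (Subgroup.center (P ⧸ M)))
    (hDQ : Nat.card (commutator (P ⧸ M)) = p) {χ : P ⧸ M → ℂ} (hχ : IsIrrCharacter (P ⧸ M) χ)
    (h1 : χ 1 ≠ 1) :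
    ∃ j : ℕ, Nat.card P = p * (p ^ j * (charDegree χ) ^ 2) ∧
      p ^ j ≤ Nat.card (Subgroup.center P) ∧ Nat.card (Subgroup.center P) ≤ p * p ^ j := by
  have hQ : IsPGroup p (P ⧸ M) := hP.to_quotient M
  obtain ⟨j, hj⟩ := IsPGroup.iff_card.1 (hQ.to_subgroup (Subgroup.center (P ⧸ M)))
  refine ⟨j, ?_, ?_, ?_⟩
  · rw [← hj, ← card_eq_of_card_commutator hQ hDQ hχ h1, ← hMp,
      Subgroup.card_eq_card_quotient_mul_card_subgroup M, mul_comm]
  · rw [← hj]
    exact Nat.le_of_dvd Nat.card_pos (card_center_quot_dvd M hM hMp hcyc)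
  · rw [← hj, ← hMp]
    exact card_center_le_mul M hM

/-- class three case: the quotient has an abelian normal subgroup of index dividing `p` -/
theorem degree_dvd_of_not_le (hP : IsPGroup p P) (M : Subgroup P) [hMn : M.Normal]
    (hM : M ≤ Subgroup.center P) (hMp : Nat.card M = p)
    (hDQ : Nat.card (commutator (P ⧸ M)) = p) (hDZ : ¬ commutator P ≤ Subgroup.center P)
    (χ : IrrCharacter (P ⧸ M)) : charDegree (χ : P ⧸ M → ℂ) ∣ p := by
  have hQ : IsPGroup p (P ⧸ M) := hP.to_quotient M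
  have hQZ : commutator (P ⧸ M) ≤ Subgroup.center (P ⧸ M) := le_center_of_card_eq_prime hQ _ hDQ
  have hmkD : ∀ d ∈ commutator P, (d : P ⧸ M) ∈ commutator (P ⧸ M) := by
    intro d hd
    have h1 : QuotientGroup.mk' M d ∈ (commutator P).map (QuotientGroup.mk' M) :=
      Subgroup.mem_map_of_mem _ hd
    rw [commutator_def, Subgroup.map_commutator] at h1
    exact Subgroup.commutator_mono le_top le_top h1
  have hb : ∀ d ∈ commutator P, ∀ g : P, g * d * g⁻¹ * d⁻¹ ∈ M := by
    intro d hd g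
    rw [← QuotientGroup.eq_one_iff]
    have h1 := Subgroup.mem_center_iff.1 (hQZ (hmkD d hd)) (g : P ⧸ M)
    simp only [QuotientGroup.mk_mul, QuotientGroup.mk_inv]
    rw [h1]
    group
  have hgen : ∀ u ∈ commutator P, u ∉ M → ∀ d ∈ commutator P, ∃ i : ℕ, ∃ m ∈ M, d = u ^ i * m := by
    intro u hu huM d hd
    have hmem : (⟨(d : P ⧸ M), hmkD d hd⟩ : commutator (P ⧸ M))
        ∈ Subgroup.zpowers (⟨(u : P ⧸ M), hmkD u hu⟩ : commutator (P ⧸ M)) := by
      apply mem_zpowers_of_prime_card hDQ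
      intro h
      exact huM ((QuotientGroup.eq_one_iff u).1 (congrArg Subtype.val h))
    obtain ⟨i, hi⟩ := (mem_powers_iff_mem_zpowers).2 hmem
    have hi' : (u : P ⧸ M) ^ i = (d : P ⧸ M) := congrArg Subtype.val hi
    refine ⟨i, (u ^ i)⁻¹ * d, ?_, by group⟩
    rw [← QuotientGroup.eq_one_iff]
    simp only [QuotientGroup.mk_mul, QuotientGroup.mk_inv, QuotientGroup.mk_pow]
    rw [hi', inv_mul_cancel]
  have hDZM : ∀ d ∈ commutator P, d ∈ Subgroup.center P → d ∈ M := by
    intro d hd hdZ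
    by_contra hdM
    apply hDZ
    intro e he
    obtain ⟨i, m, hm, rfl⟩ := hgen d hd hdM e he
    exact Subgroup.mul_mem _ (Subgroup.pow_mem _ hdZ i) (hM hm)
  obtain ⟨y, hyD, hyZ⟩ := SetLike.not_le_iff_exists.1 hDZ
  have hyM : y ∉ M := fun h => hyZ (hM h)
  let φ : P →* M := MonoidHom.mk' (fun g => ⟨g * y * g⁻¹ * y⁻¹, hb y hyD g⟩) (by
    intro a b
    apply Subtype.ext
    exact GalProd.comm_mul_of_central a b y (hM (hb y hyD b)))
  set C : Subgroup P := Subgroup.centralizer (commutator P : Set P) with hC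
  have hker : φ.ker ≤ C := by
    intro g hg
    have h1 : g * y * g⁻¹ * y⁻¹ = 1 := congrArg Subtype.val (MonoidHom.mem_ker.1 hg)
    have h2 : g * y = y * g := by
      calc g * y = (g * y * g⁻¹ * y⁻¹) * (y * g) := by group
        _ = y * g := by rw [h1, one_mul]
    rw [hC, Subgroup.mem_centralizer_iff]
    intro d hd
    obtain ⟨i, m, hm, rfl⟩ := hgen y hyD hyM d hd
    have h3 : Commute g (y ^ i) := Commute.pow_right h2 i
    have h4 : Commute g m := (Subgroup.mem_center_iff.1 (hM hm) g)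
    exact (h3.mul_right h4).symm
  have hidx : C.index ∣ p := by
    refine (Subgroup.index_dvd_of_le hker).trans ?_
    rw [Subgroup.index_ker, ← hMp]
    exact Subgroup.card_subgroup_dvd_card _
  have hDC : ⁅commutator P, C⁆ = ⊥ := by
    rw [Subgroup.commutator_eq_bot_iff_le_centralizer, hC]
    exact Subgroup.le_centralizer_iff.1 le_rfl
  have h1 : ⁅⁅C, (⊤ : Subgroup P)⁆, C⁆ = ⊥ := by
    rw [eq_bot_iff, ← hDC]
    exact Subgroup.commutator_mono (Subgroup.commutator_mono le_top le_rfl) le_rfl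
  have h2 : ⁅⁅(⊤ : Subgroup P), C⁆, C⁆ = ⊥ := by
    rw [eq_bot_iff, ← hDC]
    exact Subgroup.commutator_mono (Subgroup.commutator_mono le_rfl le_top) le_rfl
  have h3 : ⁅⁅C, C⁆, (⊤ : Subgroup P)⁆ = ⊥ := Subgroup.commutator_commutator_eq_bot_of_rotate h1 h2
  have hCC : ⁅C, C⁆ ≤ M := by
    intro d hd
    apply hDZM d (Subgroup.commutator_mono le_top le_top hd)
    rw [Subgroup.commutator_eq_bot_iff_le_centralizer] at h3
    have := h3 hd
    rwa [Subgroup.coe_top, Subgroup.centralizer_univ] at this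
  have hCn : C.Normal := by rw [hC]; infer_instance
  have hCbn : (C.map (QuotientGroup.mk' M)).Normal :=
    hCn.map _ (QuotientGroup.mk'_surjective M)
  have hcomm : ∀ a ∈ C.map (QuotientGroup.mk' M), ∀ b ∈ C.map (QuotientGroup.mk' M),
      a * b = b * a := by
    rintro _ ⟨a, ha, rfl⟩ _ ⟨b, hb', rfl⟩
    have h4 : a * b * a⁻¹ * b⁻¹ ∈ M := by
      apply hCC
      have := Subgroup.commutator_mem_commutator ha hb'
      rwa [commutatorElement_def] at this
    have h5 : ((a * b * a⁻¹ * b⁻¹ : P) : P ⧸ M) = 1 := (QuotientGroup.eq_one_iff _).2 h4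
    change (a : P ⧸ M) * (b : P ⧸ M) = (b : P ⧸ M) * (a : P ⧸ M)
    simp only [QuotientGroup.mk_mul, QuotientGroup.mk_inv] at h5
    calc (a : P ⧸ M) * (b : P ⧸ M)
        = ((a : P ⧸ M) * b * (a : P ⧸ M)⁻¹ * (b : P ⧸ M)⁻¹) * ((b : P ⧸ M) * a) := by group
      _ = (b : P ⧸ M) * a := by rw [h5, one_mul]
  exact (Helper76.charDegree_dvd_index_of_comm _ hcomm χ).trans
    ((Subgroup.index_map_dvd C (QuotientGroup.mk'_surjective M)).trans hidx)

end step

section arith

variable {p : ℕ}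

theorem exp_eq (hp : p.Prime) {m j a : ℕ} (h : p ^ m = p * (p ^ j * (p ^ a) ^ 2)) :
    m = 1 + j + 2 * a := by
  have : p ^ m = p ^ (1 + j + 2 * a) := by rw [h]; ring
  exact Nat.pow_right_injective hp.two_le this

theorem exp_eq' (hp : p.Prime) {m z a : ℕ} (h : p ^ m = p ^ z * (p ^ a) ^ 2) :
    m = z + 2 * a := by
  have : p ^ m = p ^ (z + 2 * a) := by rw [h]; ring
  exact Nat.pow_right_injective hp.two_le this

theorem exp_le (hp : p.Prime) {j z : ℕ} (h : p ^ j ≤ p ^ z) : j ≤ z :=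
  (Nat.pow_le_pow_iff_right hp.one_lt).1 h

theorem exp_le' (hp : p.Prime) {j z : ℕ} (h : p ^ z ≤ p * p ^ j) : z ≤ j + 1 := by
  apply exp_le hp
  rw [pow_succ, mul_comm (p ^ j)]
  exact h

theorem exp_le'' (hp : p.Prime) {m z a : ℕ} (h : p ^ z * (p ^ a) ^ 2 ≤ p ^ m) : z + 2 * a ≤ m := by
  apply exp_le hp
  have : p ^ (z + 2 * a) = p ^ z * (p ^ a) ^ 2 := by ring
  rw [this]
  exact h

end arith

section main

universe u

variable {p : ℕ} [hp : Fact p.Prime]

theorem charDegree_eq_pow {P : Type*} [Group P] [Finite P] (hP : IsPGroup p P) {χ : P → ℂ}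
    (hχ : IsIrrCharacter P χ) (h1 : χ 1 ≠ 1) : ∃ a : ℕ, a ≠ 0 ∧ charDegree χ = p ^ a := by
  obtain ⟨m, hm⟩ := IsPGroup.iff_card.1 hP
  have h := Helper80.charDegree_dvd_card ⟨χ, hχ⟩
  rw [hm] at h
  obtain ⟨a, -, ha⟩ := (Nat.dvd_prime_pow hp.out).1 h
  refine ⟨a, ?_, ha⟩
  rintro rfl
  apply h1
  rw [Helper80.char_one_eq_charDegree (irr_char hχ)]
  change charDegree χ = _ at ha
  rw [ha]; simp

theorem GC.card_commutator_aux (n : ℕ) : ∀ (P : Type u) [Group P] [Finite P], Nat.card P = n →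
    IsPGroup p P → (¬ ∀ a b : P, a * b = b * a) → GC P → Nat.card (commutator P) = p := by
  induction n using Nat.strong_induction_on with
  | _ n ih =>
  intro P _ _ hn hP hna hGC
  by_contra hDp
  have hDne : commutator P ≠ ⊥ := by
    intro h
    apply hna
    intro a b
    have h1 := Subgroup.commutator_mem_commutator (Subgroup.mem_top a) (Subgroup.mem_top b)
    rw [← commutator_def, h, Subgroup.mem_bot, commutatorElement_eq_one_iff_mul_comm] at h1
    exact h1
  have key : ∀ c' ∈ commutator P, c' ∈ Subgroup.center P → orderOf c' = p →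
      ∀ (_ : (Subgroup.zpowers c').Normal),
      Nat.card (commutator (P ⧸ Subgroup.zpowers c')) = p ∧
      IsCyclic (Subgroup.center (P ⧸ Subgroup.zpowers c')) ∧
      (¬ ∀ a b : P ⧸ Subgroup.zpowers c', a * b = b * a) := by
    intro c' hc'D hc'Z hc'o hn'
    have hMp : Nat.card (Subgroup.zpowers c') = p := by rw [Nat.card_zpowers, hc'o]
    have hna' : ¬ ∀ a b : P ⧸ Subgroup.zpowers c', a * b = b * a := by
      intro hab
      apply hDp
      have hle : commutator P ≤ Subgroup.zpowers c' := by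
        rw [commutator_def, Subgroup.commutator_le]
        intro a _ b _
        rw [← QuotientGroup.eq_one_iff, commutatorElement_def]
        simp only [QuotientGroup.mk_mul, QuotientGroup.mk_inv]
        rw [hab a b]; group
      have : commutator P = Subgroup.zpowers c' := le_antisymm hle (Subgroup.zpowers_le.2 hc'D)
      rw [this, hMp]
    have hlt : Nat.card (P ⧸ Subgroup.zpowers c') < n := by
      rw [← hn, Subgroup.card_eq_card_quotient_mul_card_subgroup (Subgroup.zpowers c'), hMp]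
      exact lt_mul_of_one_lt_right Nat.card_pos hp.out.one_lt
    have hGC' := hGC.quotient (Subgroup.zpowers c')
    have h1 := ih _ hlt (P ⧸ Subgroup.zpowers c') rfl (hP.to_quotient _) hna' hGC'
    exact ⟨h1, hGC'.isCyclic_center hna' h1, hna'⟩
  obtain ⟨c, hcD, hcZ, hco⟩ := exists_central_orderOf_eq hP (commutator P) hDne
  have hc1 : c ≠ 1 := by
    rintro rfl
    rw [orderOf_one] at hco
    exact hp.out.one_lt.ne hco
  have hM : Subgroup.zpowers c ≤ Subgroup.center P := Subgroup.zpowers_le.2 hcZ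
  have hMn : (Subgroup.zpowers c).Normal := Helper1.normal_of_le_center hM
  have hMp : Nat.card (Subgroup.zpowers c) = p := by rw [Nat.card_zpowers, hco]
  obtain ⟨hDQ, hcyc, hnaQ⟩ := key c hcD hcZ hco hMn
  obtain ⟨χ₁b, hχ₁b, hχ₁b1⟩ := exists_nonlinear hnaQ
  have hχ₁ : IsIrrCharacter P (fun g => χ₁b (g : P ⧸ Subgroup.zpowers c)) :=
    Helper80.isIrrCharacter_inflate _ hχ₁b
  obtain ⟨χ₂, -, hχ₂c⟩ := Helper80.exists_irr_ker_ne (⊥ : Subgroup P)
    (fun h => hc1 (Subgroup.mem_bot.1 h))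
  have hχ₂1 : (χ₂ : P → ℂ) 1 ≠ 1 := fun h => hχ₂c ((Helper80.char_one_eq_one_iff χ₂).1 h c hcD)
  suffices hdeg : charDegree χ₁b = charDegree (χ₂ : P → ℂ) by
    apply hχ₂c
    apply hGC.ker_eq hχ₁ χ₂.2 hχ₁b1
    · change χ₁b 1 = _
      rw [Helper80.char_one_eq_charDegree (irr_char hχ₁b),
        Helper80.char_one_eq_charDegree (irr_char χ₂.2), hdeg]
    · change χ₁b (c : P ⧸ Subgroup.zpowers c) = χ₁b 1
      rw [(QuotientGroup.eq_one_iff c).2 (Subgroup.mem_zpowers c)]
  obtain ⟨m, hm⟩ := IsPGroup.iff_card.1 hP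
  obtain ⟨z, hz⟩ := IsPGroup.iff_card.1 (hP.to_subgroup (Subgroup.center P))
  obtain ⟨j₁, e1, e2, e3⟩ := quot_data hP _ hM hMp hcyc hDQ hχ₁b hχ₁b1
  obtain ⟨a₁, ha₁0, ha₁⟩ := charDegree_eq_pow (hP.to_quotient _) hχ₁b hχ₁b1
  obtain ⟨a₂, ha₂0, ha₂⟩ := charDegree_eq_pow hP χ₂.2 hχ₂1
  rw [hm, ha₁] at e1
  rw [hz] at e2 e3
  have f1 := exp_eq hp.out e1
  have f2 := exp_le hp.out e2
  have f3 := exp_le' hp.out e3
  rw [ha₁, ha₂]
  congr 1
  by_cases hDZ : commutator P ≤ Subgroup.center P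
  · by_cases hK : ∃ c' ∈ commutator P, c' ≠ 1 ∧ (χ₂ : P → ℂ) c' = (χ₂ : P → ℂ) 1
    · obtain ⟨c', hc'D, hc'1, hc'k⟩ := hK
      have hkn := Helper80.charKer_normal (irr_char χ₂.2)
      have hKne : commutator P ⊓ Helper80.charKer (χ₂ : P → ℂ) (irr_char χ₂.2) ≠ ⊥ := by
        intro h
        have : c' ∈ commutator P ⊓ Helper80.charKer (χ₂ : P → ℂ) (irr_char χ₂.2) := ⟨hc'D, hc'k⟩
        rw [h, Subgroup.mem_bot] at this
        exact hc'1 this
      obtain ⟨c₂, hc₂K, hc₂Z, hc₂o⟩ := exists_central_orderOf_eq hP _ hKne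
      have hM₂ : Subgroup.zpowers c₂ ≤ Subgroup.center P := Subgroup.zpowers_le.2 hc₂Z
      have hM₂n : (Subgroup.zpowers c₂).Normal := Helper1.normal_of_le_center hM₂
      have hM₂p : Nat.card (Subgroup.zpowers c₂) = p := by rw [Nat.card_zpowers, hc₂o]
      obtain ⟨hDQ₂, hcyc₂, -⟩ := key c₂ hc₂K.1 hc₂Z hc₂o hM₂n
      have hker₂ : Subgroup.zpowers c₂ ≤ Helper80.charKer (χ₂ : P → ℂ) (irr_char χ₂.2) :=
        Subgroup.zpowers_le.2 hc₂K.2
      obtain ⟨ψ, hψ, hψχ⟩ := Helper80.exists_deflate_irr (N := Subgroup.zpowers c₂) χ₂.2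
        (fun n hn => hker₂ hn)
      have hψ1 : ψ 1 = (χ₂ : P → ℂ) 1 := hψχ 1
      have hψd : charDegree ψ = charDegree (χ₂ : P → ℂ) := by
        unfold charDegree
        rw [hψ1]
      obtain ⟨j₂, g1, g2, g3⟩ := quot_data hP _ hM₂ hM₂p hcyc₂ hDQ₂ hψ (by rw [hψ1]; exact hχ₂1)
      rw [hm, hψd, ha₂] at g1
      rw [hz] at g2 g3
      have k1 := exp_eq hp.out g1
      have k2 := exp_le hp.out g2
      have k3 := exp_le' hp.out g3
      omega
    · push Not at hK
      have hv : ∀ x, x ∉ Subgroup.center P → (χ₂ : P → ℂ) x = 0 := by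
        intro x hx
        rw [Subgroup.mem_center_iff] at hx
        push Not at hx
        obtain ⟨y, hy⟩ := hx
        have hc0 : x⁻¹ * y⁻¹ * x * y ∈ commutator P := by
          have h0 := Subgroup.commutator_mem_commutator (Subgroup.mem_top x⁻¹)
            (Subgroup.mem_top y⁻¹)
          rw [commutatorElement_def, inv_inv, inv_inv] at h0
          exact h0
        apply irr_eq_zero_of_comm χ₂.2 x y (hDZ hc0)
        apply hK _ hc0
        intro h
        apply hy
        have : x * y = y * x * (x⁻¹ * y⁻¹ * x * y) := by group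
        rw [this, h, mul_one]
      have g1 := card_eq_of_vanish χ₂.2 hv
      rw [hm, hz, ha₂] at g1
      have k1 := exp_eq' hp.out g1
      omega
  · have h1 := degree_dvd_of_not_le hP _ hM hMp hDQ hDZ ⟨χ₁b, hχ₁b⟩
    change charDegree χ₁b ∣ p at h1
    rw [ha₁] at h1
    have ha₁1 : a₁ ≤ 1 := by
      have h2 : p ^ a₁ ∣ p ^ 1 := by rwa [pow_one]
      exact (Nat.pow_dvd_pow_iff_le_right hp.out.one_lt).1 h2
    have g1 := card_center_mul_sq_le χ₂.2
    rw [hm, hz, ha₂] at g1
    have k1 := exp_le'' hp.out g1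
    omega

theorem GC.card_commutator {P : Type u} [Group P] [Finite P] (hP : IsPGroup p P)
    (hna : ¬ ∀ a b : P, a * b = b * a) (h : GC P) : Nat.card (commutator P) = p :=
  GC.card_commutator_aux _ P rfl hP hna h

end main

end Cfsg.Agent.Lib.Helper77.GalConjP
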