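import Mathlib
import Cfsg.Agent.Lib.Helper77.Centric

/-!
# A characterization of maximal Brauer pairs (helper77)
-/

set_option autoImplicit false
set_option linter.unusedSectionVars false

namespace Cfsg.Agent.Lib.Helper77

open Cfsg MonoidAlgebra Cfsg.Agent.Lib.Helper78 Cfsg.Agent.Lib.Helper85

universe u v

variable {G : Type u} [Group G] [Fintype G] (M : Ideal AlgInt) [hP : M.IsPrime]
variable {p : ℕ} [Fact p.Prime]

/-- For a maximal pair `(P, e)`, `Z(P)` is a defect group of `e` in `C_G(P)`. -/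
theorem isDef_cen_of_isAMax {k : Type v} [CommRing k] [CharP k p]
    (hdec : HasBlockDecomp k G) {y : APair k G} (hy : IsAMax p y) :
    IsDef p (Cen y.1) y.2 (y.1 ⊓ Cen y.1) := by
  refine ⟨inf_le_right, hy.1.1.to_le inf_le_left,
    trunc_cen_inf_ne_zero hdec hy.1 Relation.ReflTransGen.refl, ?_⟩
  intro S hS hCS hSC hne
  have hSN : S ≤ Subgroup.normalizer (y.1 : Set G) :=
    hSC.trans (Subgroup.centralizer_le_normalizer _)
  have hRp : IsPGroup p ↥(y.1 ⊔ S) := hy.1.1.to_sup_of_normal_left' hS hSN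
  obtain ⟨g, hg⟩ := exists_normal_above hdec hy.1 hRp le_sup_left
    (sup_le Subgroup.le_normalizer hSN)
    ((fixedBy_of_suppIn_cen hy.1.2.mem.1).sup (hy.1.2.mem.2.mono hSC))
    (by rwa [trunc_cen_sup hy.1.2.mem.1])
  have h1 : y.1 ⊔ S = y.1 := hy.2 _ (Relation.ReflTransGen.single hg)
  have h2 : S ≤ y.1 := by rw [← h1]; exact le_sup_right
  exact le_antisymm (le_inf h2 hSC) hCS

/-- The `p`-elements of the stabilizer of a maximal pair `(P, e)` lie in `P C_G(P)`. -/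
theorem mem_sup_cen_of_isAMax (hM : IsPModular p M) {y : APair (ResF M) G} (hy : IsAMax p y)
    {g : G} (hg : g ∈ stabP y) (hgp : ∃ k : ℕ, orderOf g = p ^ k) : g ∈ y.1 ⊔ Cen y.1 := by
  have hsyl := sylIn_aut_of_isAMax M hM hy
  have hgN : g ∈ Subgroup.normalizer (y.1 : Set G) := stabP_le_normalizer _ hg
  set α : MulAut y.1 := y.1.normalizerMonoidHom ⟨g, hgN⟩ with hα
  have hαv : ∀ v : y.1, ((α v : y.1) : G) = g * v * g⁻¹ := fun v => rfl
  have hαmem : α ∈ autInducedBy (stabP y) y.1 :=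
    (Helper84.mem_autInducedBy_iff _ _ _).2 ⟨g, hg, hαv⟩
  have hαp : IsPGroup p (Subgroup.zpowers α) := by
    obtain ⟨k, hk⟩ := hgp
    rw [IsPGroup.iff_card]
    have h1 : α ^ p ^ k = 1 := by
      rw [hα, ← map_pow]
      have : (⟨g, hgN⟩ : Subgroup.normalizer (y.1 : Set G)) ^ p ^ k = 1 := by
        apply Subtype.ext
        show g ^ p ^ k = 1
        rw [← hk]; exact pow_orderOf_eq_one g
      rw [this, map_one]
    rw [Nat.card_zpowers]
    obtain ⟨j, -, hj⟩ := (Nat.dvd_prime_pow Fact.out).1 (orderOf_dvd_of_pow_eq_one h1)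
    exact ⟨j, hj⟩
  obtain ⟨β, hβ, hle⟩ := hsyl.exists_conj_le (T := Subgroup.zpowers α)
    (by rw [Subgroup.zpowers_le]; exact hαmem) hαp
  have h2 : β * α * β⁻¹ ∈ autInducedBy y.1 y.1 :=
    hle ⟨α, Subgroup.mem_zpowers α, rfl⟩
  obtain ⟨t, ht, htv⟩ := (Helper84.mem_autInducedBy_iff _ _ _).1 hβ
  obtain ⟨u, hu, huv⟩ := (Helper84.mem_autInducedBy_iff _ _ _).1 h2
  have htN : t ∈ Subgroup.normalizer (y.1 : Set G) := stabP_le_normalizer _ ht
  -- `α` is conjugation by `t⁻¹ u t ∈ P`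
  have hu' : t⁻¹ * u * t ∈ y.1 := by
    have := (Subgroup.mem_normalizer_iff.1 (Subgroup.inv_mem _ htN) u).1 hu
    simpa using this
  have key : ∀ v ∈ y.1, g * v * g⁻¹ = (t⁻¹ * u * t) * v * (t⁻¹ * u * t)⁻¹ := by
    intro v hv
    have h3 := huv (β ⟨v, hv⟩)
    rw [MulAut.mul_apply, MulAut.mul_apply, MulAut.inv_apply_self, htv, hαv, htv] at h3
    have h4 : t * (g * v * g⁻¹) * t⁻¹ = u * (t * v * t⁻¹) * u⁻¹ := h3
    calc g * v * g⁻¹ = t⁻¹ * (t * (g * v * g⁻¹) * t⁻¹) * t := by group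
      _ = t⁻¹ * (u * (t * v * t⁻¹) * u⁻¹) * t := by rw [h4]
      _ = _ := by group
  have hc : (t⁻¹ * u * t)⁻¹ * g ∈ Cen y.1 := by
    show _ ∈ Subgroup.centralizer _
    rw [Subgroup.mem_centralizer_iff]
    intro v hv
    have := key v hv
    calc v * ((t⁻¹ * u * t)⁻¹ * g)
        = (t⁻¹ * u * t)⁻¹ * ((t⁻¹ * u * t) * v * (t⁻¹ * u * t)⁻¹) * g := by group
      _ = (t⁻¹ * u * t)⁻¹ * (g * v * g⁻¹) * g := by rw [this]
      _ = (t⁻¹ * u * t)⁻¹ * g * v := by group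
  have : g = (t⁻¹ * u * t) * ((t⁻¹ * u * t)⁻¹ * g) := by group
  rw [this]
  exact Subgroup.mul_mem _ (Subgroup.mem_sup_left hu') (Subgroup.mem_sup_right hc)

/-- **Characterization of maximal Brauer pairs.** -/
theorem isAMax_iff (hM : IsPModular p M) {y : APair (ResF M) G} (hy : IsAPair p y) :
    IsAMax p y ↔ IsDef p (Cen y.1) y.2 (y.1 ⊓ Cen y.1) ∧
      ∀ g ∈ stabP y, (∃ k : ℕ, orderOf g = p ^ k) → g ∈ y.1 ⊔ Cen y.1 := by
  have := resF_charP hM
  have hdec := hasBlockDecomp (G := G) M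
  constructor
  · intro h
    exact ⟨isDef_cen_of_isAMax hdec h, fun g hg hgp => mem_sup_cen_of_isAMax M hM h hg hgp⟩
  · rintro ⟨hdef, hpel⟩
    refine ⟨hy, fun z hz => ?_⟩
    by_contra hne
    have hzp : IsAPair p z := hz.isAPair_right hy
    have hlt : y.1 < z.1 := lt_of_le_of_ne hz.le (fun h => hne h.symm)
    have h1 := Cfsg.Agent.Lib.Helper47.lt_inf_normalizer hzp.1 hlt
    obtain ⟨g, hg, -⟩ := hz.exists_normal hdec hzp (R := z.1 ⊓ Subgroup.normalizer (y.1 : Set G))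
      h1.le inf_le_left inf_le_right
    have hRp : IsPGroup p ↥(z.1 ⊓ Subgroup.normalizer (y.1 : Set G)) := hzp.1.to_le inf_le_left
    have hRle : z.1 ⊓ Subgroup.normalizer (y.1 : Set G) ≤ y.1 ⊔ Cen y.1 := by
      intro r hr
      apply hpel r ⟨hr.2, mem_stabSub.2 (hg.2.2.2.2.1 r hr)⟩
      obtain ⟨k, hk⟩ := (IsPGroup.iff_orderOf.1 hRp) ⟨r, hr⟩
      rw [Subgroup.orderOf_mk] at hk
      exact ⟨k, hk⟩
    have h2 := (isDef_sup_cen hy.1 hy.2.mem.1 hdef).2.2.2 _ hRp h1.le hRle hg.trunc_ne_zero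
    exact h1.ne h2.symm

end Cfsg.Agent.Lib.Helper77
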