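import Cfsg.Agent.Lib.Lead.Cores

/-! Groups with a trivial-intersection Sylow `p`-subgroup and `O_p = O_{p'} = 1`. -/

set_option autoImplicit false

namespace Cfsg.Agent.Lib.Helper77

open Cfsg Subgroup
open scoped Pointwise

variable {X : Type*} [Group X] [Finite X] {p : ℕ} [Fact p.Prime]

/-- The trivial-intersection property of a Sylow subgroup. -/
def SylTI (P : Sylow p X) : Prop :=
  ∀ g : X, g ∉ Subgroup.normalizer ((P : Subgroup X) : Set X) →
    (P : Subgroup X) ⊓ (MulAut.conj g • (P : Subgroup X)) = ⊥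

theorem SylTI.mem_normalizer {P : Sylow p X} (h : SylTI P) {g z : X} (hz : z ∈ (P : Subgroup X))
    (hz' : g⁻¹ * z * g ∈ (P : Subgroup X)) (hz1 : z ≠ 1) :
    g ∈ Subgroup.normalizer ((P : Subgroup X) : Set X) := by
  by_contra hg
  have h1 := h g hg
  have h2 : z ∈ (P : Subgroup X) ⊓ (MulAut.conj g • (P : Subgroup X)) := by
    refine Subgroup.mem_inf.2 ⟨hz, ?_⟩
    rw [Subgroup.mem_pointwise_smul_iff_inv_smul_mem]
    simpa [MulAut.smul_def, MulAut.conj_apply] using hz'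
  rw [h1, Subgroup.mem_bot] at h2
  exact hz1 h2

theorem SylTI.all {P : Sylow p X} (h : SylTI P) (P' : Sylow p X) : SylTI P' := by
  obtain ⟨g, rfl⟩ := MulAction.exists_smul_eq X P P'
  intro a ha
  rw [eq_bot_iff]
  intro z hz
  rw [Subgroup.mem_bot]
  by_contra hz1
  apply ha
  obtain ⟨hz2, hz3⟩ := Subgroup.mem_inf.1 hz
  rw [Sylow.coe_subgroup_smul, Subgroup.mem_pointwise_smul_iff_inv_smul_mem] at hz2
  rw [Subgroup.mem_pointwise_smul_iff_inv_smul_mem, Sylow.coe_subgroup_smul,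
    Subgroup.mem_pointwise_smul_iff_inv_smul_mem] at hz3
  have e2 : g⁻¹ * z * g ∈ (P : Subgroup X) := by
    simpa [MulAut.smul_def, MulAut.conj_apply] using hz2
  have e3 : (g⁻¹ * a * g)⁻¹ * (g⁻¹ * z * g) * (g⁻¹ * a * g) ∈ (P : Subgroup X) := by
    have : (g⁻¹ * a * g)⁻¹ * (g⁻¹ * z * g) * (g⁻¹ * a * g) = g⁻¹ * (a⁻¹ * z * a) * g := by group
    rw [this]
    simpa [MulAut.smul_def, MulAut.conj_apply, mul_assoc] using hz3
  have e4 : g⁻¹ * z * g ≠ 1 := by
    intro h5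
    apply hz1
    calc z = g * (g⁻¹ * z * g) * g⁻¹ := by group
      _ = 1 := by rw [h5]; group
  have e5 := h.mem_normalizer e2 e3 e4
  rw [Subgroup.mem_normalizer_iff] at e5 ⊢
  intro w
  rw [Sylow.coe_subgroup_smul, Subgroup.mem_pointwise_smul_iff_inv_smul_mem,
    Subgroup.mem_pointwise_smul_iff_inv_smul_mem]
  have e6 := e5 (g⁻¹ * w * g)
  have e7 : g⁻¹ * a * g * (g⁻¹ * w * g) * (g⁻¹ * a * g)⁻¹ = g⁻¹ * (a * w * a⁻¹) * g := by group
  rw [e7] at e6
  simpa [MulAut.smul_def, MulAut.conj_apply, mul_assoc] using e6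

theorem dvd_card_of_normal_ne_bot (hOp' : pPrimeCore p X = ⊥) (K : Subgroup X) [K.Normal]
    (hK : K ≠ ⊥) : p ∣ Nat.card K := by
  by_contra h
  have hp : p.Prime := Fact.out
  have h1 : (Nat.card K).Coprime p := ((Nat.Prime.coprime_iff_not_dvd hp).2 h).symm
  have h2 := Cfsg.Agent.Lib.Lead.le_pPrimeCore (inferInstance : K.Normal) h1
  rw [hOp'] at h2
  exact hK (eq_bot_iff.2 h2)

theorem exists_mem_sylow_inf (P : Sylow p X) (K : Subgroup X) [K.Normal]
    (hK : p ∣ Nat.card K) : ∃ y, y ∈ (P : Subgroup X) ∧ y ∈ K ∧ y ≠ 1 := by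
  have hp : p.Prime := Fact.out
  obtain ⟨x, hx⟩ := exists_prime_orderOf_dvd_card' p hK
  have hx' : orderOf (x : X) = p := by rw [Subgroup.orderOf_coe]; exact hx
  have hpg : IsPGroup p (Subgroup.zpowers (x : X)) := by
    rw [IsPGroup.iff_card]
    exact ⟨1, by rw [Nat.card_zpowers, hx', pow_one]⟩
  obtain ⟨P', hP'⟩ := hpg.exists_le_sylow
  obtain ⟨g, rfl⟩ := MulAction.exists_smul_eq X P P'
  have h1 : (x : X) ∈ ((g • P : Sylow p X) : Subgroup X) := hP' (Subgroup.mem_zpowers _)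
  rw [Sylow.coe_subgroup_smul, Subgroup.mem_pointwise_smul_iff_inv_smul_mem] at h1
  refine ⟨g⁻¹ * x * g, by simpa [MulAut.smul_def, MulAut.conj_apply] using h1, ?_, ?_⟩
  · have := (inferInstance : K.Normal).conj_mem _ x.2 g⁻¹
    simpa using this
  · intro h5
    have : (x : X) = 1 := by
      calc (x : X) = g * (g⁻¹ * x * g) * g⁻¹ := by group
        _ = 1 := by rw [h5]; group
    rw [this, orderOf_one] at hx'
    exact hp.one_lt.ne hx'

theorem centralizer_eq_bot_of_sylTI (hOp : pCore p X = ⊥) (hOp' : pPrimeCore p X = ⊥)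
    {P : Sylow p X} (hTI : SylTI P) (K : Subgroup X) [K.Normal] (hK : K ≠ ⊥) :
    Subgroup.centralizer (K : Set X) = ⊥ := by
  have hp : p.Prime := Fact.out
  obtain ⟨y, hyP, hyK, hy1⟩ := exists_mem_sylow_inf P K (dvd_card_of_normal_ne_bot hOp' K hK)
  set C := Subgroup.centralizer (K : Set X) with hC
  have hCn : C.Normal := inferInstance
  have hCN : C ≤ Subgroup.normalizer ((P : Subgroup X) : Set X) := by
    intro c hc
    refine hTI.mem_normalizer hyP ?_ hy1
    have h1 : y * c = c * y := (Subgroup.mem_centralizer_iff.1 hc) y hyK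
    have : c⁻¹ * y * c = y := by rw [mul_assoc, h1]; group
    rw [this]
    exact hyP
  have hsub : ∀ R : Subgroup X, IsPGroup p R → R ≤ C → R ≤ (P : Subgroup X) := by
    intro R hR hRC
    have h1 : R ⊓ Subgroup.normalizer ((P : Subgroup X) : Set X) = R ⊓ (P : Subgroup X) :=
      hR.inf_normalizer_sylow P
    rw [inf_eq_left.2 (hRC.trans hCN)] at h1
    exact inf_eq_left.1 h1.symm
  have hQn : ((P : Subgroup X) ⊓ C).Normal := by
    constructor
    intro z hz g
    have h1 : g * z * g⁻¹ ∈ C := hCn.conj_mem z hz.2 g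
    refine ⟨?_, h1⟩
    have hpg : IsPGroup p (Subgroup.zpowers (g * z * g⁻¹)) := by
      have h2 : IsPGroup p (Subgroup.zpowers z) :=
        P.2.to_le (by rw [Subgroup.zpowers_le]; exact hz.1)
      rw [IsPGroup.iff_card] at h2 ⊢
      obtain ⟨n, hn⟩ := h2
      refine ⟨n, ?_⟩
      rw [Nat.card_zpowers] at hn ⊢
      have : orderOf (g * z * g⁻¹) = orderOf z := by
        have := (MulAut.conj g).orderOf_eq z
        simpa [MulAut.conj_apply] using this
      rw [this, hn]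
    exact hsub _ hpg (by rw [Subgroup.zpowers_le]; exact h1) (Subgroup.mem_zpowers _)
  have hQ0 : (P : Subgroup X) ⊓ C = ⊥ := by
    have h1 := Cfsg.Agent.Lib.Lead.le_pCore hQn (P.2.to_le inf_le_left)
    rw [hOp] at h1
    exact eq_bot_iff.2 h1
  have hcop : (Nat.card C).Coprime p := by
    refine ((Nat.Prime.coprime_iff_not_dvd hp).2 ?_).symm
    intro hdvd
    obtain ⟨y', h1, h2, h3⟩ := exists_mem_sylow_inf P C hdvd
    have : y' ∈ (P : Subgroup X) ⊓ C := ⟨h1, h2⟩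
    rw [hQ0, Subgroup.mem_bot] at this
    exact h3 this
  have h2 := Cfsg.Agent.Lib.Lead.le_pPrimeCore hCn hcop
  rw [hOp'] at h2
  exact eq_bot_iff.2 h2

theorem exists_min_normal_of_sylTI (hOp : pCore p X = ⊥) (hOp' : pPrimeCore p X = ⊥)
    {P : Sylow p X} (hP1 : (P : Subgroup X) ≠ ⊥) (hTI : SylTI P) :
    ∃ N : Subgroup X, N.Normal ∧ N ≠ ⊥ ∧ (∀ K : Subgroup X, K.Normal → K ≠ ⊥ → N ≤ K) ∧
      Subgroup.centralizer (N : Set X) = ⊥ := by
  have hne : ({K : Subgroup X | K.Normal ∧ K ≠ ⊥}).Nonempty := by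
    refine ⟨⊤, inferInstance, ?_⟩
    intro h
    apply hP1
    rw [eq_bot_iff, ← h]
    exact le_top
  obtain ⟨N, hN⟩ := (Set.toFinite {K : Subgroup X | K.Normal ∧ K ≠ ⊥}).exists_minimal hne
  obtain ⟨⟨hNn, hN1⟩, hmin⟩ := hN
  have hcen := centralizer_eq_bot_of_sylTI hOp hOp' hTI N hN1
  refine ⟨N, hNn, hN1, ?_, hcen⟩
  intro K hKn hK1
  by_cases h : N ⊓ K = ⊥
  · exfalso
    apply hK1
    rw [eq_bot_iff, ← hcen]
    intro k hk
    rw [Subgroup.mem_centralizer_iff]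
    intro n hn
    exact Subgroup.commute_of_normal_of_disjoint N K hNn hKn (disjoint_iff.2 h) n k hn hk
  · have h1 : N ⊓ K ∈ {K : Subgroup X | K.Normal ∧ K ≠ ⊥} := ⟨inferInstance, h⟩
    exact (hmin h1 inf_le_left).trans inf_le_right

end Cfsg.Agent.Lib.Helper77
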